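import Cfsg.Agent.Lib.Forms.SpOre3
import Cfsg.Agent.Lib.Forms.OSpec

/-!
Commutators in finite orthogonal groups: unipotent radicals of stabilisers of totally singular
subspaces and the reduction to a Levi factor.
-/

set_option autoImplicit false

namespace Cfsg.Agent.Ore

open Module Polynomial Cfsg.Agent.Forms Cfsg.Agent.Forms.Form

theorem exists_conj_mem {G : Type*} [Group G] (K : Subgroup G) [Finite K] {h : G}
    (hK : ∀ w ∈ K, h * w * h⁻¹ ∈ K) (hc : ∀ w ∈ K, Commute w h → w = 1) {v : G} (hv : v ∈ K) :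
    ∃ w ∈ K, w * h * w⁻¹ = v * h := by
  obtain ⟨w, hw⟩ := Finite.surjective_of_injective (f := fun w : K =>
    (⟨w * (h * (w : G)⁻¹ * h⁻¹), mul_mem w.2 (hK _ (inv_mem w.2))⟩ : K)) (fun w w' e => by
      have e1 : (w : G) * (h * (w : G)⁻¹ * h⁻¹) = w' * (h * (w' : G)⁻¹ * h⁻¹) :=
        congrArg Subtype.val e
      have := hc _ (mul_mem (inv_mem w'.2) w.2) (show _ * _ = _ * _ by
        calc (w' : G)⁻¹ * w * h = (w' : G)⁻¹ * (w * (h * (w : G)⁻¹ * h⁻¹)) * h * w := by group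
          _ = _ := by rw [e1]; group)
      exact Subtype.ext (inv_mul_eq_one.1 this).symm) ⟨v, hv⟩
  exact ⟨w, w.2, by rw [← show _ = v from congrArg Subtype.val hw]; simp [mul_assoc]⟩

theorem comm_mem {G : Type*} [Group G] (a b : G) : a * b * a⁻¹ * b⁻¹ ∈ commutator G :=
  Subgroup.commutator_mem_commutator (Subgroup.mem_top a) (Subgroup.mem_top b)

theorem exists_conj_mem' {G : Type*} [Group G] (K : Subgroup G) [Finite K] {h : G}
    (hK : ∀ w ∈ K, h * w * h⁻¹ ∈ K) (hc : ∀ w ∈ K, Commute w h → w = 1) {v : G} (hv : v ∈ K) :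
    v ∈ commutator G ∧ ∃ w ∈ commutator G, w * h * w⁻¹ = v * h := by
  have key : ∀ v ∈ K, v ∈ commutator G := fun v hv => by
    obtain ⟨w, -, e⟩ := exists_conj_mem K hK hc hv
    rw [← mul_inv_eq_iff_eq_mul.2 e]
    exact comm_mem w h
  obtain ⟨w, hw, e⟩ := exists_conj_mem K hK hc hv
  exact ⟨key v hv, w, key w hw, e⟩

/-- a commutator of two elements of the derived subgroup -/
def OC {G : Type*} [Group G] (g : G) : Prop :=
  ∃ x ∈ commutator G, ∃ b ∈ commutator G, g = x * b * x⁻¹ * b⁻¹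

/-- a commutator of elements congruent to `x` and conjugate to `b` -/
def CW {G : Type*} [Group G] (g x b : G) : Prop :=
  ∃ w ∈ commutator G, ∃ w' ∈ commutator G,
    g = (w * x * w'⁻¹) * (w' * b * w'⁻¹) * (w * x * w'⁻¹)⁻¹ * (w' * b * w'⁻¹)⁻¹

theorem CW.of_eq {G : Type*} [Group G] {g x b : G} (h : g = x * b * x⁻¹ * b⁻¹) : CW g x b :=
  ⟨1, one_mem _, 1, one_mem _, by simpa using h⟩

theorem CW.oc {G : Type*} [Group G] {g x b z : G} (h : CW g x b) (hz : Commute z b)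
    (hx : x * z ∈ commutator G) (hb : b ∈ commutator G) : OC g := by
  obtain ⟨w, hw, w', hw', rfl⟩ := h
  refine ⟨w * (x * z) * w'⁻¹, mul_mem (mul_mem hw hx) (inv_mem hw'), w' * b * w'⁻¹,
    mul_mem (mul_mem hw' hb) (inv_mem hw'), ?_⟩
  calc _ = w * x * b * x⁻¹ * w⁻¹ * (w' * b * w'⁻¹)⁻¹ := by group
    _ = w * x * (z * b * z⁻¹) * x⁻¹ * w⁻¹ * (w' * b * w'⁻¹)⁻¹ := by rw [hz.eq]; group
    _ = _ := by group

theorem OC.map {G H : Type*} [Group G] [Group H] (φ : G →* H) {g : G} (h : OC g) : OC (φ g) := by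
  obtain ⟨x, hx, b, hb, rfl⟩ := h
  have key : ∀ y ∈ commutator G, φ y ∈ commutator H := fun y hy =>
    (Subgroup.map_le_iff_le_comap.1 (show (commutator G).map φ ≤ commutator H by
      rw [commutator_def, Subgroup.map_commutator]
      exact Subgroup.commutator_mono le_top le_top)) hy
  exact ⟨φ x, key x hx, φ b, key b hb, by simp⟩

theorem OC.exists {G : Type*} [Group G] (g : commutator G) (h : OC (g : G)) :
    ∃ a b : commutator G, g = a * b * a⁻¹ * b⁻¹ := by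
  obtain ⟨x, hx, b, hb, e⟩ := h
  exact ⟨⟨x, hx⟩, ⟨b, hb⟩, Subtype.ext e⟩

variable {F : Type*} [Field F] {V : Type*} [AddCommGroup V] [Module F V] [FiniteDimensional F V]
  {f : Form (Param.orth F) V}

/-- the unipotent radical of the stabiliser of `C` -/
def UU (f : Form (Param.orth F) V) (C : Submodule F V) : Subgroup f.Isom where
  carrier := {u | (∀ c ∈ C, u.1 c = c) ∧ ∀ x ∈ f.orth C, u.1 x - x ∈ C}
  mul_mem' := by
    rintro u w ⟨h1, h2⟩ ⟨h3, h4⟩
    refine ⟨fun c hc => by rw [Isom.mul_apply, h3 c hc, h1 c hc], fun x hx => ?_⟩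
    have : (u * w).1 x - x = (w.1 x - x) + (u.1 x - x) := by
      rw [Isom.mul_apply, ← h1 _ (h4 x hx), map_sub]; abel
    rw [this]
    exact add_mem (h4 x hx) (h2 x hx)
  one_mem' := ⟨fun _ _ => rfl, fun x _ => by simp⟩
  inv_mem' := by
    rintro u ⟨h1, h2⟩
    have h3 : ∀ c ∈ C, u⁻¹.1 c = c := fun c hc => by
      conv_lhs => rw [← h1 c hc, Isom.inv_apply]
    refine ⟨h3, fun x hx => ?_⟩
    have h4 := h3 _ (h2 x hx)
    rw [map_sub, Isom.inv_apply] at h4
    rw [← neg_mem_iff, neg_sub, h4]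
    exact h2 x hx

theorem conj_mem_UU {C : Submodule F V} {b u : f.Isom} (hb : ∀ c ∈ C, b.1 c ∈ C)
    (hu : u ∈ UU f C) : b * u * b⁻¹ ∈ UU f C := by
  refine ⟨fun c hc => ?_, fun x hx => ?_⟩
  · rw [Isom.mul_apply, Isom.mul_apply, hu.1 _ (Isom.inv_mem hb c hc), Isom.apply_inv]
  · have := hb _ (hu.2 _ (Isom.orth_invariant b⁻¹ (Isom.inv_mem hb) x hx))
    rwa [map_sub, Isom.apply_inv] at this

omit [FiniteDimensional F V] in
theorem eq_zero_of_coprime {φ b : Module.End F V} (hc : Commute φ b) {r t : F[X]}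
    (h : IsCoprime r t) {x : V} (h1 : aeval b r (φ x) = 0) (h2 : φ (aeval b t x) = 0) :
    φ x = 0 := by
  obtain ⟨α, β, e⟩ := h
  have h4 := LinearMap.congr_fun (congrArg (aeval b) e) (φ x)
  simp only [map_add, map_mul, map_one, LinearMap.add_apply, Module.End.mul_apply, h1,
    Module.End.one_apply] at h4
  rw [← aeval_comm_apply hc, h2] at h4
  simpa using h4.symm

omit [FiniteDimensional F V] in
theorem commute_N {w b : f.Isom} (h : Commute w b) : Commute (Isom.N w) (b.1 : V →ₗ[F] V) :=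
  Commute.sub_left (LinearMap.ext fun x => congrArg (fun z : f.Isom => z.1 x) h.eq)
    (Commute.one_left _)

/-- two totally singular subspaces in duality -/
structure Dual (f : Form (Param.orth F) V) (A C : Submodule F V) : Prop where
  hA : ∀ x ∈ A, f.Q x = 0
  hC : ∀ x ∈ C, f.Q x = 0
  nd : Disjoint (A ⊔ C) (f.orth (A ⊔ C))

omit [FiniteDimensional F V] in
theorem Dual.symm {A C : Submodule F V} (h : Dual f A C) : Dual f C A :=
  ⟨h.hC, h.hA, by rw [sup_comm]; exact h.nd⟩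

omit [FiniteDimensional F V] in
theorem Dual.BA {A C : Submodule F V} (h : Dual f A C) {x y : V} (hx : x ∈ A) (hy : y ∈ A) :
    f.B x y = 0 := (totSing_of_Q h.hA).2 x hx y hy

omit [FiniteDimensional F V] in
theorem Dual.BC {A C : Submodule F V} (h : Dual f A C) {x y : V} (hx : x ∈ C) (hy : y ∈ C) :
    f.B x y = 0 := h.symm.BA hx hy

theorem Dual.decomp (hf : f.Nondeg) {A C : Submodule F V} (h : Dual f A C) (x : V) :
    ∃ a ∈ A, ∃ c ∈ C, ∃ p ∈ f.orth (A ⊔ C), x = a + c + p := by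
  obtain ⟨m, hm, p, hp, rfl⟩ := Submodule.mem_sup.1
    ((hf.isCompl_orth h.nd).sup_eq_top ▸ Submodule.mem_top (x := x))
  obtain ⟨a, ha, c, hc, rfl⟩ := Submodule.mem_sup.1 hm
  exact ⟨a, ha, c, hc, p, hp, rfl⟩

theorem Dual.decomp_orth (hf : f.Nondeg) {A C : Submodule F V} (h : Dual f A C) {x : V}
    (hx : x ∈ f.orth C) : ∃ c ∈ C, ∃ p ∈ f.orth (A ⊔ C), x = c + p := by
  obtain ⟨a, ha, c, hc, p, hp, rfl⟩ := h.decomp hf x
  have : a = 0 := Submodule.disjoint_def.1 h.nd a (Submodule.mem_sup_left ha) (by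
    rw [orth_sup]
    refine ⟨fun y hy => h.BA ha hy, fun y hy => ?_⟩
    have := hx y hy
    rwa [B_add_left, B_add_left, h.BC hc hy, hp y (Submodule.mem_sup_right hy), add_zero,
      add_zero] at this)
  exact ⟨c, hc, p, hp, by rw [this, zero_add]⟩

omit [FiniteDimensional F V] in
theorem Dual.mem_orth {A C : Submodule F V} (h : Dual f A C) {c p : V} (hc : c ∈ C)
    (hp : p ∈ f.orth (A ⊔ C)) : c + p ∈ f.orth C := fun y hy => by
  rw [B_add_left, h.BC hc hy, hp y (Submodule.mem_sup_right hy), add_zero]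

/-- the Levi part of an isometry fixing `C` pointwise -/
theorem Dual.exists_levi (hf : f.Nondeg) {A C : Submodule F V} (h : Dual f A C) {s : f.Isom}
    (hs : ∀ c ∈ C, s.1 c = c) :
    ∃ σ : f.Isom, (∀ m ∈ A ⊔ C, σ.1 m = m) ∧ ∀ y ∈ f.orth C, s.1 y - σ.1 y ∈ C := by
  have hc := hf.isCompl_orth h.nd
  let π := (f.orth (A ⊔ C)).projection (A ⊔ C) hc.symm
  let φ : V →ₗ[F] V := LinearMap.ofIsCompl hc (A ⊔ C).subtype
    (π ∘ₗ (s.1 : V →ₗ[F] V) ∘ₗ (f.orth (A ⊔ C)).subtype)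
  have h1 : ∀ m ∈ A ⊔ C, ∀ p ∈ f.orth (A ⊔ C), φ (m + p) = m + π (s.1 p) := fun m hm p hp => by
    rw [map_add, LinearMap.ofIsCompl_apply_left hc ⟨m, hm⟩,
      LinearMap.ofIsCompl_apply_right hc ⟨p, hp⟩]
    rfl
  have h2 : ∀ p ∈ f.orth (A ⊔ C), s.1 p - π (s.1 p) ∈ C ∧ π (s.1 p) ∈ f.orth (A ⊔ C) ∧
      f.Q (π (s.1 p)) = f.Q p := fun p hp => by
    obtain ⟨c, hc', p', hp', e⟩ := h.decomp_orth hf (Isom.orth_invariant s
      (fun c hc' => (hs c hc').symm ▸ hc') p (f.orth_le le_sup_right hp))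
    have h3 : π (s.1 p) = p' := by
      rw [e, map_add, Submodule.projection_apply_of_mem_left _ hp',
        (Submodule.projection_apply_eq_zero_iff _).2 (Submodule.mem_sup_right hc'), zero_add]
    refine ⟨by rw [h3, e, add_sub_cancel_right]; exact hc', h3 ▸ hp', ?_⟩
    rw [h3, ← Isom.map_Q s p, e, orth_Q_add, h.hC c hc', orth_symm,
      hp' c (Submodule.mem_sup_right hc'), zero_add, add_zero]
  refine ⟨Isom.ofEnd hf φ (orth_isIsom fun v => ?_), fun m hm => by simpa using h1 m hm 0 (zero_mem _),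
    fun y hy => ?_⟩
  · obtain ⟨m, hm, p, hp, rfl⟩ := Submodule.mem_sup.1 (hc.sup_eq_top ▸ Submodule.mem_top (x := v))
    rw [h1 m hm p hp, orth_Q_add, orth_Q_add, (h2 p hp).2.2, orth_symm, (h2 p hp).2.1 m hm,
      orth_symm, hp m hm]
  · obtain ⟨c, hc', p, hp, rfl⟩ := h.decomp_orth hf hy
    rw [Isom.ofEnd_apply, h1 c (Submodule.mem_sup_right hc') p hp, map_add, hs c hc',
      add_sub_add_left_eq_sub]
    exact (h2 p hp).1

theorem mul_inv_mem_UU {C : Submodule F V} {s σ : f.Isom} (hs : ∀ c ∈ C, s.1 c = c)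
    (hσ : ∀ c ∈ C, σ.1 c = c) (h : ∀ y ∈ f.orth C, s.1 y - σ.1 y ∈ C) : s * σ⁻¹ ∈ UU f C := by
  have h1 : ∀ c ∈ C, σ⁻¹.1 c = c := fun c hc => by conv_lhs => rw [← hσ c hc, Isom.inv_apply]
  refine ⟨fun c hc => by rw [Isom.mul_apply, h1 c hc, hs c hc], fun x hx => ?_⟩
  have := h _ (Isom.orth_invariant σ⁻¹ (fun c hc => (h1 c hc).symm ▸ hc) x hx)
  rwa [Isom.apply_inv] at this

/-- no nontrivial element of the radical commutes with `b` -/
def Free (C : Submodule F V) (b : f.Isom) : Prop :=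
  (∀ c ∈ C, b.1 c ∈ C) ∧ ∀ w ∈ UU f C, Commute w b → w = 1

theorem Free.of_poly (hf : f.Nondeg) {A C : Submodule F V} (h : Dual f A C) {b : f.Isom}
    (hb : ∀ c ∈ C, b.1 c ∈ C) {r t : F[X]} (hrt : IsCoprime r t)
    (hr : ∀ c ∈ C, aeval (b.1 : V →ₗ[F] V) r c = 0)
    (ht : ∀ p ∈ f.orth (A ⊔ C), aeval (b.1 : V →ₗ[F] V) t p = 0)
    (h2 : ∀ w : f.Isom, (∀ x ∈ f.orth C, w.1 x = x) → Commute w b → w = 1) : Free C b := by
  refine ⟨hb, fun w hw hc => h2 w (fun x hx => ?_) hc⟩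
  obtain ⟨c, hc', p, hp, rfl⟩ := h.decomp_orth hf hx
  have := eq_zero_of_coprime (commute_N hc) hrt (x := p)
    (hr _ (hw.2 p (f.orth_le le_sup_right hp))) (by rw [ht p hp, map_zero])
  rw [map_add, hw.1 c hc', show w.1 p = p from sub_eq_zero.1 this]

theorem eq_one_of_line (hf : f.Nondeg) {c : V} (hc : f.Q c = 0) {w : f.Isom}
    (hw : ∀ x ∈ f.orth (F ∙ c), w.1 x = x) : w = 1 := by
  refine Isom.ext fun x => ?_
  have h1 : w.1 x - x ∈ F ∙ c := by
    rw [← hf.orth_orth (F ∙ c)]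
    intro y hy
    rw [B_sub_left, ← hw y hy, Isom.map_B, hw y hy, sub_self]
  obtain ⟨a, ha⟩ := Submodule.mem_span_singleton.1 h1
  by_cases h0 : f.B x c = 0
  · exact hw x (mem_orth_singleton.2 h0)
  · have h2 := Isom.map_Q w x
    rw [← sub_add_cancel (w.1 x) x, ← ha, orth_Q_add, orth_Q_smul, hc, B_smul_left, orth_symm] at h2
    have : a = 0 := (mul_eq_zero.1 (by linear_combination h2)).resolve_right h0
    rw [this, zero_smul] at ha
    exact sub_eq_zero.1 ha.symm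

theorem eq_one_of_poly (hf : f.Nondeg) {A C : Submodule F V} (h : Dual f A C) {b : f.Isom}
    {r t : F[X]} (hrt : IsCoprime r t) (hr : ∀ c ∈ C, aeval (b.1 : V →ₗ[F] V) r c = 0)
    (ht : ∀ a ∈ A, aeval (b.1 : V →ₗ[F] V) t a = 0) (w : f.Isom)
    (hw : ∀ x ∈ f.orth C, w.1 x = x) (hc : Commute w b) : w = 1 := by
  refine Isom.ext fun x => ?_
  obtain ⟨a, ha, c, hc', p, hp, rfl⟩ := h.decomp hf x
  have h1 : Isom.N w a ∈ C := by
    rw [← hf.orth_orth C]
    intro y hy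
    rw [Isom.N_apply, B_sub_left, ← hw y hy, Isom.map_B, hw y hy, sub_self]
  have := eq_zero_of_coprime (commute_N hc) hrt (hr _ h1) (by rw [ht a ha, map_zero])
  rw [add_assoc, map_add, show w.1 a = a from sub_eq_zero.1 this, hw _ (h.mem_orth hc' hp), Isom.one_apply]

variable [Fintype F]

theorem Free.mem_commutator {C : Submodule F V} {b u : f.Isom} (h : Free C b)
    (hu : u ∈ UU f C) : u ∈ commutator f.Isom := by
  have := f.finite_isom
  exact (exists_conj_mem' _ (fun w hw => conj_mem_UU h.1 hw) h.2 hu).1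

/-- the reduction lemma -/
theorem red {A C : Submodule F V} {u u' x b : f.Isom} (hu : u ∈ UU f C) (hu' : u' ∈ UU f A)
    (hA : Free A b) (hC : Free C (x * b * x⁻¹)) : CW (u * (x * b * x⁻¹ * b⁻¹) * u') x b := by
  have := f.finite_isom
  obtain ⟨-, w, hw, e⟩ := exists_conj_mem' _ (fun w hw => conj_mem_UU hC.1 hw) hC.2 hu
  obtain ⟨-, w', hw', e'⟩ := exists_conj_mem' _ (fun w hw => conj_mem_UU hA.1 hw) hA.2 (inv_mem hu')
  refine ⟨w, hw, w', hw', ?_⟩
  rw [e']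
  calc _ = u * (x * b * x⁻¹) * (u'⁻¹ * b)⁻¹ := by group
    _ = _ := by rw [← e, ← e']; group

end Cfsg.Agent.Ore
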