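import Cfsg.Agent.Lib.Ore.KT

/-!
Conjugacy of involutions in finite orthogonal groups of odd characteristic and commutators.
-/

set_option autoImplicit false

universe u

namespace Cfsg.Agent.Ore

open Module Polynomial Cfsg.Agent.Forms Cfsg.Agent.Forms.Form

variable {F : Type*} [Field F] {V : Type u} [AddCommGroup V] [Module F V] [FiniteDimensional F V]
  {f : Form (Param.orth F) V}

theorem exists_nondeg (Y : Submodule F V) : ∃ W ≤ Y, Disjoint W (f.orth W) ∧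
    finrank F W + finrank F ↥(Y ⊓ f.orth Y) = finrank F Y := by
  obtain ⟨W, hW⟩ := (Y ⊓ f.orth Y).exists_isCompl
  have h1 : (Y ⊓ f.orth Y) ⊔ (W ⊓ Y) = Y := by
    rw [← sup_inf_assoc_of_le _ inf_le_left, hW.sup_eq_top, top_inf_eq]
  have h2 := hW.disjoint.mono_right (inf_le_left (b := Y))
  refine ⟨W ⊓ Y, inf_le_right, Submodule.disjoint_def.2 fun x hx hx' =>
    Submodule.disjoint_def.1 h2 x ⟨hx.2, ?_⟩ hx, ?_⟩
  · rw [← h1, orth_sup]
    exact ⟨fun y hy => f.B_eq_zero_symm (hy.2 x hx.2), hx'⟩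
  · have := Submodule.finrank_sup_add_finrank_inf_eq (Y ⊓ f.orth Y) (W ⊓ Y)
    rw [h1, h2.eq_bot, finrank_bot] at this
    omega

theorem finrank_rad_le {X Y : Submodule F V} (hX : Disjoint X (f.orth X)) (h : Y ≤ X) :
    finrank F ↥(Y ⊓ f.orth Y) + finrank F Y ≤ finrank F X := by
  have h1 := ((f.restrict_nondeg_iff X).2 hX).finrank_add_orth (Y.comap X.subtype)
  rw [(Submodule.comapSubtypeEquivOfLe h).finrank_eq] at h1
  rw [← h1, add_comm, add_le_add_iff_left, ← Submodule.finrank_map_subtype_eq]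
  exact Submodule.finrank_mono fun x hx => ⟨⟨x, h hx.1⟩, fun y hy => hx.2 _ hy, rfl⟩

theorem exists_nondeg_le (h2 : (2 : F) ≠ 0) {W : Submodule F V} (hW : Disjoint W (f.orth W)) {k : ℕ}
    (hk : k ≤ finrank F W) : ∃ U ≤ W, Disjoint U (f.orth U) ∧ finrank F U = k := by
  obtain ⟨b, hb⟩ := ((f.restrict_nondeg_iff W).2 hW).orth_exists_orthFam h2 k hk
  have h1 : f.OrthFam fun i => (b i : V) := ⟨hb.ne, hb.diag⟩
  refine ⟨_, Submodule.span_le.2 ?_, h1.disjoint, by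
    rw [finrank_span_eq_card h1.linearIndependent, Fintype.card_fin]⟩
  rintro _ ⟨i, rfl⟩
  exact (b i).2

theorem exists_nondeg_rank (h2 : (2 : F) ≠ 0) {Y : Submodule F V} {k : ℕ}
    (hk : finrank F ↥(Y ⊓ f.orth Y) + k ≤ finrank F Y) :
    ∃ U ≤ Y, Disjoint U (f.orth U) ∧ finrank F U = k := by
  obtain ⟨W, h3, h4, h5⟩ := exists_nondeg (f := f) Y
  obtain ⟨U, h6, h7⟩ := exists_nondeg_le h2 h4 (k := k) (by omega)
  exact ⟨U, h6.trans h3, h7⟩

omit [FiniteDimensional F V] in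
theorem disjoint_fix_res (h2 : (2 : F) ≠ 0) {s : f.Isom} (hs : s * s = 1) :
    Disjoint (Isom.fix s) (Isom.res s) := Submodule.disjoint_def.2 fun x h3 h4 => by
  have := (Isom.mem_fix.1 h3).symm.trans ((mem_res_iff h2 hs).1 h4)
  rwa [eq_neg_iff_add_eq_zero, ← two_smul F, smul_eq_zero_iff_right h2] at this

omit [FiniteDimensional F V] in
theorem nondeg_res (hf : f.Nondeg) (h2 : (2 : F) ≠ 0) {s : f.Isom} (hs : s * s = 1) :
    Disjoint (Isom.res s) (f.orth (Isom.res s)) :=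
  hf.orth_res s ▸ (disjoint_fix_res h2 hs).symm

theorem nondeg_fix (hf : f.Nondeg) (h2 : (2 : F) ≠ 0) {s : f.Isom} (hs : s * s = 1) :
    Disjoint (Isom.fix s) (f.orth (Isom.fix s)) :=
  hf.orth_fix s ▸ disjoint_fix_res h2 hs

omit [FiniteDimensional F V] in
theorem add_mem_fix {s : f.Isom} (hs : s * s = 1) (x : V) : x + s.1 x ∈ Isom.fix s := by
  rw [Isom.mem_fix, map_add, ss hs, add_comm]

omit [FiniteDimensional F V] in
theorem exists_eig (h2 : (2 : F) ≠ 0) {s : f.Isom} (hs : s * s = 1) (x : V) :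
    ∃ a b, s.1 a = a ∧ s.1 b = -b ∧ x = a + b :=
  ⟨(2 : F)⁻¹ • (x + s.1 x), (2 : F)⁻¹ • (x - s.1 x), by rw [map_smul, map_add, ss hs, add_comm],
    by rw [map_smul, map_sub, ss hs, ← smul_neg, neg_sub],
    by rw [← smul_add, add_add_sub_cancel, ← two_smul F, inv_smul_smul₀ h2]⟩

omit [FiniteDimensional F V] in
theorem conj_of_maps (h2 : (2 : F) ≠ 0) {s t x : f.Isom} (ht : t * t = 1)
    (h1 : ∀ v, t.1 v = v → s.1 (x.1 v) = x.1 v) (h3 : ∀ v, t.1 v = -v → s.1 (x.1 v) = -x.1 v) :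
    x * t * x⁻¹ = s := mul_inv_eq_iff_eq_mul.2 (Isom.ext fun v => by
  obtain ⟨a, b, ha, hb, rfl⟩ := exists_eig h2 ht v
  simp only [Isom.mul_apply, map_add, ha, hb, h1 a ha, h3 b hb, map_neg])

omit [FiniteDimensional F V] in
theorem B_eig (h2 : (2 : F) ≠ 0) {s : f.Isom} {a b : V} (ha : s.1 a = a) (hb : s.1 b = -b) :
    f.B a b = 0 := by
  have := Isom.map_B s a b
  rw [ha, hb, B_neg_right] at this
  exact (mul_eq_zero.1 (show 2 * f.B a b = 0 by linear_combination -this)).resolve_left h2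

theorem witt_ker (hf : f.Nondeg) (h2 : (2 : F) ≠ 0) {W : Type*} [AddCommGroup W] [Module F W]
    [FiniteDimensional F W] (φ ψ : W →ₗ[F] V) (h : ∀ x, φ x = 0 ↔ ψ x = 0)
    (hB : ∀ x y, f.B (φ x) (φ y) = f.B (ψ x) (ψ y)) : ∃ g : f.Isom, ∀ x, g.1 (φ x) = ψ x := by
  obtain ⟨C, hC⟩ := (LinearMap.ker φ).exists_isCompl
  have h1 : ∀ x : C, φ x = 0 → x = 0 := fun x hx =>
    Subtype.ext (Submodule.disjoint_def.1 hC.disjoint _ hx x.2)
  obtain ⟨g, hg⟩ := hf.witt_maps (φ ∘ₗ C.subtype) (ψ ∘ₗ C.subtype)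
    ((injective_iff_map_eq_zero _).2 h1)
    ((injective_iff_map_eq_zero _).2 fun x hx => h1 x ((h x).2 hx)) (fun x y => hB x y)
    fun x => mul_left_cancel₀ h2 (by rw [← orth_B_self, ← orth_B_self]; exact hB x x)
  refine ⟨g, fun x => ?_⟩
  obtain ⟨k, hk, c, hc, rfl⟩ := Submodule.mem_sup.1 (hC.sup_eq_top ▸ Submodule.mem_top (x := x))
  rw [map_add, map_add ψ, LinearMap.mem_ker.1 hk, (h k).1 hk, zero_add, zero_add]
  exact hg ⟨c, hc⟩

theorem finrank_res_refl (hf : f.Nondeg) (a : V) (h : f.Q a ≠ 0) :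
    finrank F (Isom.res (f.refl a h)) = 1 := by
  have := hf.finrank_res_mul_refl 1 a h
  rw [one_mul, Isom.finrank_res_one] at this
  omega

omit [FiniteDimensional F V] in
theorem commute_refl {z : f.Isom} {y : V} (hy : f.Q y ≠ 0) (h : z.1 y = y ∨ z.1 y = -y) :
    Commute z (f.refl y hy) := by
  refine mul_inv_eq_iff_eq_mul.1 ((f.refl_conj z y hy).trans ?_)
  rcases h with h | h
  · exact f.refl_congr _ h
  · rw [← f.refl_smul y hy (-1) (by simp)]
    exact f.refl_congr _ (by rw [h, neg_one_smul])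

variable [Fintype F]

theorem univ_of_nondeg {W : Submodule F V} (hW : Disjoint W (f.orth W)) (h : 2 ≤ finrank F W)
    (c : F) : ∃ y ∈ W, f.Q y = c := by
  obtain ⟨y, hy⟩ := ((f.restrict_nondeg_iff W).2 hW).orth_exists_Q_eq h c
  exact ⟨y, y.2, hy⟩

theorem univ_of_rank {Y : Submodule F V} (h : finrank F ↥(Y ⊓ f.orth Y) + 2 ≤ finrank F Y)
    (c : F) : ∃ y ∈ Y, f.Q y = c := by
  obtain ⟨W, h3, h4, h5⟩ := exists_nondeg (f := f) Y
  obtain ⟨y, h6, h7⟩ := univ_of_nondeg h4 (by omega) c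
  exact ⟨y, h3 h6, h7⟩

theorem univ {X Y : Submodule F V} (hX : Disjoint X (f.orth X)) (h : Y ≤ X)
    (hd : finrank F X + 2 ≤ 2 * finrank F Y) (c : F) : ∃ y ∈ Y, f.Q y = c :=
  univ_of_rank (by have := finrank_rad_le hX h; omega) c

theorem spin_invol (hf : f.Nondeg) (h2 : (2 : F) ≠ 0) {s : f.Isom} (hs : s * s = 1) :
    hf.spin h2 s = (f.restrict (Isom.res s)).disc * chi F 2 ^ finrank F (Isom.res s) := by
  have h1 := nondeg_res hf h2 hs
  have : glue hf h1 (negOne _, 1) = s := Isom.ext fun x => by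
    obtain ⟨a, b, rfl⟩ := decomp hf h1 x
    rw [glue_apply, map_add, (mem_res_iff h2 hs).1 a.2, Isom.mem_fix.1 ((hf.orth_res s).le b.2)]
    simp [negOne_apply]
  conv_lhs => rw [← this, spin_glue, map_one, mul_one, Nondeg.spin_negOne]

theorem exists_conj0 (hf : f.Nondeg) (h2 : (2 : F) ≠ 0) {s t : f.Isom} (hs : s * s = 1)
    (ht : t * t = 1) (hd : finrank F (Isom.res s) = finrank F (Isom.res t))
    (h : hf.spin h2 s = hf.spin h2 t) : ∃ x, x * t * x⁻¹ = s := by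
  rw [spin_invol hf h2 hs, spin_invol hf h2 ht, hd] at h
  obtain ⟨i⟩ := ((f.restrict_nondeg_iff _).2 (nondeg_res hf h2 ht)).orth_iso
    ((f.restrict_nondeg_iff _).2 (nondeg_res hf h2 hs)) h2 hd.symm
    (mul_right_cancel₀ (pow_ne_zero _ (chi_ne_zero h2)) h).symm
  obtain ⟨x, hx⟩ := hf.witt_maps (Isom.res t).subtype ((Isom.res s).subtype ∘ₗ i.e.toLinearMap)
    (Submodule.injective_subtype _) ((Submodule.injective_subtype _).comp i.e.injective)
    (fun x y => (i.isom.map_B x y).symm) fun x => (i.isom.map_Q x).symm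
  refine ⟨x, conj_of_maps h2 ht (fun v hv => Isom.mem_fix.1 (hf.orth_res s ▸ fun z hz => ?_))
    fun v hv => (mem_res_iff h2 hs).1 ?_⟩
  · obtain ⟨y, e⟩ := i.e.surjective ⟨z, hz⟩
    rw [← show x.1 y = z from (hx y).trans (congrArg Subtype.val e), Isom.map_B]
    exact B_eig h2 hv ((mem_res_iff h2 ht).1 y.2)
  · exact hx ⟨v, (mem_res_iff h2 ht).2 hv⟩ ▸ (i.e _).2

theorem exists_conj_rel (hf : f.Nondeg) (h2 : (2 : F) ≠ 0) {s t : f.Isom} (hs : s * s = 1)
    (ht : t * t = 1) (hd : finrank F (Isom.res s) = finrank F (Isom.res t))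
    (h : hf.spin h2 s = hf.spin h2 t) {W : Type*} [AddCommGroup W] [Module F W]
    [FiniteDimensional F W] (φ : W →ₗ[F] V)
    (hB : ∀ x y, f.B (φ x) (s.1 (φ y)) = f.B (φ x) (t.1 (φ y)))
    (h1 : ∀ x, s.1 (φ x) = φ x ↔ t.1 (φ x) = φ x) (h3 : ∀ x, s.1 (φ x) = -φ x ↔ t.1 (φ x) = -φ x) :
    ∃ x, x * t * x⁻¹ = s ∧ ∀ w, x.1 (φ w) = φ w := by
  obtain ⟨x, rfl⟩ := exists_conj0 hf h2 hs ht hd h
  have hR := nondeg_res hf h2 ht
  have e1 : ∀ y, y - t.1 y ∈ Isom.res t := Isom.sub_mem_res' t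
  have e2 : ∀ y, y + t.1 y ∈ f.orth (Isom.res t) := fun y => hf.orth_res t ▸ add_mem_fix ht y
  let p : V →ₗ[F] Isom.res t := (1 - (t.1 : V →ₗ[F] V)).codRestrict _ e1
  let q : V →ₗ[F] f.orth (Isom.res t) := (1 + (t.1 : V →ₗ[F] V)).codRestrict _ e2
  have e3 : ∀ y z, (f.restrict _).B (p y) (p z) = 2 * (f.B y z - f.B y (t.1 z)) := fun y z => by
    change f.B (y - t.1 y) (z - t.1 z) = _
    simp only [B_sub_left, B_sub_right, B_invol ht y, ss ht]; ring
  have e4 : ∀ y z, (f.restrict _).B (q y) (q z) = 2 * (f.B y z + f.B y (t.1 z)) := fun y z => by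
    change f.B (y + t.1 y) (z + t.1 z) = _
    simp only [B_add_left, B_add_right, B_invol ht y, ss ht]; ring
  have e5 : ∀ y z, f.B (x⁻¹.1 (φ y)) (t.1 (x⁻¹.1 (φ z))) = f.B (φ y) (t.1 (φ z)) := fun y z => by
    rw [← Isom.B_right, ← hB]; rfl
  obtain ⟨a, ha⟩ := witt_ker ((f.restrict_nondeg_iff _).2 hR) h2 (p ∘ₗ φ)
    (p ∘ₗ (x⁻¹.1 : V →ₗ[F] V) ∘ₗ φ) (fun y => by
      rw [Subtype.ext_iff, Subtype.ext_iff]
      change φ y - t.1 (φ y) = 0 ↔ x⁻¹.1 (φ y) - t.1 (x⁻¹.1 (φ y)) = 0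
      rw [sub_eq_zero, sub_eq_zero, eq_comm, ← h1, ← x.1.injective.eq_iff (a := x⁻¹.1 _),
        Isom.apply_inv, eq_comm]
      rfl) fun y z => (e3 _ _).trans (Eq.trans (by rw [← e5, ← Isom.map_B x⁻¹]; rfl) (e3 _ _).symm)
  obtain ⟨b, hb⟩ := witt_ker (hf.restrict_orth hR) h2 (q ∘ₗ φ)
    (q ∘ₗ (x⁻¹.1 : V →ₗ[F] V) ∘ₗ φ) (fun y => by
      rw [Subtype.ext_iff, Subtype.ext_iff]
      change φ y + t.1 (φ y) = 0 ↔ x⁻¹.1 (φ y) + t.1 (x⁻¹.1 (φ y)) = 0
      rw [add_comm, add_comm (x⁻¹.1 _), add_eq_zero_iff_eq_neg, add_eq_zero_iff_eq_neg, ← h3,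
        ← x.1.injective.eq_iff (b := -x⁻¹.1 _), map_neg, Isom.apply_inv]
      rfl) fun y z => (e4 _ _).trans (Eq.trans (by rw [← e5, ← Isom.map_B x⁻¹]; rfl) (e4 _ _).symm)
  have e6 : glue hf hR (a, b) * t * (glue hf hR (a, b))⁻¹ = t := conj_of_maps h2 ht
    (fun v hv => Isom.mem_fix.1 (hf.orth_res t ▸ (glue_right hf hR (a, b)
      ⟨v, hf.orth_res t ▸ Isom.mem_fix.2 hv⟩).symm ▸ (b.1 _).2))
    fun v hv => (mem_res_iff h2 ht).1 ((glue_left hf hR (a, b)
      ⟨v, (mem_res_iff h2 ht).2 hv⟩).symm ▸ (a.1 _).2)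
  refine ⟨x * glue hf hR (a, b), by
    rw [mul_inv_rev, mul_assoc x, mul_assoc x, ← mul_assoc _ _ x⁻¹, e6, mul_assoc], fun w => ?_⟩
  have e7 : ∀ y, (p y : V) + q y = (2 : F) • y := fun y => by
    change y - t.1 y + (y + t.1 y) = _
    rw [two_smul]; abel
  refine smul_right_injective V h2 ?_
  simp only
  rw [← map_smul, ← e7, Isom.mul_apply, glue_apply]
  erw [ha, hb]
  rw [LinearMap.comp_apply, LinearMap.comp_apply q, e7, e7, map_smul]
  exact congrArg _ (Isom.apply_inv x _)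

theorem exists_refl (hf : f.Nondeg) (h2 : (2 : F) ≠ 0) {P : V → Prop}
    (hP : ∀ c ≠ 0, ∃ y, P y ∧ f.Q y = c) (x : f.Isom) : ∃ h, x * h ∈ commutator f.Isom ∧
      ∀ K : Subgroup f.Isom, (∀ y hy, P y → f.refl y hy ∈ K) → h ∈ K := by
  obtain ⟨c, h0, hc⟩ := exists_chi_eq h2 (hf.spin_mul_self h2 x)
  obtain ⟨y, h1, rfl⟩ := hP c h0
  obtain ⟨z, h3, h4⟩ := hP 1 one_ne_zero
  have h5 : f.Q z ≠ 0 := h4 ▸ one_ne_zero
  rcases (finrank F (Isom.res x)).even_or_odd with h | h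
  · refine ⟨f.refl y h0 * f.refl z h5, (hf.mem_commutator_iff h2 _).2 ⟨?_, ?_⟩,
      fun K hK => mul_mem (hK _ _ h1) (hK _ _ h3)⟩
    · simp [detHom_refl, hf.det_eq_pow_res h2 x, h.neg_one_pow]
    · simp [hf.spin_refl, hc, h4, hf.spin_mul_self]
  · refine ⟨f.refl y h0, (hf.mem_commutator_iff h2 _).2 ⟨?_, ?_⟩, fun K hK => hK _ _ h1⟩
    · simp [detHom_refl, hf.det_eq_pow_res h2 x, h.neg_one_pow]
    · simp [hf.spin_refl, hc, hf.spin_mul_self]

/-- eigenvectors of all norms -/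
def EU (b : f.Isom) : Prop := ∀ c ≠ 0, ∃ y, (b.1 y = y ∨ b.1 y = -y) ∧ f.Q y = c

theorem CW.oc' (hf : f.Nondeg) (h2 : (2 : F) ≠ 0) {g x b : f.Isom} (h : CW g x b) (hb : EU b)
    (hb' : b ∈ commutator f.Isom) : OC g := by
  obtain ⟨z, h1, h3⟩ := exists_refl hf h2 hb x
  exact h.oc (Subgroup.mem_centralizer_singleton_iff.1 (h3 (Subgroup.centralizer {b}) fun y hy h =>
    Subgroup.mem_centralizer_singleton_iff.2 (commute_refl hy h).eq.symm)) h1 hb'

theorem oc_of (hf : f.Nondeg) (h2 : (2 : F) ≠ 0) {t x h : f.Isom} (ht : t * t = 1)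
    (hx : Commute x h) (hb : EU (t * h)) (hb' : t * h ∈ commutator f.Isom) :
    OC (x * t * x⁻¹ * t) :=
  (CW.of_eq (x := x) (b := t * h) (by
    rw [mul_inv_rev t, show t⁻¹ = t from inv_eq_of_mul_eq_one_right ht]
    calc _ = x * t * (x⁻¹ * h) * h⁻¹ * t := by group
      _ = _ := by rw [hx.inv_left.eq]; simp only [mul_assoc])).oc' hf h2 hb hb'

theorem KT.spin_eq (hf : f.Nondeg) (h2 : (2 : F) ≠ 0) {g s t : f.Isom} (h : KT g s t)
    (hg : g ∈ commutator f.Isom) : hf.spin h2 s = hf.spin h2 t := by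
  have h1 := ((hf.mem_commutator_iff h2 _).1 hg).2
  rw [h.eq, map_mul] at h1
  rw [← mul_one (hf.spin h2 s), ← hf.spin_mul_self h2 t, ← mul_assoc, h1, one_mul]

omit [Fintype F] in
theorem exists_big (hf : f.Nondeg) (h2 : (2 : F) ≠ 0) {t : f.Isom} (ht : t * t = 1) :
    ∃ X : Submodule F V, Disjoint X (f.orth X) ∧ finrank F V ≤ 2 * finrank F X ∧
      ∀ x ∈ X, t.1 x = x ∨ t.1 x = -x := by
  have := Isom.finrank_res_add_fix t
  rcases le_total (finrank F (Isom.res t)) (finrank F (Isom.fix t)) with h | h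
  · exact ⟨_, nondeg_fix hf h2 ht, by omega, fun x hx => .inl (Isom.mem_fix.1 hx)⟩
  · exact ⟨_, nondeg_res hf h2 ht, by omega, fun x hx => .inr ((mem_res_iff h2 ht).1 hx)⟩

theorem oc_of_mem (hf : f.Nondeg) (h2 : (2 : F) ≠ 0) {s t : f.Isom} (hs : s * s = 1)
    (ht : t * t = 1) (hd : finrank F (Isom.res s) = finrank F (Isom.res t))
    (h : hf.spin h2 s = hf.spin h2 t) (ht' : t ∈ commutator f.Isom) (hn : 3 ≤ finrank F V) :
    OC (s * t) := by
  obtain ⟨x, rfl⟩ := exists_conj0 hf h2 hs ht hd h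
  obtain ⟨X, h3, h4, h5⟩ := exists_big hf h2 ht
  refine oc_of hf h2 ht (Commute.one_right x) (fun c _ => ?_) (by rwa [mul_one])
  obtain ⟨y, h6, h7⟩ := univ_of_nondeg h3 (by omega) c
  exact ⟨y, by simpa using h5 y h6, h7⟩

theorem oc_of_vec (hf : f.Nondeg) (h2 : (2 : F) ≠ 0) {s t : f.Isom} (hs : s * s = 1)
    (ht : t * t = 1) (hd : finrank F (Isom.res s) = finrank F (Isom.res t))
    (h : hf.spin h2 s = hf.spin h2 t) (hn : 7 ≤ finrank F V) {v : V} (hv : f.Q v ≠ 0)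
    (hB : f.B v (s.1 v) = f.B v (t.1 v)) (h1 : s.1 v = v ↔ t.1 v = v)
    (h3 : s.1 v = -v ↔ t.1 v = -v) (ht' : t * f.refl v hv ∈ commutator f.Isom) : OC (s * t) := by
  obtain ⟨x, rfl, hx⟩ := exists_conj_rel hf h2 hs ht hd h (LinearMap.toSpanSingleton F V v)
    (fun a b => by simp [hB]) (fun a => by
      by_cases ha : a = 0
      · simp [ha]
      · simpa [smul_right_inj ha] using h1) fun a => by
      by_cases ha : a = 0
      · simp [ha]
      · simpa [← smul_neg, smul_right_inj ha] using h3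
  obtain ⟨X, h4, h5, h6⟩ := exists_big hf h2 ht
  refine oc_of hf h2 ht (commute_refl hv (.inl (by simpa using hx 1))) (fun c _ => ?_) ht'
  have h7 := Submodule.finrank_sup_add_finrank_inf_eq X (f.orth (F ∙ v))
  have h8 := hf.finrank_orth_singleton (v := v) (by rintro rfl; exact hv f.Q_zero)
  have h9 := (X ⊔ f.orth (F ∙ v)).finrank_le
  obtain ⟨y, h10, h11⟩ := univ h4 (inf_le_left (b := f.orth (F ∙ v))) (by omega) c
  refine ⟨y, ?_, h11⟩
  rw [Isom.mul_apply, f.refl_apply_of_orth v hv (mem_orth_singleton.1 h10.2)]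
  exact h6 y h10.1

theorem oc_of_vec0 (hf : f.Nondeg) (h2 : (2 : F) ≠ 0) {s t : f.Isom} (hs : s * s = 1)
    (ht : t * t = 1) (hd : finrank F (Isom.res s) = finrank F (Isom.res t))
    (h : hf.spin h2 s = hf.spin h2 t) (hn : 7 ≤ finrank F V) {v : V} (hv : f.Q v ≠ 0)
    (hB : f.B v (s.1 v) = 0) (hB' : f.B v (t.1 v) = 0)
    (ht' : t * f.refl v hv ∈ commutator f.Isom) : OC (s * t) := by
  have h1 : ∀ s : f.Isom, f.B v (s.1 v) = 0 → s.1 v ≠ v ∧ s.1 v ≠ -v := fun s hB =>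
    ⟨fun e => mul_ne_zero h2 hv (by rw [← orth_B_self, ← hB, e]), fun e => mul_ne_zero h2 hv (by
      rw [← orth_B_self, ← neg_eq_zero, ← B_neg_right, ← e, hB])⟩
  exact oc_of_vec hf h2 hs ht hd h hn hv (hB.trans hB'.symm)
    (iff_of_false (h1 s hB).1 (h1 t hB').1) (iff_of_false (h1 s hB).2 (h1 t hB').2) ht'

theorem oc_of_fix (hf : f.Nondeg) (h2 : (2 : F) ≠ 0) {g : f.Isom} (hg : g ∈ commutator f.Isom)
    (hn : 5 ≤ finrank F V) {W : Submodule F V} (hW : Disjoint W (f.orth W))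
    (hd : finrank F W = 2) (h : ∀ x ∈ W, g.1 x = x) : OC g := by
  have h0 : ∀ x ∈ W, g.1 x ∈ W := fun x hx => (h x hx).symm ▸ hx
  have e := glue_restrict hf hW g h0
  rw [show Isom.restrict g W h0 = 1 from Isom.ext fun x => Subtype.ext (h x x.2)] at e
  set g' := Isom.restrict g _ (Isom.orth_invariant g h0)
  have hf' := hf.restrict_orth hW
  rw [hf.mem_commutator_iff h2, ← e, det_glue, spin_glue, map_one, map_one, one_mul, one_mul] at hg
  obtain ⟨s, t, hk⟩ := exists_kt hf' h2 hg.1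
  obtain ⟨x, rfl⟩ := exists_conj0 hf' h2 hk.hs hk.ht hk.res
    (hk.spin_eq hf' h2 ((hf'.mem_commutator_iff h2 _).2 hg))
  obtain ⟨k, h3, h4⟩ := exists_refl hf h2 (P := (· ∈ W)) (fun c _ => univ_of_nondeg hW hd.ge c)
    (glue hf hW (1, t))
  have e' : g = glue hf hW (1, x) * glue hf hW (1, t) * (glue hf hW (1, x))⁻¹ *
      glue hf hW (1, t) := by
    rw [← e, show g' = _ from hk.eq, ← map_inv, ← map_mul, ← map_mul, ← map_mul]
    simp
  rw [e']
  refine oc_of hf h2 (by rw [← map_mul, Prod.mk_mul_mk, hk.ht, one_mul]; exact map_one _)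
    (Subgroup.mem_centralizer_singleton_iff.1 (h4 (Subgroup.centralizer {_}) fun y hy h =>
      Subgroup.mem_centralizer_singleton_iff.2 (commute_refl hy
        (.inl (glue_left hf hW _ ⟨y, h⟩))).eq.symm)).symm (fun c _ => ?_) h3
  obtain ⟨X, h5, h6, h7⟩ := exists_big hf' h2 hk.ht
  have := hf.finrank_add_orth W
  obtain ⟨y, h8, h9⟩ := univ_of_nondeg h5 (by omega) c
  refine ⟨y, ?_, h9⟩
  rw [Isom.mul_apply, h4 (f.ptw (f.orth W)) (fun z hz h y hy =>
    f.refl_apply_of_orth z hz (hy z h)) y y.2, glue_right]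
  exact (h7 y h8).imp (congrArg Subtype.val) (congrArg Subtype.val)

omit [Fintype F] in
theorem KT.neg (h2 : (2 : F) ≠ 0) {g s t : f.Isom} (h : KT g s t) :
    KT g (f.negOne * s) (f.negOne * t) :=
  ⟨neg_sq h.hs, neg_sq h.ht, Isom.ext fun x => by simp [h.eq, negOne_apply], by
    rw [res_neg h2 h.hs, res_neg h2 h.ht]
    have := Isom.finrank_res_add_fix s
    have := Isom.finrank_res_add_fix t
    have := h.res
    omega, h.bal.neg h2 h.hs⟩

omit [Fintype F] in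
theorem KT.glue_neg (hf : f.Nondeg) (h2 : (2 : F) ≠ 0) {W : Submodule F V}
    (hW : Disjoint W (f.orth W)) {τ : (f.restrict W).Isom} (hτ : τ * τ = 1)
    (hd : 2 * finrank F (Isom.res τ) = finrank F W) {g s t} (hk : KT g s t) :
    KT (glue hf hW (negOne _, g)) (glue hf hW (negOne _ * τ, s)) (glue hf hW (τ, t)) := by
  have := Isom.finrank_res_add_fix τ
  have := hk.res
  have := hk.bal
  refine ⟨by rw [← map_mul, Prod.mk_mul_mk, neg_sq hτ, hk.hs]; exact map_one _,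
    by rw [← map_mul, Prod.mk_mul_mk, hτ, hk.ht]; exact map_one _,
    by rw [← map_mul, Prod.mk_mul_mk, mul_assoc, hτ, mul_one, hk.eq], ?_, ?_⟩
  · rw [finrank_res_glue, finrank_res_glue, res_neg h2 hτ]
    simp only
    omega
  · simp only [Bal, finrank_fix_glue, finrank_res_glue] at *
    rw [res_neg h2 hτ, fix_neg h2 hτ]
    omega

omit [Fintype F] in
theorem exists_glue_neg (hf : f.Nondeg) {g : f.Isom} (hg : f.detHom g = 1)
    {W : Submodule F V} (hW : Disjoint W (f.orth W)) (hd : Even (finrank F W))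
    (h : ∀ x ∈ W, g.1 x = -x) : ∃ g', g = glue hf hW (negOne _, g') ∧ detHom _ g' = 1 := by
  have h0 : ∀ x ∈ W, g.1 x ∈ W := fun x hx => (h x hx).symm ▸ neg_mem hx
  have e := glue_restrict hf hW g h0
  rw [show Isom.restrict g W h0 = negOne _ from Isom.ext fun x => Subtype.ext (by
    rw [negOne_apply]; exact h x x.2)] at e
  rw [← e, det_glue, det_neg, hd.neg_one_pow, one_mul] at hg
  exact ⟨_, e.symm, hg⟩

omit [Fintype F] in
theorem KT.det (hf : f.Nondeg) (h2 : (2 : F) ≠ 0) {g s t : f.Isom} (h : KT g s t) {k : ℕ}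
    (hn : finrank F V = 2 * k) : f.detHom t = (-1) ^ k := by
  have := Isom.finrank_res_add_fix s
  have := h.bal
  rw [hf.det_eq_pow_res h2, ← h.res, show finrank F (Isom.res s) = k by unfold Bal at this; omega]

theorem exists_kt_odd (hf : f.Nondeg) (h2 : (2 : F) ≠ 0) {g : f.Isom} (hg : f.detHom g = 1)
    (hn : finrank F V % 2 = 1 ∨ finrank F V % 4 = 2) : ∃ s t, KT g s t ∧ f.detHom t = -1 := by
  obtain ⟨s, t, h⟩ := exists_kt hf h2 hg
  rcases hn with hn | hn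
  · rcases (finrank F (Isom.res t)).even_or_odd with e | e
    · exact ⟨_, _, h.neg h2, by rw [map_mul, det_neg, hf.det_eq_pow_res h2, e.neg_one_pow,
        (Nat.odd_iff.2 hn).neg_one_pow, mul_one]⟩
    · exact ⟨_, _, h, by rw [hf.det_eq_pow_res h2, e.neg_one_pow]⟩
  · exact ⟨_, _, h, by
      rw [h.det hf h2 (k := finrank F V / 2) (by omega), (Nat.odd_iff.2 (by omega)).neg_one_pow]⟩

theorem KT.oc_of_mem (hf : f.Nondeg) (h2 : (2 : F) ≠ 0) {g s t : f.Isom} (h : KT g s t)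
    (hg : g ∈ commutator f.Isom) (ht : t ∈ commutator f.Isom) (hn : 3 ≤ finrank F V) : OC g :=
  h.eq ▸ Ore.oc_of_mem hf h2 h.hs h.ht h.res (h.spin_eq hf h2 hg) ht hn

theorem oc_of_neg2 (hf : f.Nondeg) (h2 : (2 : F) ≠ 0) {g : f.Isom} (hg : g ∈ commutator f.Isom)
    (hn : 3 ≤ finrank F V) (hn' : finrank F V % 2 = 1 ∨ finrank F V % 4 = 0) {W : Submodule F V}
    (hW : Disjoint W (f.orth W)) (hd : finrank F W = 2) (h : ∀ x ∈ W, g.1 x = -x) : OC g := by
  obtain ⟨g', rfl, e⟩ := exists_glue_neg hf ((hf.mem_commutator_iff h2 _).1 hg).1 hW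
    (hd ▸ even_two) h
  have hf1 := (f.restrict_nondeg_iff W).2 hW
  have hf2 := hf.restrict_orth hW
  have := hf.finrank_add_orth W
  obtain ⟨s, t, h3, h4⟩ := exists_kt_odd hf2 h2 e (by omega)
  obtain ⟨c, h0, hc⟩ := exists_chi_eq h2 (hf2.spin_mul_self h2 t)
  obtain ⟨a, rfl⟩ := hf1.orth_exists_Q_eq hd.ge c
  refine (h3.glue_neg hf h2 hW (refl_mul_self _ a h0) (by rw [finrank_res_refl hf1, hd])).oc_of_mem
    hf h2 hg ((hf.mem_commutator_iff h2 _).2 ⟨?_, ?_⟩) hn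
  · rw [det_glue, detHom_refl, h4]; simp
  · rw [spin_glue, hf1.spin_refl, hc, hf2.spin_mul_self]

theorem oc_of_neg4 (hf : f.Nondeg) (h2 : (2 : F) ≠ 0) {g : f.Isom} (hg : g ∈ commutator f.Isom)
    (hn : 7 ≤ finrank F V) (hn' : finrank F V % 4 = 2) {W : Submodule F V}
    (hW : Disjoint W (f.orth W)) (hd : finrank F W = 4) (h : ∀ x ∈ W, g.1 x = -x) : OC g := by
  obtain ⟨g', rfl, e⟩ := exists_glue_neg hf ((hf.mem_commutator_iff h2 _).1 hg).1 hW
    (hd ▸ by decide) h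
  have hf1 := (f.restrict_nondeg_iff W).2 hW
  have hf2 := hf.restrict_orth hW
  have := hf.finrank_add_orth W
  obtain ⟨s, t, h3, h4⟩ := exists_kt_odd hf2 h2 e (by omega)
  obtain ⟨U, -, h5, h6⟩ := exists_nondeg_le (f := f.restrict W) h2 (W := ⊤)
    (by rw [hf1.orth_top]; exact disjoint_bot_right) (k := 2) (by rw [finrank_top]; omega)
  have h7 := hf1.finrank_add_orth U
  have hτ : glue hf1 h5 (negOne _, 1) * glue hf1 h5 (negOne _, 1) = 1 := by
    rw [← map_mul, Prod.mk_mul_mk, negOne_mul_self, one_mul]; exact map_one _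
  have hk := h3.glue_neg hf h2 hW hτ (by
    rw [finrank_res_glue, Isom.finrank_res_one, ← mul_one (negOne _), res_neg h2 (one_mul _),
      Isom.fix_one, finrank_top]
    omega)
  obtain ⟨c, h0, hc⟩ := exists_chi_eq h2 (hf.spin_mul_self h2
    (glue hf hW (glue hf1 h5 (negOne _, 1), t)))
  obtain ⟨a, ha, e1⟩ := univ_of_nondeg h5 h6.ge (c / 2)
  obtain ⟨b, hb, e2⟩ := univ_of_nondeg (hf1.disjoint_orth_orth h5) (by omega) (c / 2)
  have e3 : (glue hf1 h5 (negOne _, 1)).1 (a + b) = -a + b := by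
    rw [glue_apply hf1 h5 _ ⟨a, ha⟩ ⟨b, hb⟩, negOne_apply]; rfl
  have e4 : f.B b a = 0 := hb a ha
  have e5 : f.Q (a + b : W) = c := by
    rw [Submodule.coe_add, orth_Q_add, orth_symm, e4]
    exact (congrArg (· + 0) (congrArg₂ _ e1 e2)).trans (by field_simp; ring)
  have e6 : f.B (a + b : W) (-a + b : W) = 0 := by
    simp only [Submodule.coe_add, Submodule.coe_neg, B_add_left, B_add_right, B_neg_right, e4,
      f.orth_symm b a, orth_B_self, show f.Q a = _ from e1, show f.Q b = _ from e2]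
    ring
  rw [hk.eq]
  refine oc_of_vec0 hf h2 hk.hs hk.ht hk.res (hk.spin_eq hf h2 hg) hn (v := (a + b : W))
    (e5 ▸ h0) ?_ ?_ ((hf.mem_commutator_iff h2 _).2 ⟨?_, ?_⟩)
  · rw [glue_left, neg_apply, e3, Submodule.coe_neg, B_neg_right, e6, neg_zero]
  · rw [glue_left, e3, e6]
  · rw [map_mul, hk.det hf h2 (k := finrank F V / 2) (by omega),
      (Nat.odd_iff.2 (by omega)).neg_one_pow, detHom_refl]; simp
  · rw [map_mul, hf.spin_refl, e5, hc, hf.spin_mul_self]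

/-- large eigenspaces -/
def Big (g : f.Isom) : Prop :=
  finrank F V ≤ finrank F (Isom.fix g) + finrank F (Isom.fix (f.negOne * g)) + 2

theorem Big.oc (hf : f.Nondeg) (h2 : (2 : F) ≠ 0) {g : f.Isom} (h : Big g)
    (hg : g ∈ commutator f.Isom) (hn : 7 ≤ finrank F V) : OC g := by
  have h3 : ∀ x ∈ Isom.fix (f.negOne * g), g.1 x = -x := fun x hx =>
    neg_eq_iff_eq_neg.1 ((neg_apply g x).symm.trans (Isom.mem_fix.1 hx))
  have h4 : Isom.fix g ≤ f.orth (Isom.fix (f.negOne * g)) := fun x hx y hy =>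
    B_eig h2 (Isom.mem_fix.1 hx) (h3 y hy)
  have h5 : Disjoint (Isom.fix g) (Isom.fix (f.negOne * g)) := Submodule.disjoint_def.2
    fun x hx hx' => by
      have := (Isom.mem_fix.1 hx).symm.trans (h3 x hx')
      rwa [eq_neg_iff_add_eq_zero, ← two_smul F, smul_eq_zero_iff_right h2] at this
  unfold Big at h
  set A := Isom.fix g
  set C := Isom.fix (f.negOne * g)
  have h6 := Submodule.finrank_sup_add_finrank_inf_eq A C
  have h7 := Submodule.finrank_sup_add_finrank_inf_eq (A ⊓ f.orth A) (C ⊓ f.orth C)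
  rw [h5.eq_bot, finrank_bot] at h6
  rw [(h5.mono inf_le_left inf_le_left).eq_bot, finrank_bot] at h7
  have h8 := hf.finrank_add_orth (A ⊔ C)
  have h9 : finrank F ↥((A ⊓ f.orth A) ⊔ (C ⊓ f.orth C)) ≤ finrank F (f.orth (A ⊔ C)) :=
    Submodule.finrank_mono (by
      rw [orth_sup]
      exact sup_le (le_inf inf_le_right (inf_le_left.trans h4))
        (le_inf (inf_le_left.trans (f.le_orth_comm.1 h4)) inf_le_right))
  by_cases e : finrank F ↥(A ⊓ f.orth A) + 2 ≤ finrank F A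
  · obtain ⟨W, a1, a2, a3⟩ := exists_nondeg_rank h2 e
    exact oc_of_fix hf h2 hg (by omega) a2 a3 fun x hx => Isom.mem_fix.1 (a1 hx)
  by_cases e' : finrank F V % 4 = 2
  · obtain ⟨W, a1, a2, a3⟩ := exists_nondeg_rank (f := f) h2 (Y := C) (k := 4) (by omega)
    exact oc_of_neg4 hf h2 hg hn e' a2 a3 fun x hx => h3 x (a1 hx)
  · obtain ⟨W, a1, a2, a3⟩ := exists_nondeg_rank (f := f) h2 (Y := C) (k := 2) (by omega)
    exact oc_of_neg2 hf h2 hg (by omega) (by omega) a2 a3 fun x hx => h3 x (a1 hx)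

end Cfsg.Agent.Ore
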