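import Cfsg.Agent.Lib.Ore.Basic

/-!
Every element of a finite orthogonal group in odd characteristic is inverted by an involution
with balanced eigenspaces.
-/

set_option autoImplicit false

universe u

namespace Cfsg.Agent.Ore

open Module Polynomial Cfsg.Agent.Forms Cfsg.Agent.Forms.Form

variable {F : Type*} [Field F]

section

variable {V : Type*} [AddCommGroup V] [Module F V] {f : Form (Param.orth F) V}

/-- `s` is an involution inverting `g` -/
structure Inv (g s : f.Isom) : Prop where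
  sq : s * s = 1
  inv : s * g = g⁻¹ * s

/-- balanced eigenspaces -/
def Bal (s : f.Isom) : Prop :=
  finrank F (Isom.fix s) ≤ finrank F (Isom.res s) + 1 ∧
    finrank F (Isom.res s) ≤ finrank F (Isom.fix s) + 1

theorem ss {s : f.Isom} (hs : s * s = 1) (x : V) : s.1 (s.1 x) = x :=
  congrArg (fun z : f.Isom => z.1 x) hs

theorem B_invol {s : f.Isom} (hs : s * s = 1) (x y : V) : f.B (s.1 x) y = f.B x (s.1 y) := by
  rw [← Isom.map_B s x, ss hs]

theorem mem_res_iff (h2 : (2 : F) ≠ 0) {s : f.Isom} (hs : s * s = 1) {x : V} :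
    x ∈ Isom.res s ↔ s.1 x = -x := by
  refine ⟨?_, fun h => ⟨(-(2 : F)⁻¹) • x, ?_⟩⟩
  · rintro ⟨y, rfl⟩
    rw [Isom.N_apply, map_sub, ss hs, neg_sub]
  · rw [map_smul, Isom.N_apply, h, ← neg_add', ← two_smul F, ← neg_smul, smul_smul]
    simp [h2]

theorem neg_apply (s : f.Isom) (x : V) : (f.negOne * s).1 x = -s.1 x := f.negOne_apply _

theorem neg_comm (s : f.Isom) : Commute f.negOne s := f.scalar_commute _ _ s

theorem neg_sq {s : f.Isom} (hs : s * s = 1) : f.negOne * s * (f.negOne * s) = 1 :=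
  Isom.ext fun x => by simp [negOne_apply, ss hs]

theorem fix_neg (h2 : (2 : F) ≠ 0) {s : f.Isom} (hs : s * s = 1) :
    Isom.fix (f.negOne * s) = Isom.res s := by
  ext x
  rw [mem_res_iff h2 hs, Isom.mem_fix, neg_apply, neg_eq_iff_eq_neg]

theorem res_neg (h2 : (2 : F) ≠ 0) {s : f.Isom} (hs : s * s = 1) :
    Isom.res (f.negOne * s) = Isom.fix s := by
  ext x
  rw [mem_res_iff h2 (neg_sq hs), Isom.mem_fix, neg_apply, neg_inj]

theorem Inv.apply {g s : f.Isom} (h : Inv g s) (x : V) : s.1 (g.1 x) = g⁻¹.1 (s.1 x) :=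
  congrArg (fun z : f.Isom => z.1 x) h.inv

theorem Inv.apply' {g s : f.Isom} (h : Inv g s) (x : V) : s.1 (g⁻¹.1 x) = g.1 (s.1 x) := by
  rw [← Isom.apply_inv g (s.1 _), ← h.apply, Isom.apply_inv]

theorem Inv.neg_left {g s : f.Isom} (h : Inv (f.negOne * g) s) : Inv g s :=
  ⟨h.sq, Isom.ext fun x => by
    have := h.apply x
    rw [neg_apply, map_neg, mul_inv_rev, inv_eq_of_mul_eq_one_right f.negOne_mul_self,
      Isom.mul_apply, negOne_apply, map_neg, neg_inj] at this
    exact this⟩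

theorem Inv.neg {g s : f.Isom} (h : Inv g s) : Inv g (f.negOne * s) :=
  ⟨neg_sq h.sq, by rw [mul_assoc, h.inv, ← mul_assoc, (neg_comm _).eq, mul_assoc]⟩

theorem Inv.mul_sq {g s : f.Isom} (h : Inv g s) : s * g * (s * g) = 1 := by
  nth_rw 2 [h.inv]
  rw [mul_assoc, mul_inv_cancel_left, h.sq]

theorem Bal.neg (h2 : (2 : F) ≠ 0) {s : f.Isom} (hs : s * s = 1) (h : Bal s) :
    Bal (f.negOne * s) := by
  rw [Bal, fix_neg h2 hs, res_neg h2 hs]
  exact h.symm

theorem isIsom_of_B (h2 : (2 : F) ≠ 0) {W : Type*} [AddCommGroup W] [Module F W]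
    {f' : Form (Param.orth F) W} {φ : V → W} (h : ∀ x y, f'.B (φ x) (φ y) = f.B x y) :
    IsIsom f f' φ :=
  ⟨h, fun x => mul_left_cancel₀ h2 (by rw [← orth_B_self, ← orth_B_self, h])⟩

theorem map_aeval {φ a b : Module.End F V} (h : ∀ x, φ (a x) = b (φ x)) (p : F[X]) (x : V) :
    φ (aeval a p x) = aeval b p (φ x) := by
  induction p using Polynomial.induction_on' with
  | add p q hp hq => simp [hp, hq]
  | monomial k c => simp [aeval_monomial, map_pow_of_comm h]

variable [FiniteDimensional F V]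

theorem finrank_le_add {A B : Submodule F V} {φ : V →ₗ[F] V} (h : ∀ x ∈ A, φ x ∈ B)
    {K : Submodule F V} (hK : ∀ x ∈ A, φ x = 0 → x ∈ K) :
    finrank F A ≤ finrank F B + finrank F ↥(K ⊓ A) := by
  rw [← LinearMap.finrank_range_add_finrank_ker (φ.domRestrict A)]
  refine add_le_add (Submodule.finrank_mono ?_) ?_
  · rintro _ ⟨x, rfl⟩
    exact h _ x.2
  · rw [← Submodule.finrank_map_subtype_eq]
    refine Submodule.finrank_mono ?_
    rintro _ ⟨x, hx, rfl⟩
    exact ⟨hK _ x.2 hx, x.2⟩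

theorem Inv.bal (h2 : (2 : F) ≠ 0) {g s : f.Isom} (h : Inv g s) {K : Submodule F V}
    (hK : ∀ x, g.1 (g.1 x) = x → x ∈ K) (h1 : finrank F ↥(K ⊓ Isom.fix s) ≤ 1)
    (h3 : finrank F ↥(K ⊓ Isom.res s) ≤ 1) : Bal s := by
  let j : V →ₗ[F] V := (g.1 : V →ₗ[F] V) - (g⁻¹.1 : V →ₗ[F] V)
  have e : ∀ x, s.1 (j x) = -j (s.1 x) := fun x => by
    simp only [j, LinearMap.sub_apply, LinearEquiv.coe_coe, map_sub, h.apply, h.apply', neg_sub]
  have e' : ∀ x, j x = 0 → x ∈ K := fun x hx => hK x (by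
    rw [show g.1 x = g⁻¹.1 x from sub_eq_zero.1 hx, Isom.apply_inv])
  refine ⟨(finrank_le_add (φ := j) (fun x hx => ?_) fun x _ => e' x).trans (add_le_add_right h1 _),
    (finrank_le_add (φ := j) (fun x hx => ?_) fun x _ => e' x).trans (add_le_add_right h3 _)⟩
  · rw [mem_res_iff h2 h.sq, e, Isom.mem_fix.1 hx]
  · rw [Isom.mem_fix, e, (mem_res_iff h2 h.sq).1 hx, map_neg, neg_neg]

theorem exists_of_cyc (hf : f.Nondeg) (h2 : (2 : F) ≠ 0) {g : f.Isom} {v : V}
    (hv : LinearMap.range (evalAt (g.1 : V →ₗ[F] V) v) = ⊤) : ∃ s, Inv g s ∧ s.1 v = v := by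
  obtain ⟨ρ, hρ⟩ := LinearMap.exists_rightInverse_of_surjective _ hv
  have h1 : ∀ x, aeval (g.1 : V →ₗ[F] V) (ρ x) v = x := LinearMap.congr_fun hρ
  have hc : ∀ p q x, aeval (g.1 : V →ₗ[F] V) p (aeval (g⁻¹.1 : V →ₗ[F] V) q x) =
      aeval (g⁻¹.1 : V →ₗ[F] V) q (aeval (g.1 : V →ₗ[F] V) p x) := fun p q x =>
    map_aeval (fun y => Isom.aeval_comm_inv g p y) q x
  have hB : ∀ (g : f.Isom) p x y, f.B (aeval (g.1 : V →ₗ[F] V) p x) y =
      f.B x (aeval (g⁻¹.1 : V →ₗ[F] V) p y) := fun g p x y => by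
    rw [Isom.B_aeval, show p.map (Param.orth F).σ = p from Polynomial.map_id]
  let φ : V →ₗ[F] V := evalAt (g⁻¹.1 : V →ₗ[F] V) v ∘ₗ ρ
  have h3 : ∀ p, φ (aeval (g.1 : V →ₗ[F] V) p v) = aeval (g⁻¹.1 : V →ₗ[F] V) p v := fun p =>
    hf.ext_left fun y => by
      obtain ⟨q, rfl⟩ := LinearMap.range_eq_top.1 hv y
      change f.B (aeval (g⁻¹.1 : V →ₗ[F] V) _ v) _ = _
      rw [hB, hB, inv_inv, evalAt_apply, ← Module.End.mul_apply, ← Module.End.mul_apply (aeval _ p),
        ← map_mul, ← map_mul, mul_comm, mul_comm p, map_mul, map_mul, Module.End.mul_apply, h1]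
      rfl
  have h4 : ∀ x, φ (g.1 x) = g⁻¹.1 (φ x) := fun x => by
    obtain ⟨p, rfl⟩ := LinearMap.range_eq_top.1 hv x
    have := h3 (X * p)
    simp only [map_mul, aeval_X, Module.End.mul_apply, LinearEquiv.coe_coe] at this
    rw [evalAt_apply, this, h3]
  have h5 : φ v = v := by simpa using h3 1
  refine ⟨Isom.ofEnd hf φ (isIsom_of_B h2 fun x y => ?_), ⟨Isom.ext fun x => ?_, Isom.ext h4⟩, h5⟩
  · obtain ⟨p, rfl⟩ := LinearMap.range_eq_top.1 hv x
    obtain ⟨q, rfl⟩ := LinearMap.range_eq_top.1 hv y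
    rw [evalAt_apply, evalAt_apply, h3, h3, hB, inv_inv, hc, ← hB, orth_symm]
  · obtain ⟨p, rfl⟩ := LinearMap.range_eq_top.1 hv x
    change φ (φ _) = _
    rw [evalAt_apply, h3, map_aeval (b := (g.1 : V →ₗ[F] V)) (fun y => by
      rw [← Isom.apply_inv g (φ _), ← h4]; simp), h5]
    rfl

theorem exists_cyc [Nontrivial V] (hf : f.Nondeg) {g : f.Isom}
    (hg : ∀ v, g.1 (g.1 v) = v → v = 0) : ∃ v ≠ 0,
      Disjoint (LinearMap.range (evalAt (g.1 : V →ₗ[F] V) v))
        (f.orth (LinearMap.range (evalAt (g.1 : V →ₗ[F] V) v))) := by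
  let j : V →ₗ[F] V := (g.1 : V →ₗ[F] V) - (g⁻¹.1 : V →ₗ[F] V)
  have e : ∀ x, j x = g.1 x - g⁻¹.1 x := fun _ => rfl
  let f' : Form (Param.sp F) V := Form.ofAlt (f.B.comp j) fun x => by
    change f.B (j x) x = 0
    rw [e, B_sub_left, Isom.B_left, orth_symm, sub_self]
  have hB : ∀ x y, f'.B x y = f.B (j x) y := fun _ _ => rfl
  obtain ⟨v, h0, h1⟩ := Nondeg.exists_cyc_sp (f := f') (fun x hx => hg x (by
      rw [show g.1 x = g⁻¹.1 x from sub_eq_zero.1 (hf (j x) hx), Isom.apply_inv]))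
    (g := ⟨g.1, sp_isIsom fun x y => by
      rw [hB, hB, ← Isom.map_B g (j x), e, e, map_sub g.1, Isom.inv_apply, Isom.apply_inv]⟩) hg
  have hS : ∀ x ∈ LinearMap.range (evalAt (g.1 : V →ₗ[F] V) v),
      g.1 x ∈ LinearMap.range (evalAt (g.1 : V →ₗ[F] V) v) := by
    rintro _ ⟨y, rfl⟩
    exact ⟨X * y, by simp [evalAt_apply]⟩
  refine ⟨v, h0, h1.mono_right fun x hx => ?_⟩
  exact sub_mem (Isom.orth_invariant g hS x hx) (Isom.orth_invariant g⁻¹ (Isom.inv_mem hS) x hx)

variable [Fintype F]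

theorem exists_polar (hf : f.Nondeg) (h2 : (2 : F) ≠ 0) {g : f.Isom} (φ : Module.End F V)
    (hφ : ∀ v, φ (g.1 v) = g⁻¹.1 (φ v)) (hφ' : ∀ v, φ (φ v) = v) {e : ℕ} (hN : Isom.N g ^ e = 0)
    (h : ∀ x, g.1 x = x → ∀ y, f.B (φ x) (φ y) = f.B x y) :
    ∃ s, Inv g s ∧ ∀ x, g.1 x = x → s.1 x = φ x := by
  obtain ⟨p, hp⟩ := CharP.exists F
  have hpp := CharP.char_is_prime F p
  have := Fact.mk hpp
  obtain ⟨m, hm⟩ : Odd (p ^ e) := (hpp.odd_of_ne_two fun e => h2 (by
    have := CharP.cast_eq_zero F p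
    rwa [e] at this)).pow
  obtain ⟨c, hc⟩ := hf.exists_adj ((f.B.comp φ).compl₂ φ)
  replace hc : ∀ u v, f.B u (c v) = f.B (φ u) (φ v) := hc
  have h1 : Commute c (g.1 : V →ₗ[F] V) := LinearMap.ext fun v => hf.ext_right fun u => by
    obtain ⟨u, rfl⟩ := g.1.surjective u
    change f.B _ (c (g.1 v)) = f.B _ (g.1 (c v))
    rw [hc, hφ, hφ, Isom.map_B, Isom.map_B, hc]
  have h3 : ∀ k u v, f.B ((c ^ k) u) v = f.B u ((c ^ k) v) := fun k => by
    induction k with
    | zero => exact fun _ _ => rfl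
    | succ k ih =>
      intro u v
      rw [show (c ^ (k + 1)) u = (c ^ k) (c u) by rw [pow_succ]; rfl, ih, orth_symm, hc, orth_symm,
        ← hc, pow_succ']
      rfl
  have h4 : Commute (c - 1) (Isom.N g) :=
    (h1.sub_right (Commute.one_right _)).sub_left (Commute.one_left _)
  have h5 : ∀ k y, ∃ z, ((c - 1) ^ k) y = (Isom.N g ^ k) z := fun k => by
    induction k with
    | zero => exact fun y => ⟨y, rfl⟩
    | succ k ih =>
      intro y
      obtain ⟨w, hw⟩ : (c - 1) y ∈ Isom.res g := by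
        rw [← hf.orth_fix, mem_orth']
        intro x hx
        rw [LinearMap.sub_apply, B_sub_right, hc, h x (Isom.mem_fix.1 hx)]
        exact sub_self _
      obtain ⟨z, hz⟩ := ih w
      refine ⟨z, ?_⟩
      rw [pow_succ, Module.End.mul_apply, ← hw, ← Module.End.mul_apply, (h4.pow_left k).eq,
        Module.End.mul_apply, hz, pow_succ']
      rfl
  have h6 := pow_char_pow_of_nilpotent p (Commute.one_right c) (N := e) (k := e)
    (LinearMap.ext fun y => by obtain ⟨z, hz⟩ := h5 e y; rw [hz, hN]; rfl)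
    (Nat.lt_pow_self hpp.one_lt).le
  have h7 : ∀ y, c (φ (c y)) = φ y := fun y => hf.ext_right fun u => by
    rw [hc, hφ', hc, hφ']
  have h8 : ∀ k y, (c ^ k) (φ ((c ^ k) y)) = φ y := fun k => by
    induction k with
    | zero => exact fun _ => rfl
    | succ k ih =>
      intro y
      rw [show (c ^ (k + 1)) y = c ((c ^ k) y) by rw [pow_succ']; rfl, pow_succ,
        Module.End.mul_apply, h7, ih]
  refine ⟨Isom.ofEnd hf (φ * c ^ m) (isIsom_of_B h2 fun x y => ?_), ⟨Isom.ext fun v => ?_,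
    Isom.ext fun v => ?_⟩, fun x hx => ?_⟩
  · change f.B (φ _) (φ _) = _
    rw [← hc, h3, ← Module.End.mul_apply, ← Module.End.mul_apply, ← pow_succ, ← pow_add,
      show m + 1 + m = p ^ e by omega, h6, one_pow]
    rfl
  · exact (congrArg φ (h8 m v)).trans (hφ' v)
  · exact (congrArg φ (LinearMap.congr_fun (h1.pow_left m).eq v)).trans (hφ _)
  · refine congrArg φ ?_
    rw [Module.End.pow_apply]
    exact Function.iterate_fixed (hf.ext_right fun u => by
      rw [hc, orth_symm, h x hx, orth_symm]) m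

omit [FiniteDimensional F V] [Fintype F] in
theorem N_inv_pow (g : f.Isom) (k : ℕ) :
    Isom.N g⁻¹ ^ k = (-(g⁻¹.1 : V →ₗ[F] V)) ^ k * Isom.N g ^ k := by
  rw [← Commute.mul_pow (LinearMap.ext fun x => by simp [Isom.N_apply])]
  congr 1
  ext x
  simp [Isom.N_apply]

theorem exists_of_top (hf : f.Nondeg) (h2 : (2 : F) ≠ 0) {M : Type*} [AddCommGroup M] [Module F M]
    {g : f.Isom} {L : ℕ} {ω : M →ₗ[F] V} (h : Top g L ω)
    (hs : LinearMap.range (cys (Isom.N g) ω (L + 1)) = ⊤) (θ : M →ₗ[F] M) (h3 : ∀ a, θ (θ a) = a)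
    (h4 : ∀ a b, f.B ((Isom.N g ^ L) (ω (θ a))) (ω (θ b)) =
      (-1) ^ L * f.B ((Isom.N g ^ L) (ω a)) (ω b)) :
    ∃ s, Inv g s ∧ ∀ x, g.1 x = x → ∃ a, x = (Isom.N g ^ L) (ω a) ∧
      s.1 x = (-1 : F) ^ L • (Isom.N g ^ L) (ω (θ a)) := by
  let a := LinearEquiv.ofBijective _ ⟨h.injective, LinearMap.range_eq_top.1 hs⟩
  let φ : Module.End F V := cys (Isom.N g⁻¹) (ω ∘ₗ θ) (L + 1) ∘ₗ a.symm.toLinearMap
  have h5 : ∀ x, φ (cys (Isom.N g) ω (L + 1) x) = cys (Isom.N g⁻¹) (ω ∘ₗ θ) (L + 1) x := fun x =>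
    congrArg (cys (Isom.N g⁻¹) (ω ∘ₗ θ) (L + 1)) (a.symm_apply_apply x)
  have h6 : Isom.N g⁻¹ ^ (L + 1) = 0 := by rw [N_inv_pow, h.nil, mul_zero]
  have h7 : ∀ v, φ (g.1 v) = g⁻¹.1 (φ v) := fun v => by
    obtain ⟨x, rfl⟩ := LinearMap.range_eq_top.1 hs v
    rw [← sub_left_inj (a := φ _), ← map_sub, ← Isom.N_apply, ← Isom.N_apply, N_cys h.nil, h5, h5,
      N_cys h6]
  have h8 : ∀ v, φ (Isom.N g⁻¹ v) = Isom.N g (φ v) := fun v => by
    obtain ⟨v, rfl⟩ := g.1.surjective v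
    rw [Isom.N_apply, Isom.N_apply, map_sub, Isom.inv_apply, h7, Isom.apply_inv]
  have h9 : ∀ b, φ (ω b) = ω (θ b) := fun b => by simpa [cys_cons] using h5 (Fin.cons b 0)
  have h10 : ∀ z, (Isom.N g⁻¹ ^ L) z = (-1 : F) ^ L • (Isom.N g ^ L) z := fun z => by
    rw [N_inv_pow, ← neg_one_smul F (g⁻¹.1 : V →ₗ[F] V), _root_.smul_pow, Module.End.mul_apply,
      LinearMap.smul_apply, Module.End.pow_apply]
    exact congrArg _ (Function.iterate_fixed (Isom.mem_fix.1 ((Isom.fix_inv g).ge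
      (Isom.mem_fix.2 (Isom.N_pow_fix h.nil z)))) L)
  have h11 : ∀ x, g.1 x = x → ∃ a, x = (Isom.N g ^ L) (ω a) ∧
      φ x = (-1 : F) ^ L • (Isom.N g ^ L) (ω (θ a)) := fun x hx => by
    obtain ⟨x, rfl⟩ := LinearMap.range_eq_top.1 hs x
    refine ⟨x (Fin.last L), ?_, ?_⟩
    · rw [cys_snoc _ _ _ x, h.fix hx, map_zero, zero_add]
    · rw [h5, cys_snoc _ _ _ x, h.fix hx, map_zero, zero_add, h10]
      rfl
  obtain ⟨s, h12, h13⟩ := exists_polar hf h2 φ h7 (fun v => by
    obtain ⟨x, rfl⟩ := LinearMap.range_eq_top.1 hs v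
    rw [h5]
    simp [cys_apply, map_pow_of_comm h8, h9, h3]) h.nil fun x hx y => by
      obtain ⟨b, rfl, e⟩ := h11 x hx
      obtain ⟨y, rfl⟩ := LinearMap.range_eq_top.1 hs y
      rw [e, h5, h.B_top, ← Fin.cons_self_tail y, cys_cons, B_add_right, B_smul_left, B_smul_left,
        Isom.fix_le_orth_res g⁻¹ ((Isom.fix_inv g).ge (Isom.mem_fix.2 (Isom.N_pow_fix h.nil _))) _
          ⟨_, rfl⟩, mul_zero, add_zero, LinearMap.comp_apply, h4, ← mul_assoc, ← mul_pow]
      simp
  exact ⟨s, h12, fun x hx => h13 x hx ▸ h11 x hx⟩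

/-- orthogonally indecomposable -/
def OInd (g : f.Isom) : Prop :=
  ∀ S : Submodule F V, (∀ x ∈ S, g.1 x ∈ S) → Disjoint S (f.orth S) → S = ⊥ ∨ S = ⊤

omit [Fintype F] [FiniteDimensional F V] in
theorem finrank_le_one_of_le {S : Submodule F V} {v : V} (h : ∀ x ∈ S, ∃ c : F, c • v = x) :
    finrank F S ≤ 1 :=
  (Submodule.finrank_mono (t := F ∙ v) fun x hx => Submodule.mem_span_singleton.2 (h x hx)).trans
    ((finrank_span_le_card _).trans (by simp))

theorem OInd.unip (hf : f.Nondeg) (h2 : (2 : F) ≠ 0) [Nontrivial V] {g : f.Isom} (hI : OInd g)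
    (hN : IsNilpotent (Isom.N g)) : ∃ L s, Isom.N g ^ (L + 1) = 0 ∧ Inv g s ∧
      finrank F ↥(Isom.fix g ⊓ Isom.fix s) ≤ 1 ∧ finrank F ↥(Isom.fix g ⊓ Isom.res s) ≤ 1 ∧
      ((Even L ∧ finrank F V = L + 1 ∧ finrank F (Isom.fix g) ≤ 1) ∨
        (Odd L ∧ finrank F V = 2 * (L + 1))) := by
  obtain ⟨L, h1, h3⟩ : ∃ L, Isom.N g ^ (L + 1) = 0 ∧ Isom.N g ^ L ≠ 0 := by
    classical
    obtain ⟨L, hL⟩ := Nat.exists_eq_succ_of_ne_zero (n := Nat.find hN) fun e => by
      simpa [e] using Nat.find_spec hN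
    exact ⟨L, by simpa [hL] using Nat.find_spec hN, Nat.find_min hN (by omega)⟩
  have key : ∀ {M : Type _} [AddCommGroup M] [Module F M] {ω : M →ₗ[F] V}, Top g L ω → ∀ b, ω b ≠ 0 →
      LinearMap.range (cys (Isom.N g) ω (L + 1)) = ⊤ := fun h b hb =>
    (hI _ h.inv h.disjoint).resolve_left fun e => hb (e.le (Top.mem b))
  refine ⟨L, ?_⟩
  by_cases h : ∀ e, f.B ((Isom.N g ^ L) e) e = 0
  · obtain ⟨e, he⟩ := DFunLike.ne_iff.1 h3
    obtain ⟨e', h4⟩ := hf.exists_eq_one he
    have h5 : f.B ((Isom.N g ^ L) e') e = -1 := by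
      have := h (e + e')
      simp only [map_add, LinearMap.add_apply, h e, h e', h4] at this
      linear_combination this
    have h6 : ∀ a b : F × F, f.B ((Isom.N g ^ L) (pairMap F e e' a)) (pairMap F e e' b) =
        a.1 * b.2 - a.2 * b.1 := fun a b => by
      simp [pairMap_apply, h, h4, h5]; ring
    have h7 : Top g L (pairMap F e e') := ⟨h1, fun a ha => Prod.ext
      (by simpa using (h6 a (0, 1)).symm.trans (ha _)) (by simpa using (h6 a (1, 0)).symm.trans (ha _))⟩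
    have h8 := key h7 (1, 0) fun e => he (by simp_all [pairMap_apply])
    have hL : Odd L := by
      by_contra e
      have := h7.symm (1, 0) (0, 1)
      rw [h6, h6, (Nat.not_odd_iff_even.1 e).neg_one_pow] at this
      exact h2 (by simp at this; linear_combination -this)
    obtain ⟨s, h9, h10⟩ := exists_of_top hf h2 h7 h8 ((LinearMap.fst F F F).prod (-LinearMap.snd F F F))
      (fun a => by simp) fun a b => by simp [h6, hL.neg_one_pow]; ring
    have h11 : ∀ x, g.1 x = x → ∃ a b : F, x = a • (Isom.N g ^ L) e + b • (Isom.N g ^ L) e' ∧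
        s.1 x = -(a • (Isom.N g ^ L) e) + b • (Isom.N g ^ L) e' := fun x hx => by
      obtain ⟨a, e1, e2⟩ := h10 x hx
      exact ⟨a.1, a.2, by simpa [pairMap_apply] using e1, by
        rw [e2]; simp [pairMap_apply, hL.neg_one_pow, add_comm]⟩
    refine ⟨s, h1, h9, finrank_le_one_of_le (v := (Isom.N g ^ L) e') fun x hx => ?_,
      finrank_le_one_of_le (v := (Isom.N g ^ L) e) fun x hx => ?_, .inr ⟨hL, ?_⟩⟩
    · obtain ⟨a, b, e1, e2⟩ := h11 x (Isom.mem_fix.1 hx.1)
      rw [Isom.mem_fix.1 hx.2] at e2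
      refine ⟨b, smul_right_injective V h2 ?_⟩
      simp only [two_smul]
      nth_rw 1 [e1]
      rw [e2]; abel
    · obtain ⟨a, b, e1, e2⟩ := h11 x (Isom.mem_fix.1 hx.1)
      rw [(mem_res_iff h2 h9.sq).1 hx.2, neg_eq_iff_eq_neg] at e2
      refine ⟨a, smul_right_injective V h2 ?_⟩
      simp only [two_smul]
      nth_rw 1 [e1]
      rw [e2]; abel
    · rw [← finrank_top, ← h8, LinearMap.finrank_range_of_inj h7.injective]
      simp [Module.finrank_pi_fintype, mul_comm]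
  · push Not at h
    obtain ⟨e, he⟩ := h
    have h4 : Top g L (LinearMap.toSpanSingleton F V e) := ⟨h1, fun a ha => by simpa [he] using ha 1⟩
    have h5 := key h4 1 (fun e' => he (by simp_all))
    have hL : Even L := by
      by_contra e'
      have := h4.symm 1 1
      rw [(Nat.not_even_iff_odd.1 e').neg_one_pow] at this
      exact mul_ne_zero h2 he (by simp at this; linear_combination this)
    obtain ⟨s, h9, h10⟩ := exists_of_top hf h2 h4 h5 LinearMap.id (fun a => rfl)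
      fun a b => by simp [hL.neg_one_pow]
    have h11 : finrank F (Isom.fix g) ≤ 1 := finrank_le_one_of_le (v := (Isom.N g ^ L) e)
      fun x hx => by
        obtain ⟨a, e1, -⟩ := h10 x (Isom.mem_fix.1 hx)
        exact ⟨a, by simp [e1]⟩
    refine ⟨s, h1, h9, (Submodule.finrank_mono inf_le_left).trans h11,
      (Submodule.finrank_mono inf_le_left).trans h11, .inl ⟨hL, ?_, h11⟩⟩
    rw [← finrank_top, ← h5, LinearMap.finrank_range_of_inj h4.injective]
    simp

omit [Fintype F] [FiniteDimensional F V] in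
theorem gk_inv (g : f.Isom) : ∀ x ∈ gk (Isom.N g), g.1 x ∈ gk (Isom.N g) := fun _ hx =>
  map_mem_gk (φ := (g.1 : V →ₗ[F] V)) (fun x => by simp [Isom.N_apply]) hx

omit [Fintype F] in
theorem orth_gk (hf : f.Nondeg) (g : f.Isom) :
    f.orth (gk (Isom.N g)) = LinearMap.range (Isom.N g ^ finrank F V) := by
  rw [gk_eq]
  refine (Submodule.eq_of_le_of_finrank_eq ?_ ?_).symm
  · rintro _ ⟨x, rfl⟩ y hy
    rw [Isom.B_N_pow, LinearMap.mem_ker.1 hy, B_zero_right, mul_zero]
  · have := hf.finrank_add_orth (LinearMap.ker (Isom.N g ^ finrank F V))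
    have := LinearMap.finrank_range_add_finrank_ker (Isom.N g ^ finrank F V)
    omega

omit [Fintype F] in
theorem disjoint_gk (hf : f.Nondeg) (g : f.Isom) :
    Disjoint (gk (Isom.N g)) (f.orth (gk (Isom.N g))) := by
  rw [orth_gk hf, Submodule.disjoint_def]
  rintro _ ⟨k, hk⟩ ⟨x, rfl⟩
  rw [← Module.End.mul_apply, ← pow_add] at hk
  exact Module.End.ker_pow_le_ker_pow_finrank _ _ hk

omit [Fintype F] [FiniteDimensional F V] in
theorem eq_zero_of_gk (h2 : (2 : F) ≠ 0) {g : f.Isom} {x : V} (h : x ∈ gk (Isom.N g))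
    (hx : g.1 x = -x) : x = 0 := by
  obtain ⟨k, hk⟩ := h
  have h1 : ∀ k, (Isom.N g ^ k) x = (-2 : F) ^ k • x := fun k => by
    induction k with
    | zero => simp
    | succ k ih =>
      rw [pow_succ', Module.End.mul_apply, ih, map_smul, Isom.N_apply, hx, pow_succ, mul_smul,
        neg_smul, two_smul, neg_add']
  exact (smul_eq_zero.1 (h1 k ▸ hk)).resolve_left (pow_ne_zero _ (neg_ne_zero.2 h2))

omit [Fintype F] in
theorem fix_of_unip (h2 : (2 : F) ≠ 0) {g : f.Isom} (hN : IsNilpotent (Isom.N g)) {x : V}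
    (hx : g.1 (g.1 x) = x) : g.1 x = x :=
  sub_eq_zero.1 (eq_zero_of_gk h2 (g := g) (gk_eq_top_iff.2 hN ▸ Submodule.mem_top)
    (by rw [map_sub, hx, neg_sub]))

omit [Fintype F] in
/-- the three kinds of indecomposable pieces -/
theorem OInd.piece (hf : f.Nondeg) [Nontrivial V] {g : f.Isom} (hI : OInd g) :
    ((∀ x, g.1 (g.1 x) = x → x = 0) ∧
      ∃ v, LinearMap.range (evalAt (g.1 : V →ₗ[F] V) v) = ⊤) ∨
    IsNilpotent (Isom.N g) ∨ IsNilpotent (Isom.N (f.negOne * g)) := by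
  have key : ∀ g : f.Isom, OInd g → Function.Injective (Isom.N g) ∨ IsNilpotent (Isom.N g) :=
    fun g hI => (hI (gk (Isom.N g)) (gk_inv g) (disjoint_gk hf g)).imp gk_eq_bot_iff.1 gk_eq_top_iff.1
  have hI' : OInd (f.negOne * g) := fun S hS => hI S fun x hx => by
    simpa [negOne_apply] using hS x hx
  rcases key g hI with h3 | h3
  · rcases key _ hI' with h4 | h4
    · have hg : ∀ v, g.1 (g.1 v) = v → v = 0 := fun v hv => h4 (h3 (by
        simp [Isom.N_apply, negOne_apply, hv]; abel))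
      obtain ⟨v, h5, h6⟩ := exists_cyc hf hg
      exact .inl ⟨hg, v, (hI _ (by rintro _ ⟨y, rfl⟩; exact ⟨X * y, by simp [evalAt_apply]⟩)
        h6).resolve_left fun e => h5 (e.le ⟨1, by simp [evalAt_apply]⟩)⟩
    · exact .inr (.inr h4)
  · exact .inr (.inl h3)

theorem OInd.exists_inv (hf : f.Nondeg) (h2 : (2 : F) ≠ 0) [Nontrivial V] {g : f.Isom}
    (hI : OInd g) : ∃ s, Inv g s ∧ Bal s := by
  have key : ∀ g : f.Isom, OInd g → IsNilpotent (Isom.N g) → ∃ s, Inv g s ∧ Bal s :=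
    fun g hI hN => by
      obtain ⟨L, s, -, h3, h4, h5, -⟩ := hI.unip hf h2 hN
      exact ⟨s, h3, h3.bal h2 (fun x hx => Isom.mem_fix.2 (fix_of_unip h2 hN hx)) h4 h5⟩
  rcases hI.piece hf with ⟨h3, v, hv⟩ | h | h
  · obtain ⟨s, hs, -⟩ := exists_of_cyc hf h2 hv
    exact ⟨s, hs, hs.bal h2 (K := ⊥) h3 (by rw [bot_inf_eq]; simp) (by rw [bot_inf_eq]; simp)⟩
  · exact key g hI h
  · obtain ⟨s, h3, h4⟩ := key _ (fun S hS => hI S fun x hx => by
      simpa [negOne_apply] using hS x hx) h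
    exact ⟨s, h3.neg_left, h4⟩

omit [Fintype F]

/-- the orthogonal decomposition -/
noncomputable def split (hf : f.Nondeg) {S : Submodule F V} (hS : Disjoint S (f.orth S)) :
    Iso ((f.restrict S).prod (f.restrict (f.orth S))) f :=
  ⟨Submodule.prodEquivOfIsCompl S _ (hf.isCompl_orth hS), orth_isIsom fun x => by
    change f.Q (x.1 + x.2) = f.Q x.1 + f.Q x.2
    rw [orth_Q_add, orth_symm, x.2.2 _ x.1.2, add_zero]⟩

/-- gluing isometries of a nondegenerate subspace and its orthogonal complement -/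
noncomputable def glue (hf : f.Nondeg) {S : Submodule F V} (hS : Disjoint S (f.orth S)) :
    (f.restrict S).Isom × (f.restrict (f.orth S)).Isom →* f.Isom :=
  (split hf hS).isomEquiv.toMonoidHom.comp (prodHom _ _)

section glue

variable (hf : f.Nondeg) {S : Submodule F V} (hS : Disjoint S (f.orth S))

theorem glue_apply (a) (x : S) (y : f.orth S) : (glue hf hS a).1 (x + y) = a.1.1 x + a.2.1 y :=
  (split hf hS).isomEquiv_apply' (prodHom _ _ a) (x, y)

theorem glue_left (a) (x : S) : (glue hf hS a).1 x = a.1.1 x := by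
  simpa using glue_apply hf hS a x 0

theorem glue_right (a) (x : f.orth S) : (glue hf hS a).1 x = a.2.1 x := by
  simpa using glue_apply hf hS a 0 x

include hf hS in
theorem decomp (x : V) : ∃ (a : S) (b : f.orth S), x = a + b := by
  obtain ⟨a, ha, b, hb, rfl⟩ := Submodule.mem_sup.1
    ((hf.isCompl_orth hS).sup_eq_top ▸ Submodule.mem_top (x := x))
  exact ⟨⟨a, ha⟩, ⟨b, hb⟩, rfl⟩

theorem glue_restrict (g : f.Isom) (h) :
    glue hf hS (Isom.restrict g S h, Isom.restrict g _ (Isom.orth_invariant g h)) = g :=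
  Isom.ext fun x => by
    obtain ⟨a, b, rfl⟩ := decomp hf hS x
    rw [map_add, map_add, glue_left, glue_right]
    rfl

theorem glue_neg : glue hf hS (negOne _, negOne _) = f.negOne :=
  Isom.ext fun x => by
    obtain ⟨a, b, rfl⟩ := decomp hf hS x
    rw [map_add, glue_left, glue_right]
    simp [negOne_apply, add_comm]

theorem finrank_fix_glue (a) : finrank F (Isom.fix (glue hf hS a)) =
    finrank F (Isom.fix a.1) + finrank F (Isom.fix a.2) := by
  have h1 : Isom.fix (glue hf hS a) =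
      (Isom.fix a.1).map S.subtype ⊔ (Isom.fix a.2).map (f.orth S).subtype := by
    refine le_antisymm (fun x hx => ?_) (sup_le ?_ ?_)
    · obtain ⟨y, z, rfl⟩ := decomp hf hS x
      rw [Isom.mem_fix, map_add, glue_left, glue_right, ← sub_eq_zero, add_sub_add_comm,
        add_eq_zero_iff_eq_neg] at hx
      have h3 : ((a.1.1 y - y : S) : V) = 0 := Submodule.disjoint_def.1 hS _ (Subtype.prop _) (by
        rw [Submodule.coe_sub, hx]; exact neg_mem (a.2.1 z - z).2)
      rw [Submodule.coe_sub] at h3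
      rw [h3, zero_eq_neg] at hx
      exact Submodule.add_mem_sup ⟨y, Isom.mem_fix.2 (Subtype.ext (sub_eq_zero.1 h3)), rfl⟩
        ⟨z, Isom.mem_fix.2 (Subtype.ext (sub_eq_zero.1 hx)), rfl⟩
    · rintro _ ⟨x, hx, rfl⟩
      exact Isom.mem_fix.2 ((glue_left hf hS a x).trans (congrArg _ (Isom.mem_fix.1 hx)))
    · rintro _ ⟨x, hx, rfl⟩
      exact Isom.mem_fix.2 ((glue_right hf hS a x).trans (congrArg _ (Isom.mem_fix.1 hx)))
  have h3 := Submodule.finrank_sup_add_finrank_inf_eq ((Isom.fix a.1).map S.subtype)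
    ((Isom.fix a.2).map (f.orth S).subtype)
  rwa [← h1, (hS.mono (Submodule.map_subtype_le _ _) (Submodule.map_subtype_le _ _)).eq_bot,
    finrank_bot, add_zero, Submodule.finrank_map_subtype_eq, Submodule.finrank_map_subtype_eq] at h3

theorem finrank_res_glue (a) : finrank F (Isom.res (glue hf hS a)) =
    finrank F (Isom.res a.1) + finrank F (Isom.res a.2) := by
  have h1 := finrank_fix_glue hf hS a
  have h2 := Isom.finrank_res_add_fix (glue hf hS a)
  have h3 := Isom.finrank_res_add_fix a.1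
  have h4 := Isom.finrank_res_add_fix a.2
  have h5 := hf.finrank_add_orth S
  omega

theorem det_glue (a) : f.detHom (glue hf hS a) = detHom _ a.1 * detHom _ a.2 := by
  rw [← detHom_prodHom]
  exact (split hf hS).detHom_isomEquiv _

theorem spin_glue [Fintype F] (h2 : (2 : F) ≠ 0) (a) : hf.spin h2 (glue hf hS a) =
    ((f.restrict_nondeg_iff S).2 hS).spin h2 a.1 * (hf.restrict_orth hS).spin h2 a.2 := by
  rw [← Nondeg.spin_prodHom]
  exact Nondeg.spin_isomEquiv _ h2 _ (split hf hS) _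

include hf hS in
theorem disc_glue [Fintype F] : f.disc = (f.restrict S).disc * (f.restrict (f.orth S)).disc := by
  rw [(split hf hS).disc_eq, disc_prod]

theorem Inv.glue {a b} {s t} (h : Inv a s) (h' : Inv b t) :
    Inv (glue hf hS (a, b)) (glue hf hS (s, t)) :=
  ⟨by rw [← map_mul, Prod.mk_mul_mk, h.sq, h'.sq]; exact map_one _,
    by rw [← map_mul, Prod.mk_mul_mk, h.inv, h'.inv, ← map_inv, ← map_mul]; rfl⟩

end glue

end

theorem ind_pieces (M : ∀ {V : Type u} [AddCommGroup V] [Module F V] [FiniteDimensional F V]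
      {f : Form (Param.orth F) V}, f.Isom → Prop)
    (h0 : ∀ {V : Type u} [AddCommGroup V] [Module F V] [FiniteDimensional F V] [Subsingleton V]
      {f : Form (Param.orth F) V} (g : f.Isom), M g)
    (h1 : ∀ {V : Type u} [AddCommGroup V] [Module F V] [FiniteDimensional F V] [Nontrivial V]
      {f : Form (Param.orth F) V} (g : f.Isom), f.Nondeg → OInd g → M g)
    (h2 : ∀ {V : Type u} [AddCommGroup V] [Module F V] [FiniteDimensional F V]
      {f : Form (Param.orth F) V} (hf : f.Nondeg) {S : Submodule F V} (hS : Disjoint S (f.orth S))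
      (a b), M a → M b → M (glue hf hS (a, b))) (n : ℕ) :
    ∀ {V : Type u} [AddCommGroup V] [Module F V] [FiniteDimensional F V]
      {f : Form (Param.orth F) V} (g : f.Isom), f.Nondeg → finrank F V = n → M g := by
  induction n using Nat.strong_induction_on with
  | _ n ih =>
  intro V _ _ _ f g hf hn
  rcases subsingleton_or_nontrivial V with h | h
  · exact h0 g
  by_cases hI : OInd g
  · exact h1 g hf hI
  unfold OInd at hI
  push Not at hI
  obtain ⟨S, h3, h4, h5, h6⟩ := hI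
  have h7 := Submodule.finrank_lt h6
  have h8 := hf.finrank_add_orth S
  have h9 : finrank F S ≠ 0 := fun e => h5 (Submodule.finrank_eq_zero.1 e)
  rw [← glue_restrict hf h4 g h3]
  exact h2 hf h4 _ _ (ih _ (hn ▸ h7) _ ((f.restrict_nondeg_iff S).2 h4) rfl)
    (ih _ (by omega) _ (hf.restrict_orth h4) rfl)

variable [Fintype F] {V : Type u} [AddCommGroup V] [Module F V] [FiniteDimensional F V]
  {f : Form (Param.orth F) V}

theorem exists_inv_bal (hf : f.Nondeg) (h2 : (2 : F) ≠ 0) (g : f.Isom) : ∃ s, Inv g s ∧ Bal s := by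
  refine ind_pieces (fun g => ∃ s, Inv g s ∧ Bal s) (fun g => ⟨1, ⟨mul_one _, Isom.ext fun _ =>
    Subsingleton.elim _ _⟩, ?_⟩) (fun g hf hI => hI.exists_inv hf h2) ?_ _ g hf rfl
  · simp [Bal, finrank_zero_of_subsingleton]
  · rintro V _ _ _ f hf S hS a b ⟨s, h3, h4⟩ ⟨t, h5, h6⟩
    by_cases h : Bal (glue hf hS (s, t))
    · exact ⟨_, h3.glue hf hS h5, h⟩
    · refine ⟨_, h3.glue hf hS h5.neg, ?_⟩
      simp only [Bal, finrank_fix_glue, finrank_res_glue] at h h4 h6 ⊢
      rw [fix_neg h2 h5.sq, res_neg h2 h5.sq]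
      omega

/-- `g` is a product of two involutions with balanced eigenspaces of the same dimensions -/
structure KT (g s t : f.Isom) : Prop where
  hs : s * s = 1
  ht : t * t = 1
  eq : g = s * t
  res : finrank F (Isom.res s) = finrank F (Isom.res t)
  bal : Bal s

omit [Fintype F] in
theorem finrank_fix_eq {s t : f.Isom} {w : V →ₗ[F] V} (hw : Function.Injective w)
    (h : ∀ x, s.1 (w x) = w (t.1 x)) : finrank F (Isom.fix s) = finrank F (Isom.fix t) := by
  let e := LinearEquiv.ofInjectiveEndo w hw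
  rw [← e.finrank_map_eq (Isom.fix t)]
  refine congrArg (fun S : Submodule F V => finrank F S) ?_
  ext x
  obtain ⟨x, rfl⟩ := e.surjective x
  rw [Submodule.mem_map_equiv, e.symm_apply_apply, Isom.mem_fix, Isom.mem_fix]
  exact (h x).symm ▸ hw.eq_iff

omit [Fintype F] in
theorem Inv.res_eq {g s : f.Isom} (h : Inv g s) (hg : ∀ x, g.1 x = -x → x = 0) :
    finrank F (Isom.res s) = finrank F (Isom.res (s * g)) := by
  have h1 := finrank_fix_eq (s := s) (t := s * g)
    (w := (s.1 : V →ₗ[F] V) + ((s * g).1 : V →ₗ[F] V)) ((injective_iff_map_eq_zero _).2 fun x hx =>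
      hg x (s.1.injective (by rw [map_neg]; exact eq_neg_of_add_eq_zero_right hx))) fun x => by
    change s.1 (s.1 x + s.1 (g.1 x)) = s.1 (s.1 (g.1 x)) + (s * g).1 ((s * g).1 x)
    rw [ss h.mul_sq, map_add, ss h.sq, add_comm]
  have h2 := Isom.finrank_res_add_fix s
  have h3 := Isom.finrank_res_add_fix (s * g)
  omega

omit [Fintype F] in
theorem det_neg : f.detHom f.negOne = (-1) ^ finrank F V :=
  Units.ext (by rw [negOne, detHom_scalar]; simp)

omit [Fintype F] in
theorem det_of_ne (hf : f.Nondeg) (h2 : (2 : F) ≠ 0) {g : f.Isom} (hg : ∀ x, g.1 x = -x → x = 0) :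
    f.detHom g = 1 := by
  have h1 := hf.det_eq_pow_res h2 (f.negOne * g)
  have h3 := Isom.finrank_res_add_fix (f.negOne * g)
  rw [show Isom.fix (f.negOne * g) = ⊥ from eq_bot_iff.2 fun x hx => hg x
    (neg_eq_iff_eq_neg.1 ((neg_apply g x).symm.trans (Isom.mem_fix.1 hx))), finrank_bot,
    add_zero] at h3
  rwa [h3, map_mul, det_neg, mul_eq_left] at h1

theorem exists_kt (hf : f.Nondeg) (h2 : (2 : F) ≠ 0) {g : f.Isom} (hg : f.detHom g = 1) :
    ∃ s t, KT g s t := by
  have hS := disjoint_gk hf (f.negOne * g)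
  set S := gk (Isom.N (f.negOne * g))
  have h1 : ∀ x ∈ S, g.1 x ∈ S := fun x hx => by
    simpa [negOne_apply] using gk_inv (f.negOne * g) x hx
  have e := glue_restrict hf hS g h1
  set a := Isom.restrict g S h1
  set b := Isom.restrict g _ (Isom.orth_invariant g h1)
  have hf1 := (f.restrict_nondeg_iff S).2 hS
  have hf2 := hf.restrict_orth hS
  have h3 : ∀ x, b.1 x = -x → x = 0 := fun x hx => Subtype.ext (Submodule.disjoint_def.1 hS _
    ⟨1, by rw [pow_one, Isom.N_apply, neg_apply, show g.1 x = -x from congrArg Subtype.val hx]; simp⟩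
    x.2)
  have h4 : ∀ x, (negOne _ * a).1 x = -x → x = 0 := fun x hx =>
    Subtype.ext (eq_zero_of_gk h2 x.2 (by
      rw [neg_apply] at hx ⊢
      exact congrArg Subtype.val hx))
  have h5 : Even (finrank F S) := by
    have e1 := det_of_ne hf1 h2 h4
    rw [← e, det_glue, det_of_ne hf2 h2 h3, mul_one] at hg
    rw [map_mul, hg, mul_one, det_neg, neg_one_pow_eq_one_iff_even (neg_one_ne_one_units' h2)] at e1
    exact e1
  obtain ⟨s, h6, h7⟩ := exists_inv_bal hf1 h2 a
  obtain ⟨t, h8, h9⟩ := exists_inv_bal hf2 h2 b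
  have h10 := h6.glue hf hS h8
  rw [e] at h10
  have h11 := Inv.res_eq (g := negOne _ * a) (s := s) (Inv.neg_left (by
    rwa [negOne_mul_negOne_mul])) h4
  rw [← mul_assoc, ← (neg_comm s).eq, mul_assoc, res_neg h2 h6.mul_sq] at h11
  have h12 := h8.res_eq h3
  have h13 := Isom.finrank_res_add_fix s
  have h14 := Isom.finrank_res_add_fix (s * a)
  obtain ⟨k, hk⟩ := h5
  refine ⟨_, _, h10.sq, h10.mul_sq, by rw [← mul_assoc, h10.sq, one_mul], ?_, ?_⟩
  · rw [← e, ← map_mul, finrank_res_glue, finrank_res_glue]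
    unfold Bal at h7
    simp only [Prod.mk_mul_mk]
    omega
  · simp only [Bal, finrank_fix_glue, finrank_res_glue] at *
    omega

end Cfsg.Agent.Ore
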