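import Cfsg.Agent.Lib.Ore.Vec

/-!
Elements of the general linear factor of a Levi subgroup acting freely on the unipotent radicals.
-/

set_option autoImplicit false

universe u

namespace Cfsg.Agent.Ore

open Module Polynomial Cfsg.Agent.Forms Cfsg.Agent.Forms.Form

theorem OC.inv {G : Type*} [Group G] {g : G} (h : OC g⁻¹) : OC g := by
  obtain ⟨x, hx, b, hb, e⟩ := h
  exact ⟨b, hb, x, hx, by rw [← inv_inv g, e]; group⟩

variable {F : Type*} [Field F] {V : Type u} [AddCommGroup V] [Module F V]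
  [FiniteDimensional F V] {f : Form (Param.orth F) V}

omit [FiniteDimensional F V] in
theorem aeval_congr_on {φ ψ : Module.End F V} {S : Submodule F V} (h : ∀ x ∈ S, φ x = ψ x)
    (hS : ∀ x ∈ S, φ x ∈ S) (p : F[X]) : ∀ x ∈ S, aeval φ p x = aeval ψ p x := by
  induction p using Polynomial.induction_on with
  | C a => simp
  | add r s hr hs => exact fun x hx => by simp [hr x hx, hs x hx]
  | monomial n a h' =>
    intro x hx
    rw [pow_succ, ← mul_assoc, map_mul _ _ X, map_mul _ _ X, aeval_X, aeval_X, Module.End.mul_apply,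
      Module.End.mul_apply, h' _ (hS x hx), h x hx]

theorem commute_of_orth (hf : f.Nondeg) {M : Submodule F V} (hM : Disjoint M (f.orth M))
    {k x : f.Isom} (hk : ∀ m ∈ M, k.1 m ∈ M) (hk' : ∀ p ∈ f.orth M, k.1 p = p)
    (hx : ∀ m ∈ M, x.1 m = m) : Commute k x := Isom.ext fun v => by
  obtain ⟨m, p, rfl⟩ := decomp hf hM v
  simp only [Isom.mul_apply, map_add, hx m m.2, hk' p p.2, hx _ (hk m m.2),
    hk' _ (Isom.orth_invariant x (fun m hm => (hx m hm).symm ▸ hm) p p.2)]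

omit [FiniteDimensional F V] in
theorem Dual.eq_zero {A C : Submodule F V} (h : Dual f A C) {c : V} (hc : c ∈ C)
    (h0 : ∀ a ∈ A, f.B a c = 0) : c = 0 :=
  Submodule.disjoint_def.1 h.nd c (Submodule.mem_sup_right hc) (by
    rw [orth_sup]
    exact ⟨mem_orth'.2 h0, fun y hy => h.BC hc hy⟩)

omit [FiniteDimensional F V] in
theorem Dual.disjoint {A C : Submodule F V} (h : Dual f A C) : Disjoint A C :=
  Submodule.disjoint_def.2 fun _ ha hc => h.eq_zero hc fun _ ha' => h.BA ha' ha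

theorem Dual.finrank_le {A C : Submodule F V} (h : Dual f A C) : finrank F C ≤ finrank F A := by
  rw [← Subspace.dual_finrank_eq (V := A)]
  exact LinearMap.finrank_le_finrank_of_injective
    (f := (f.B.comp A.subtype).flip ∘ₗ C.subtype) ((injective_iff_map_eq_zero _).2 fun c hc =>
      Subtype.ext (h.eq_zero c.2 fun a ha => LinearMap.congr_fun hc ⟨a, ha⟩))

theorem Dual.finrank_eq {A C : Submodule F V} (h : Dual f A C) : finrank F C = finrank F A :=
  le_antisymm h.finrank_le h.symm.finrank_le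

theorem Dual.finrank_sup {A C : Submodule F V} (h : Dual f A C) :
    finrank F ↥(A ⊔ C) = 2 * finrank F A := by
  have := Submodule.finrank_sup_add_finrank_inf_eq A C
  rw [h.disjoint.eq_bot, finrank_bot, h.finrank_eq] at this
  omega

omit [FiniteDimensional F V] in
theorem dual_line {a c : V} (ha : f.Q a = 0) (hc : f.Q c = 0) (h : f.B a c ≠ 0) :
    Dual f (F ∙ a) (F ∙ c) := by
  have key : ∀ a, f.Q a = 0 → ∀ x ∈ F ∙ a, f.Q x = 0 := fun a ha x hx => by
    obtain ⟨t, rfl⟩ := Submodule.mem_span_singleton.1 hx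
    rw [orth_Q_smul, ha, mul_zero]
  refine ⟨key a ha, key c hc, Submodule.disjoint_def.2 fun x hx hx' => ?_⟩
  obtain ⟨_, h1, _, h2, rfl⟩ := Submodule.mem_sup.1 hx
  obtain ⟨α, rfl⟩ := Submodule.mem_span_singleton.1 h1
  obtain ⟨β, rfl⟩ := Submodule.mem_span_singleton.1 h2
  have h3 := hx' a (Submodule.mem_sup_left (Submodule.mem_span_singleton_self a))
  have h4 := hx' c (Submodule.mem_sup_right (Submodule.mem_span_singleton_self c))
  simp only [B_add_left, B_smul_left, orth_B_self, ha, hc, mul_zero, zero_add, add_zero,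
    mul_eq_zero, h, or_false, f.orth_symm a c] at h3 h4
  simp [h3, h4]

theorem exists_ext (hf : f.Nondeg) {S : Submodule F V} (hS : Disjoint S (f.orth S)) :
    ∃ φ : (f.restrict (f.orth S)).Isom →* f.Isom, (∀ b, φ b = glue hf hS (1, b)) ∧
      (∀ b, ∀ x ∈ S, (φ b).1 x = x) ∧ (∀ b (x : f.orth S), (φ b).1 x = b.1 x) ∧
      (∀ g : f.Isom, (∀ x ∈ S, g.1 x = x) → ∃ b, φ b = g) ∧
      ∀ b, finrank F (Isom.res (φ b)) = finrank F (Isom.res b) := by
  refine ⟨(glue hf hS).comp (MonoidHom.inr _ _), fun _ => rfl, fun b x hx =>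
    glue_left hf hS (1, b) ⟨x, hx⟩, fun b x => glue_right hf hS (1, b) x, fun g hg => ?_, fun b => ?_⟩
  · have h1 : ∀ x ∈ S, g.1 x ∈ S := fun m hm => (hg m hm).symm ▸ hm
    have h2 := glue_restrict hf hS g h1
    rw [show Isom.restrict g S h1 = 1 from Isom.ext fun x => Subtype.ext (hg x x.2)] at h2
    exact ⟨_, h2⟩
  · exact (finrank_res_glue hf hS (1, b)).trans (by rw [Isom.finrank_res_one, zero_add])

/-- a suitable element of the general linear factor -/
structure LK (A C : Submodule F V) (k : f.Isom) : Prop where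
  hA : ∀ a ∈ A, k.1 a ∈ A
  hC : ∀ c ∈ C, k.1 c ∈ C
  hP : ∀ p ∈ f.orth (A ⊔ C), k.1 p = p
  ex : ∃ r r' : F[X], (∀ a ∈ A, aeval (k.1 : V →ₗ[F] V) r a = 0) ∧
    (∀ c ∈ C, aeval (k.1 : V →ₗ[F] V) r' c = 0) ∧ IsCoprime r r' ∧ IsCoprime r (X ^ 2 - 1) ∧
      IsCoprime r' (X ^ 2 - 1)

omit [FiniteDimensional F V] in
theorem LK.symm {A C : Submodule F V} {k : f.Isom} (h : LK A C k) : LK C A k := by
  obtain ⟨r, r', h1, h2, h3, h4, h5⟩ := h.ex
  exact ⟨h.hC, h.hA, sup_comm A C ▸ h.hP, r', r, h2, h1, h3.symm, h5, h4⟩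

omit [FiniteDimensional F V] in
theorem LK.hM {A C : Submodule F V} {k : f.Isom} (h : LK A C k) : ∀ m ∈ A ⊔ C, k.1 m ∈ A ⊔ C :=
  fun m hm => by
    obtain ⟨a, ha, c, hc, rfl⟩ := Submodule.mem_sup.1 hm
    rw [map_add]
    exact Submodule.add_mem_sup (h.hA a ha) (h.hC c hc)

theorem LK.free (hf : f.Nondeg) {A C : Submodule F V} (hD : Dual f A C) {k b : f.Isom}
    (h : LK A C k) (hb : ∀ m ∈ A ⊔ C, b.1 m = m) (hb' : b * b = 1) : Free C (k * b) := by
  obtain ⟨r, r', h1, h2, h3, -, h5⟩ := h.ex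
  have e1 : ∀ c ∈ C, aeval ((k * b).1 : V →ₗ[F] V) r' c = 0 := fun c hc =>
    (aeval_congr_on (φ := (k.1 : V →ₗ[F] V)) (ψ := ((k * b).1 : V →ₗ[F] V))
      (fun c hc => congrArg k.1 (hb c (Submodule.mem_sup_right hc)).symm) h.hC r' c
      hc).symm.trans (h2 c hc)
  have e2 : ∀ a ∈ A, aeval ((k * b).1 : V →ₗ[F] V) r a = 0 := fun a ha =>
    (aeval_congr_on (φ := (k.1 : V →ₗ[F] V)) (ψ := ((k * b).1 : V →ₗ[F] V))
      (fun a ha => congrArg k.1 (hb a (Submodule.mem_sup_left ha)).symm) h.hA r a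
      ha).symm.trans (h1 a ha)
  refine Free.of_poly hf hD (fun c hc => ?_) h5 e1 (fun p hp => ?_)
    (eq_one_of_poly hf hD h3.symm e1 e2)
  · rw [Isom.mul_apply, hb c (Submodule.mem_sup_right hc)]
    exact h.hC c hc
  · have := Isom.orth_invariant b (fun m hm => (hb m hm).symm ▸ hm) p hp
    simp only [map_sub, map_mul, aeval_X, map_one, sq, LinearMap.sub_apply, Module.End.mul_apply,
      LinearEquiv.coe_coe, Isom.mul_apply, h.hP _ this, ss hb', h.hP p hp, Module.End.one_apply,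
      sub_self]

theorem Dual.exists_lk (hf : f.Nondeg) {A C : Submodule F V} (h : Dual f A C) (k : A ≃ₗ[F] A) :
    ∃ g : f.Isom, (∀ a : A, g.1 a = k a) ∧ (∀ c ∈ C, g.1 c ∈ C) ∧
      ∀ p ∈ f.orth (A ⊔ C), g.1 p = p := by
  let e := LinearMap.linearEquivOfInjective ((f.B.comp A.subtype).flip ∘ₗ C.subtype)
    ((injective_iff_map_eq_zero _).2 fun c hc =>
      Subtype.ext (h.eq_zero c.2 fun a ha => LinearMap.congr_fun hc ⟨a, ha⟩))
    (by rw [Subspace.dual_finrank_eq, h.finrank_eq])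
  let k' : C ≃ₗ[F] C := (e.trans k.symm.dualMap).trans e.symm
  have h1 : ∀ (a : A) (c : C), f.B (k a) (k' c) = f.B a c := fun a c => by
    have := LinearMap.congr_fun (e.apply_symm_apply (k.symm.dualMap (e c))) (k a)
    rw [LinearEquiv.dualMap_apply, k.symm_apply_apply] at this
    exact this
  let φ := (A.subtype.coprod C.subtype).coprod (f.orth (A ⊔ C)).subtype
  have h2 : Function.Injective φ := (injective_iff_map_eq_zero _).2 fun x hx => by
    have h3 : (x.1.1 : V) + x.1.2 = -x.2 := eq_neg_of_add_eq_zero_left hx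
    have h4 := Submodule.disjoint_def.1 h.nd _ (Submodule.add_mem_sup x.1.1.2 x.1.2.2)
      (h3 ▸ neg_mem x.2.2)
    have h5 := Submodule.disjoint_def.1 h.disjoint _ x.1.1.2
      (eq_neg_of_add_eq_zero_left h4 ▸ neg_mem x.1.2.2)
    rw [h4, zero_eq_neg] at h3
    rw [h5, zero_add] at h4
    exact Prod.ext (Prod.ext (Subtype.ext h5) (Subtype.ext h4)) (Subtype.ext h3)
  let ψ := (k.prodCongr k').prodCongr (LinearEquiv.refl F (f.orth (A ⊔ C)))
  have h3 : ∀ x, f.Q (φ x) = f.B x.1.1 x.1.2 + f.Q x.2 := fun x => by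
    change f.Q (x.1.1 + x.1.2 + x.2) = _
    rw [orth_Q_add, orth_Q_add, h.hA _ x.1.1.2, h.hC _ x.1.2.2,
      f.B_eq_zero_symm (x.2.2 _ (Submodule.add_mem_sup x.1.1.2 x.1.2.2))]
    ring
  have h4 : IsIsom (f.comap φ) (f.comap φ) ψ.toLinearMap := orth_isIsom fun x =>
    (h3 _).trans ((congrArg (· + f.Q x.2) (h1 _ _)).trans (h3 x).symm)
  obtain ⟨g, hg⟩ := hf.witt_maps φ (φ ∘ₗ ψ.toLinearMap) h2 (h2.comp ψ.injective)
    (fun x y => (h4.map_B x y).symm) fun x => (h4.map_Q x).symm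
  exact ⟨g, fun a => by simpa [φ, ψ] using hg ((a, 0), 0), fun c hc => by
    have : g.1 c = k' ⟨c, hc⟩ := by simpa [φ, ψ] using hg ((0, ⟨c, hc⟩), 0)
    exact this ▸ (k' _).2, fun p hp => by simpa [φ, ψ] using hg (0, ⟨p, hp⟩)⟩

omit [FiniteDimensional F V] in
theorem eq_zero_of_aeval {φ : Module.End F V} {r : F[X]} (hr : IsCoprime r (X ^ 2 - 1)) {x : V}
    (h : aeval φ r x = 0) (hx : φ x = x) : x = 0 := by
  simpa using eq_zero_of_coprime (Commute.one_left φ) hr (x := x) h (by simp [sq, hx])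

theorem LK.fix (hf : f.Nondeg) {A C : Submodule F V} (hD : Dual f A C) {k : f.Isom}
    (h : LK A C k) : finrank F (Isom.res k) = 2 * finrank F A := by
  obtain ⟨r, r', h1, h2, -, h4, h5⟩ := h.ex
  have : Isom.fix k = f.orth (A ⊔ C) := by
    refine le_antisymm (fun x hx => ?_) fun x hx => Isom.mem_fix.2 (h.hP x hx)
    obtain ⟨a, ha, c, hc, p, hp, rfl⟩ := hD.decomp hf x
    rw [Isom.mem_fix, map_add, map_add, h.hP p hp, add_left_inj, ← sub_eq_zero,
      add_sub_add_comm] at hx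
    have h6 := Submodule.disjoint_def.1 hD.disjoint _ (sub_mem (h.hA a ha) ha)
      (eq_neg_of_add_eq_zero_left hx ▸ neg_mem (sub_mem (h.hC c hc) hc))
    rw [h6, zero_add] at hx
    rwa [eq_zero_of_aeval h4 (h1 a ha) (sub_eq_zero.1 h6),
      eq_zero_of_aeval h5 (h2 c hc) (sub_eq_zero.1 hx), zero_add, zero_add]
  have h6 := Isom.finrank_res_add_fix k
  have h7 := hf.finrank_add_orth (A ⊔ C)
  rw [this] at h6
  rw [hD.finrank_sup] at h7
  omega

variable [Fintype F]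

theorem LK.cw (hf : f.Nondeg) {A C : Submodule F V} (hD : Dual f A C) {k x b u u' : f.Isom}
    (h : LK A C k) (hx : ∀ m ∈ A ⊔ C, x.1 m = m) (hb : ∀ m ∈ A ⊔ C, b.1 m = m) (hb' : b * b = 1)
    (hu : u ∈ UU f C) (hu' : u' ∈ UU f A) : CW (u * (x * b * x⁻¹ * b) * u') x (k * b) := by
  have h1 := commute_of_orth hf hD.nd h.hM h.hP hx
  have h2 := commute_of_orth hf hD.nd h.hM h.hP hb
  have h3 : x * (k * b) * x⁻¹ = k * (x * b * x⁻¹) := by
    rw [← mul_assoc, ← h1.eq]; simp only [mul_assoc]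
  have := red (x := x) hu hu' (h.symm.free hf hD.symm (sup_comm A C ▸ hb) hb') (h3 ▸ h.free hf hD
    (fun m hm => by
      rw [Isom.mul_apply, Isom.mul_apply, (f.ptw _).inv_mem hx m hm, hb m hm, hx m hm])
    (by rw [conj_mul, hb', mul_one, mul_inv_cancel]))
  rwa [h3, mul_inv_rev, inv_eq_of_mul_eq_one_right hb', ((h1.mul_right h2).mul_right h1.inv_right).eq,
    mul_assoc _ k, ← mul_assoc k, h2.eq, mul_inv_cancel_right, ← h2.eq] at this

theorem exists_singer {m : ℕ} (h0 : 0 < m) (h1 : m = 1 → 4 ≤ Fintype.card F)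
    (h2 : m = 2 → 3 ≤ Fintype.card F) : ∃ r : F[X], r.Monic ∧ r.natDegree = m ∧ r.coeff 0 ≠ 0 ∧
      IsCoprime r (dl (Param.sp F) r) ∧ IsCoprime r (X ^ 2 - 1) ∧
        IsCoprime (dl (Param.sp F) r) (X ^ 2 - 1) := by
  obtain ⟨θ, h3, h4, h5⟩ : ∃ θ : Kc F, θ ≠ 0 ∧ θ ^ Fintype.card F ^ m = θ ∧
      ∀ d < m, θ * θ ^ Fintype.card F ^ d ≠ 1 := by
    obtain ⟨θ, h3, h4, -⟩ := exists_primRoot_of_dvd_tq (F := F) (ε := false) h0 dvd_rfl
    refine ⟨θ, h4, ?_, fun d hd e => not_dvd_aux Fintype.one_lt_card hd h1 h2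
      ((h3.pow_eq_one_iff_dvd _).1 (by rw [pow_add, pow_one, e]))⟩
    rw [← Nat.sub_add_cancel (Nat.one_le_pow m _ Fintype.card_pos), pow_succ,
      show θ ^ (Fintype.card F ^ m - 1) = 1 from h3.pow_eq_one, one_mul]
  have key : ∀ i j, i ≤ j → j < m → θ ^ Fintype.card F ^ i * θ ^ Fintype.card F ^ j ≠ 1 :=
    fun i j hij hj e => by
      obtain ⟨d, rfl⟩ := Nat.exists_eq_add_of_le hij
      refine h5 d (by omega) ((pow_card_injective (F := F)).iterate i ?_)
      simp only [pow_iterate, mul_pow, one_pow]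
      rw [← e, ← pow_mul, ← pow_add _ d, add_comm d]
  have h6 : ∀ α ∈ orb (· ^ Fintype.card F) θ m, ∀ β ∈ orb (· ^ Fintype.card F) θ m, α * β ≠ 1 := by
    simp only [mem_orb, pow_iterate]
    rintro _ ⟨i, hi, rfl⟩ _ ⟨j, hj, rfl⟩
    rcases le_total i j with h | h
    · exact key i j h hj
    · exact fun e => key j i h hi (by rwa [mul_comm])
  have h7 : 0 ∉ orb (· ^ Fintype.card F) θ m := by simp [mem_orb, pow_iterate, h3]
  obtain ⟨r, hm, hr, hd, h8⟩ := exists_poly' (R := orb (· ^ Fintype.card F) θ m)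
    (map_orb (by simpa [pow_iterate] using h4))
  have h9 : r.coeff 0 ≠ 0 := fun e => mul_ne_zero (pow_ne_zero _ (neg_ne_zero.2 one_ne_zero))
    (Multiset.prod_ne_zero h7) (by rw [← h8, e, map_zero])
  have e1 : ∀ a : Kc F, aeval a r = 0 → a ∈ orb (· ^ Fintype.card F) θ m := fun a e =>
    hr ▸ mem_aroots.2 ⟨hm.ne_zero, e⟩
  have e2 : ∀ a : Kc F, aeval a (dl (Param.sp F) r) = 0 → a ≠ 0 ∧
      a⁻¹ ∈ orb (· ^ Fintype.card F) θ m := fun a e => by
    have : a ∈ (dl (Param.sp F) r).aroots (Kc F) := mem_aroots.2 ⟨(monic_dl h9).ne_zero, e⟩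
    rw [aroots_dl hm h9, hr, Multiset.mem_map] at this
    obtain ⟨b, hb, rfl⟩ := this
    exact ⟨inv_ne_zero fun e => h7 (e ▸ hb), by rwa [inv_inv]⟩
  refine ⟨r, hm, by rw [hd, card_orb], h9, ?_, ?_, ?_⟩ <;>
    refine (isCoprime_iff_aeval_ne_zero_of_isAlgClosed _ (Kc F) _ _).2 fun a =>
      not_and_or.1 fun ⟨e, e'⟩ => ?_
  · exact h6 _ (e1 a e) _ (e2 a e').2 (mul_inv_cancel₀ (e2 a e').1)
  · exact h6 _ (e1 a e) _ (e1 a e) (by simpa [sub_eq_zero, sq] using e')
  · exact h6 _ (e2 a e).2 _ (e2 a e).2 (by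
      rw [← mul_inv, show a * a = 1 by simpa [sub_eq_zero, sq] using e', inv_one])

theorem Dual.exists_lk' (hf : f.Nondeg) {A C : Submodule F V} (h : Dual f A C)
    (h0 : 0 < finrank F A) (h1 : finrank F A = 1 → 4 ≤ Fintype.card F)
    (h2 : finrank F A = 2 → 3 ≤ Fintype.card F) : ∃ k : f.Isom, LK A C k := by
  obtain ⟨r, hm, hd, h3, h4, h5, h6⟩ := exists_singer h0 h1 h2
  have := hm.finite_adjoinRoot
  let e : AdjoinRoot r ≃ₗ[F] A := LinearEquiv.ofFinrankEq _ _ (by rw [finrank_adjoinRoot hm, hd])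
  obtain ⟨k, h7, h8, h9⟩ := h.exists_lk hf ((e.symm.trans (LinearEquiv.ofInjectiveEndo (rootMul r)
    (((IsUnit.of_mul_eq_one _ (root_mul_rootInv h3)).mul_right_injective)))).trans e)
  have h10 : ∀ a ∈ A, aeval (k.1 : V →ₗ[F] V) r a = 0 := fun a ha => by
    obtain ⟨y, hy⟩ := e.surjective ⟨a, ha⟩
    have : ∀ p : F[X], A.subtype (e (aeval (rootMul r) p y)) = aeval (k.1 : V →ₗ[F] V) p a :=
      fun p => by
        rw [show a = A.subtype (e y) from congrArg Subtype.val hy.symm]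
        induction p using Polynomial.induction_on' with
        | add p q hp hq => simp only [map_add, LinearMap.add_apply, hp, hq]
        | monomial n c =>
          simp only [aeval_monomial, Module.End.mul_apply, Module.algebraMap_end_apply, map_smul]
          exact congrArg _ (map_pow_of_comm (φ := A.subtype ∘ₗ e.toLinearMap)
            (fun x => by simp [h7]; rfl) n y)
    rw [← this, (aeval_rootMul_eq_zero_iff r).2 dvd_rfl]
    simp
  have h11 : ∀ a ∈ A, k.1 a ∈ A := fun a ha => h7 ⟨a, ha⟩ ▸ Subtype.prop _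
  refine ⟨k, h11, h8, h9, r, _, h10, fun c hc => h.eq_zero (aeval_mem h8 _ c hc) fun a ha => ?_,
    h4, h5, h6⟩
  have h12 := Isom.B_aeval_dl k h3 a c
  have h13 : ∀ n, (k⁻¹ ^ n).1 a ∈ A := fun n => by
    induction n with
    | zero => exact ha
    | succ n ih => rw [pow_succ']; exact Isom.inv_mem h11 _ ih
  rw [h10 _ (h13 _), B_zero_left] at h12
  exact (mul_eq_zero.1 h12.symm).resolve_left h3

end Cfsg.Agent.Ore
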