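import Cfsg.Agent.Lib.Ore.Three

/-!
Commutators in orthogonal groups of plus type and odd characteristic.
-/

set_option autoImplicit false

universe u

namespace Cfsg.Agent.Ore

open Module Polynomial Cfsg.Agent.Forms Cfsg.Agent.Forms.Form

variable {F : Type*} [Field F] {V : Type u} [AddCommGroup V] [Module F V]
  {f : Form (Param.orth F) V}

theorem UU_nil {C : Submodule F V} {u : f.Isom} (hu : u ∈ UU f C) : Isom.N u ^ 3 = 0 :=
  LinearMap.ext fun x => sub_eq_zero.2 (hu.1 _ (hu.2 _ fun c hc => by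
    rw [Isom.N_apply, B_sub_left, ← hu.1 c hc, Isom.map_B, hu.1 c hc, sub_self]))

theorem siegel_mem_UU {a c : V} (ha : f.Q a = 0) (h : f.B c a = 0) :
    f.siegel a c ha h ∈ UU f (F ∙ a) := by
  refine ⟨fun x hx => ?_, fun x hx => Submodule.mem_span_singleton.2 ⟨-f.B x c, ?_⟩⟩
  · obtain ⟨t, rfl⟩ := Submodule.mem_span_singleton.1 hx
    simp [siegel_apply, orth_B_self, ha, f.B_eq_zero_symm h]
  · simp [siegel_apply, mem_orth_singleton.1 hx]

theorem dual_pair {a a' c c' : V} (ha : f.Q a = 0) (ha' : f.Q a' = 0) (hc : f.Q c = 0)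
    (hc' : f.Q c' = 0) (h1 : f.B a a' = 0) (h2 : f.B c c' = 0) (h3 : f.B a c = 1)
    (h4 : f.B a' c' = 1) (h5 : f.B a c' = 0) (h6 : f.B a' c = 0) :
    Dual f (Submodule.span F {a, a'}) (Submodule.span F {c, c'}) := by
  have key : ∀ a a', f.Q a = 0 → f.Q a' = 0 → f.B a a' = 0 →
      ∀ x ∈ Submodule.span F {a, a'}, f.Q x = 0 := fun a a' ha ha' h x hx => by
    obtain ⟨s, t, rfl⟩ := Submodule.mem_span_pair.1 hx
    simp [orth_Q_add, orth_Q_smul, ha, ha', h]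
  refine ⟨key _ _ ha ha' h1, key _ _ hc hc' h2, Submodule.disjoint_def.2 fun x hx hx' => ?_⟩
  obtain ⟨_, h7, _, h8, rfl⟩ := Submodule.mem_sup.1 hx
  obtain ⟨α, β, rfl⟩ := Submodule.mem_span_pair.1 h7
  obtain ⟨γ, δ, rfl⟩ := Submodule.mem_span_pair.1 h8
  have e1 := hx' a (Submodule.mem_sup_left (Submodule.subset_span (by simp)))
  have e2 := hx' a' (Submodule.mem_sup_left (Submodule.subset_span (by simp)))
  have e3 := hx' c (Submodule.mem_sup_right (Submodule.subset_span (by simp)))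
  have e4 := hx' c' (Submodule.mem_sup_right (Submodule.subset_span (by simp)))
  simp [orth_B_self, f.orth_symm a a', f.orth_symm c c', f.orth_symm a c, f.orth_symm a' c',
    f.orth_symm a c', f.orth_symm a' c, *] at e1 e2 e3 e4
  simp [e1, e2, e3, e4]

theorem cop_sq {μ : F} (h : μ * μ ≠ 1) : IsCoprime (X - C μ) (X ^ 2 - 1 : F[X]) := by
  rw [show (X ^ 2 - 1 : F[X]) = (X - C 1) * (X - C (-1)) by simp; ring]
  exact (isCoprime_X_sub_C_of_isUnit_sub (sub_ne_zero.2 fun e => h (by simp [e])).isUnit).mul_right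
    (isCoprime_X_sub_C_of_isUnit_sub (sub_ne_zero.2 fun e => h (by simp [e])).isUnit)

variable [FiniteDimensional F V]

theorem nondeg_hyp {X : Submodule F V} (hX : Disjoint X (f.orth X)) {a c : V} (ha : a ∈ X)
    (h0 : f.Q a = 0) (h1 : f.B a c = 1) : Disjoint (X ⊓ f.orth (F ∙ a) ⊓ f.orth (F ∙ c))
      (f.orth (X ⊓ f.orth (F ∙ a) ⊓ f.orth (F ∙ c))) := by
  obtain ⟨c', hc⟩ := ((f.restrict_nondeg_iff X).2 hX).exists_repr (f.B.flip c ∘ₗ X.subtype)
  replace hc : ∀ x ∈ X, f.B x c' = f.B x c := fun x hx => hc ⟨x, hx⟩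
  refine Submodule.disjoint_def.2 fun x hx hx' => Submodule.disjoint_def.1 hX x hx.1.1 fun y hy => ?_
  have := hx' (y - f.B y a • c' - (f.B y c - f.B y a * f.B c' c) • a)
    ⟨⟨sub_mem (sub_mem hy (X.smul_mem _ c'.2)) (X.smul_mem _ ha), mem_orth_singleton.2 (by
      simp [orth_B_self, h0, f.orth_symm a c', hc a ha, h1])⟩, mem_orth_singleton.2 (by simp [h1])⟩
  simpa [hc x hx.1.1, mem_orth_singleton.1 hx.2, mem_orth_singleton.1 hx.1.2] using this

variable [Fintype F]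

theorem exists_pair (h2 : (2 : F) ≠ 0) {X Y : Submodule F V} (hX : Disjoint X (f.orth X))
    (hY : Disjoint Y (f.orth Y)) (h3 : 3 ≤ finrank F X) (h4 : 3 ≤ finrank F Y) :
    (∃ a ∈ X, ∃ c ∈ Y, f.Q a = 0 ∧ f.Q c = 0 ∧ f.B a c = 1) ∨ X ≤ f.orth Y := by
  refine or_iff_not_imp_left.2 fun H x hx y hy => span_sphere h2 hX h3 0 (l := f.B.flip y)
    (fun a ha e => span_sphere h2 hY h4 0 (l := f.B a) (fun c hc e' => by_contra fun h => H
      ⟨(f.B a c)⁻¹ • a, X.smul_mem _ ha, c, hc, by rw [orth_Q_smul, e, mul_zero], e', ?_⟩) y hy) x hx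
  rw [B_smul_left]
  exact inv_mul_cancel₀ h

theorem UU_mem (hf : f.Nondeg) (h2 : (2 : F) ≠ 0) {C : Submodule F V} {u : f.Isom}
    (hu : u ∈ UU f C) : u ∈ commutator f.Isom := by
  obtain ⟨p, hp⟩ := CharP.exists F
  have hpp := CharP.char_is_prime F p
  have := Fact.mk hpp
  have h3 : p ≠ 2 := fun e => h2 (by
    have := CharP.cast_eq_zero F p
    rwa [e] at this)
  have h4 := pow_char_pow_of_nilpotent p (Commute.one_right (u.1 : V →ₗ[F] V)) (k := 1) (UU_nil hu)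
    (by have := hpp.two_le; rw [pow_one]; omega)
  rw [one_pow, ← Isom.coe_pow] at h4
  exact hf.mem_commutator_of_odd (.inl (exists_ne_zero_one h2)) (hpp.odd_of_ne_two h3).pow
    (Isom.ext (LinearMap.congr_fun h4))

theorem Dual.exists_invol (hf : f.Nondeg) (h2 : (2 : F) ≠ 0) {A C : Submodule F V} (h : Dual f A C)
    {s : f.Isom} (hs : s * s = 1) (hC : C ≤ Isom.fix s) : ∃ σ : f.Isom, σ * σ = 1 ∧
      (∀ m ∈ A ⊔ C, σ.1 m = m) ∧ s * σ ∈ UU f C ∧
      finrank F (Isom.res σ) = finrank F (Isom.res s) ∧ hf.spin h2 σ = hf.spin h2 s := by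
  have h3 : ∀ c ∈ C, s.1 c = c := fun c hc => Isom.mem_fix.1 (hC hc)
  obtain ⟨σ, h4, h5⟩ := h.exists_levi hf h3
  have h6 := Isom.orth_invariant σ (fun m hm => (h4 m hm).symm ▸ hm)
  have h7 : σ * σ = 1 := Isom.ext fun x => by
    obtain ⟨m, p, rfl⟩ := Ore.decomp hf h.nd x
    have e1 := h5 p (f.orth_le le_sup_right p.2)
    have e2 := h5 _ (f.orth_le le_sup_right (h6 p p.2))
    have e3 := h3 _ e1
    rw [map_sub, ss hs] at e3
    rw [Isom.mul_apply, map_add, map_add, h4 m m.2, h4 m m.2, Isom.one_apply, add_right_inj,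
      eq_comm, ← sub_eq_zero]
    refine Submodule.disjoint_def.1 h.nd _ (Submodule.mem_sup_right ?_)
      (sub_mem p.2 (h6 _ (h6 p p.2)))
    convert add_mem (e3 ▸ e1) e2 using 1
    abel
  have h8 := mul_inv_mem_UU h3 (fun c hc => h4 c (Submodule.mem_sup_right hc)) h5
  rw [inv_eq_of_mul_eq_one_right h7] at h8
  have h9 := Inv.res_eq (g := s * σ) (s := s) ⟨hs, by
    rw [mul_inv_rev, inv_eq_of_mul_eq_one_right h7, inv_eq_of_mul_eq_one_right hs, mul_assoc, hs,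
      ← mul_assoc, hs, one_mul, mul_one]⟩
    fun x hx => eq_zero_of_gk h2 ⟨3, by rw [UU_nil h8]; rfl⟩ hx
  rw [← mul_assoc, hs, one_mul] at h9
  have h10 := ((hf.mem_commutator_iff h2 _).1 (UU_mem hf h2 h8)).2
  rw [map_mul] at h10
  exact ⟨σ, h7, h4, h8, h9.symm, by
    rw [← one_mul (hf.spin h2 σ), ← hf.spin_mul_self h2 s, mul_assoc, h10, mul_one]⟩

theorem Dual.exists_invol2 (hf : f.Nondeg) (h2 : (2 : F) ≠ 0) {A C : Submodule F V} (h : Dual f A C)
    {s t : f.Isom} (hs : s * s = 1) (ht : t * t = 1) (hC : C ≤ Isom.fix s) (hA : A ≤ Isom.fix t) :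
    ∃ σ τ : f.Isom, ∃ u ∈ UU f C, ∃ u' ∈ UU f A, s * t = u * (σ * τ) * u' ∧ σ * σ = 1 ∧ τ * τ = 1 ∧
      (∀ m ∈ A ⊔ C, σ.1 m = m) ∧ (∀ m ∈ A ⊔ C, τ.1 m = m) ∧
      finrank F (Isom.res σ) = finrank F (Isom.res s) ∧ hf.spin h2 σ = hf.spin h2 s ∧
      finrank F (Isom.res τ) = finrank F (Isom.res t) ∧ hf.spin h2 τ = hf.spin h2 t := by
  obtain ⟨σ, a1, a2, a3, a4, a5⟩ := h.exists_invol hf h2 hs hC
  obtain ⟨τ, b1, b2, b3, b4, b5⟩ := h.symm.exists_invol hf h2 ht hA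
  refine ⟨σ, τ, _, a3, _, inv_mem b3, ?_, a1, b1, a2, sup_comm A C ▸ b2, a4, a5, b4, b5⟩
  rw [mul_inv_rev, inv_eq_of_mul_eq_one_right ht, mul_assoc s, ← mul_assoc σ, a1, one_mul, mul_assoc,
    mul_inv_cancel_left]

theorem KT.oc_lk (hf : f.Nondeg) (h2 : (2 : F) ≠ 0) {g s t k : f.Isom} (hk : KT g s t)
    (hg : g ∈ commutator f.Isom) (hd : 2 ≤ finrank F (Isom.res t)) (hd' : Even (finrank F (Isom.res t)))
    {A C : Submodule F V} (h : Dual f A C) (hC : C ≤ Isom.fix s) (hA : A ≤ Isom.fix t)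
    (hl : LK A C k) (hs : hf.spin h2 k = hf.spin h2 t) : OC g := by
  obtain ⟨σ, τ, u, hu, u', hu', e, a1, b1, a2, b2, a4, a5, b4, b5⟩ :=
    h.exists_invol2 hf h2 hk.hs hk.ht hC hA
  obtain ⟨x, rfl, hx⟩ := exists_conj_rel hf h2 a1 b1 (by rw [a4, b4, hk.res])
    (by rw [a5, b5, hk.spin_eq hf h2 hg]) (A ⊔ C).subtype (fun x y => by simp [a2, b2])
    (fun x => by simp [a2, b2]) (fun x => by simp [a2, b2])
  rw [hk.eq, e]
  refine (hl.cw hf h (fun m hm => hx ⟨m, hm⟩) b2 b1 hu hu').oc' hf h2 (fun c _ => ?_)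
    ((hf.mem_commutator_iff h2 _).2 ⟨?_, ?_⟩)
  · obtain ⟨y, h3, h4⟩ := univ_of_nondeg (nondeg_res hf h2 b1) (b4 ▸ hd) c
    refine ⟨y, .inr ?_, h4⟩
    rw [Isom.mul_apply, (mem_res_iff h2 b1).1 h3, map_neg, hl.hP y fun m hm =>
      f.B_eq_zero_symm (B_eig h2 (b2 m hm) ((mem_res_iff h2 b1).1 h3))]
  · rw [map_mul, hf.det_eq_pow_res h2, hf.det_eq_pow_res h2, hl.fix hf h, b4, hd'.neg_one_pow,
      (even_two_mul _).neg_one_pow, one_mul]
  · rw [map_mul, hs, b5, hf.spin_mul_self]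

theorem exists_lk_one (hf : f.Nondeg) (h2 : (2 : F) ≠ 0) (hq : 4 ≤ Fintype.card F) {a c : V}
    (h : f.HypPair a c) : ∃ k : f.Isom, LK (F ∙ a) (F ∙ c) k ∧ hf.spin h2 k = -1 := by
  classical
  obtain ⟨μ, h0, h1, h3⟩ : ∃ μ : F, μ ≠ 0 ∧ chi F μ = -1 ∧ μ * μ ≠ 1 := by
    obtain ⟨ν, h0, h1⟩ := exists_chi_eq_neg_one h2
    by_cases e : ν * ν = 1
    · obtain ⟨k, -, hk⟩ := Finset.exists_mem_notMem_of_card_lt_card (t := Finset.univ)
        (s := ({0, 1, -1} : Finset F))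
        (Finset.card_le_three.trans_lt (by rw [Finset.card_univ]; omega))
      simp only [Finset.mem_insert, Finset.mem_singleton, not_or] at hk
      obtain rfl : ν = -1 := (mul_self_eq_one_iff.1 e).resolve_left (by rintro rfl; simp at h1)
      refine ⟨-1 * (k * k), by simp [hk.1], by rw [map_mul, h1, chi_mul_self' hk.1, mul_one],
        fun e => ?_⟩
      rcases mul_self_eq_one_iff.1 e with e | e
      · have := chi_mul_self' hk.1
        rw [show k * k = -1 by linear_combination -e, h1] at this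
        omega
      · exact not_or.2 hk.2 (mul_self_eq_one_iff.1 (by linear_combination -e))
    · exact ⟨ν, h0, h1, e⟩
  have key : ∀ (k : f.Isom) a (μ : F), k.1 a = μ • a → (∀ x ∈ F ∙ a, k.1 x ∈ F ∙ a) ∧
      ∀ x ∈ F ∙ a, aeval (k.1 : V →ₗ[F] V) (X - C μ) x = 0 := fun k a μ e => by
    refine ⟨fun x hx => ?_, fun x hx => ?_⟩ <;>
      obtain ⟨t, rfl⟩ := Submodule.mem_span_singleton.1 hx
    · rw [map_smul, e]
      exact Submodule.smul_mem _ _ (Submodule.smul_mem _ _ (Submodule.mem_span_singleton_self a))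
    · simp [e]
  have k1 := key _ _ _ (h.hscale_u μ h0)
  have k2 := key _ _ _ (h.hscale_e μ h0)
  refine ⟨h.hscale μ h0, ⟨k1.1, k2.1, fun p hp => h.hscale_of_orth μ h0
    (hp a (Submodule.mem_sup_left (Submodule.mem_span_singleton_self a)))
    (hp c (Submodule.mem_sup_right (Submodule.mem_span_singleton_self c))), _, _, k1.2, k2.2,
    isCoprime_X_sub_C_of_isUnit_sub (sub_ne_zero.2 fun e => h3 ?_).isUnit, cop_sq h3,
    cop_sq fun e => h3 ?_⟩, ?_⟩
  · nth_rw 1 [e]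
    exact inv_mul_cancel₀ h0
  · rwa [← mul_inv, inv_eq_one] at e
  · rw [h.hscale_eq_refl_mul, map_mul, hf.spin_refl, hf.spin_refl, h.Q_sub_smul, h.Q_sub_smul,
      ← map_mul, neg_mul_neg, one_mul, h1]

theorem exists_lk_two (hf : f.Nondeg) (h2 : (2 : F) ≠ 0) {a a' c c' : V} (ha : f.Q a = 0)
    (ha' : f.Q a' = 0) (hc : f.Q c = 0) (hc' : f.Q c' = 0) (h1 : f.B a a' = 0) (h0 : f.B c c' = 0)
    (h3 : f.B a c = 1) (h4 : f.B a' c' = 1) (h5 : f.B a c' = 0) (h6 : f.B a' c = 0) :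
    ∃ k : f.Isom, LK (Submodule.span F {a, a'}) (Submodule.span F {c, c'}) k ∧
      hf.spin h2 k = chi F (-1) := by
  have h : f.HypPair a c := ⟨ha, hc, h3⟩
  obtain ⟨k, hk, e⟩ : ∃ k : f.Isom, hf.spin h2 k = chi F (-1) ∧ (k.1 a = -(2 : F) • a - a' ∧
      k.1 a' = a + a') ∧ (k.1 c = -c + c' ∧ k.1 c' = -c + (2 : F) • c') ∧
      ∀ p, f.B p a = 0 → f.B p a' = 0 → f.B p c = 0 → f.B p c' = 0 → k.1 p = p := by
    refine ⟨h.hscale (-1) (by simp) * f.siegel a c' ha (f.B_eq_zero_symm h5) *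
      f.siegel a' c ha' (f.B_eq_zero_symm h6), ?_, ⟨?_, ?_⟩, ⟨?_, ?_⟩, fun p e1 e2 e3 e4 => ?_⟩
    · rw [map_mul, map_mul, ((hf.mem_commutator_iff h2 _).1 (UU_mem hf h2 (siegel_mem_UU _ _))).2,
        ((hf.mem_commutator_iff h2 _).1 (UU_mem hf h2 (siegel_mem_UU _ _))).2,
        h.hscale_eq_refl_mul, map_mul, hf.spin_refl, hf.spin_refl, h.Q_sub_smul, h.Q_sub_smul]
      simp
    all_goals
      simp [siegel_apply, h.hscale_apply, orth_B_self, f.orth_symm a a', f.orth_symm c c',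
        f.orth_symm a c, f.orth_symm a' c', f.orth_symm a c', f.orth_symm a' c, *]
    all_goals module
  refine ⟨k, ⟨fun x hx => ?_, fun x hx => ?_, fun p hp => e.2.2 p
    (hp _ (Submodule.mem_sup_left (Submodule.subset_span (by simp))))
    (hp _ (Submodule.mem_sup_left (Submodule.subset_span (by simp))))
    (hp _ (Submodule.mem_sup_right (Submodule.subset_span (by simp))))
    (hp _ (Submodule.mem_sup_right (Submodule.subset_span (by simp)))),
    X ^ 2 + X - 1, X ^ 2 - X - 1, fun x hx => ?_, fun x hx => ?_,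
    ⟨C 2⁻¹ * (X + 1) - 1, -(C 2⁻¹ * (X + 1)), ?_⟩, ⟨X, -X - 1, by ring⟩, ⟨-X, X - 1, by ring⟩⟩, hk⟩
  · obtain ⟨s, t, rfl⟩ := Submodule.mem_span_pair.1 hx
    exact Submodule.mem_span_pair.2 ⟨t - 2 * s, t - s, by simp [e]; module⟩
  · obtain ⟨s, t, rfl⟩ := Submodule.mem_span_pair.1 hx
    exact Submodule.mem_span_pair.2 ⟨-s - t, s + 2 * t, by simp [e]; module⟩
  · obtain ⟨s, t, rfl⟩ := Submodule.mem_span_pair.1 hx
    simp [sq, e]
    module
  · obtain ⟨s, t, rfl⟩ := Submodule.mem_span_pair.1 hx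
    simp [sq, e]
    module
  · have : (C 2⁻¹ * 2 : F[X]) = 1 := by
      rw [show (2 : F[X]) = C 2 from rfl, ← map_mul, inv_mul_cancel₀ h2, map_one]
    linear_combination (X + 1) * X * this

theorem KT.oc_three (hf : f.Nondeg) (hq : Fintype.card F = 3) (h2 : (2 : F) ≠ 0) {g s t : f.Isom}
    (hk : KT g s t) (hg : g ∈ commutator f.Isom) (hn : finrank F V = 8) (hd : f.disc = 1)
    (hr : finrank F (Isom.res t) = 4) (hs : hf.spin h2 t = -1) {a c : V} (h : f.HypPair a c)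
    (ha : a ∈ Isom.fix t) (hc : c ∈ Isom.fix s) : OC g := by
  have hD := dual_line h.Qu h.Qe (h.Bue ▸ one_ne_zero)
  obtain ⟨σ, τ, u, hu, u', hu', e, a1, b1, a2, b2, a4, a5, b4, b5⟩ :=
    hD.exists_invol2 hf h2 hk.hs hk.ht ((Submodule.span_singleton_le_iff_mem _ _).2 hc)
      ((Submodule.span_singleton_le_iff_mem _ _).2 ha)
  have hP := hf.restrict_orth hD.nd
  have h13 : finrank F ↥((F ∙ a) ⊔ F ∙ c) = 2 := by
    rw [hD.finrank_sup, finrank_span_singleton h.u_ne_zero]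
  have h14 := hf.finrank_add_orth ((F ∙ a) ⊔ F ∙ c)
  obtain ⟨φ, k0, k1, k4, k5, k6⟩ := exists_ext hf hD.nd
  have k2 : ∀ b, (∀ v, b.1 v = v → v = 0) → Free (F ∙ c) (φ b) ∧ Free (F ∙ a) (φ b) := fun b hb => by
    have : ∀ v ∈ f.orth ((F ∙ a) ⊔ F ∙ c), (φ b).1 v = v → v = 0 := fun v hv e =>
      congrArg Subtype.val (hb ⟨v, hv⟩ (Subtype.ext ((k4 _ ⟨v, hv⟩).symm.trans e)))
    exact ⟨free_line hf hD (k1 b) this, free_line hf hD.symm (by rw [sup_comm]; exact k1 b)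
      (by rwa [sup_comm])⟩
  have k3 : ∀ b, hf.spin h2 (φ b) = hP.spin h2 b := fun b => by
    rw [k0, spin_glue, map_one, one_mul]
  have k7 : ∀ b, φ b * φ b = 1 → b * b = 1 := fun b hb => Isom.ext fun x => Subtype.ext (by
    rw [← k4, map_mul, hb]; rfl)
  obtain ⟨σ, rfl⟩ := k5 σ a2
  obtain ⟨τ, rfl⟩ := k5 τ b2
  obtain ⟨x, b, e1, h15, hb⟩ := cf_three hP hq (by omega) (by
      have := hf.disc_split hyp_nondeg _ h.isIsom_pairMap
      rw [disc_hyp, hd, chi_neg_one h2, hq, range_pairMap, Submodule.span_insert] at this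
      simp at this
      omega) (k7 σ a1) (k7 τ b1) (by rw [← k6, a4, hk.res, hr]) (by rw [← k6, b4, hr])
    (by rw [← k3, a5, hk.spin_eq hf h2 hg, hs]) (by rw [← k3, b5, hs])
  have h16 := red (x := φ x) hu hu' (k2 b hb).2 (by
    rw [← map_inv, ← map_mul, ← map_mul]
    exact (k2 _ (fpf_conj hb x)).1)
  rw [← map_inv, ← map_inv, ← map_mul, ← map_mul, ← map_mul, ← e1, map_mul, ← e, ← hk.eq] at h16
  refine h16.oc' hf h2 (fun d _ => ?_) ?_
  · obtain ⟨y, h3, h4⟩ := univ_of_nondeg hD.nd h13.ge d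
    exact ⟨y, .inl (k1 b y h3), h4⟩
  · rw [hP.mem_commutator_iff h2] at h15
    rw [hf.mem_commutator_iff h2, k3, k0, det_glue, map_one, one_mul]
    exact h15

theorem oc_plus (hf : f.Nondeg) (h2 : (2 : F) ≠ 0) {g : f.Isom} (hg : g ∈ commutator f.Isom)
    (hn : 8 ≤ finrank F V) (hn' : finrank F V % 4 = 0) (hd : f.disc = 1) : OC g := by
  obtain ⟨s, t, hk⟩ := exists_kt hf h2 ((hf.mem_commutator_iff h2 _).1 hg).1
  rcases hf.spin_dichotomy h2 t with h | h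
  · exact hk.oc_of_mem hf h2 hg ((hf.mem_commutator_iff h2 _).2 ⟨by
      rw [hk.det hf h2 (k := finrank F V / 2) (by omega),
        (Nat.even_iff.2 (by omega)).neg_one_pow], h⟩) (by omega)
  have h3 := Isom.finrank_res_add_fix s
  have h4 := Isom.finrank_res_add_fix t
  have h5 := hk.res
  have h6 := hk.bal
  unfold Bal at h6
  have hX := nondeg_fix hf h2 hk.ht
  have hY := nondeg_fix hf h2 hk.hs
  have key : ∀ W ≤ Isom.fix t, W ≤ f.orth (Isom.fix s) → Disjoint W (f.orth W) →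
      finrank F W = 2 → OC g := fun W a1 a2 a3 a4 =>
    oc_of_neg2 hf h2 hg (by omega) (.inr hn') a3 a4 fun x hx => by
      rw [hk.eq, Isom.mul_apply, Isom.mem_fix.1 (a1 hx),
        (mem_res_iff h2 hk.hs).1 (hf.orth_fix s ▸ a2 hx)]
  rcases exists_pair h2 hX hY (by omega) (by omega) with ⟨a, ha, c, hc, e1, e2, e3⟩ | e
  swap
  · obtain ⟨W, a1, a2, a3⟩ := exists_nondeg_le h2 hX (k := 2) (by omega)
    exact key W a1 (a1.trans e) a2 a3
  have h7 : 2 ≤ finrank F (Isom.res t) := by omega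
  have h8 : Even (finrank F (Isom.res t)) := Nat.even_iff.2 (by omega)
  rcases card_cases h2 with hq | hq
  swap
  · obtain ⟨k, b1, b2⟩ := exists_lk_one hf h2 (by omega) ⟨e1, e2, e3⟩
    exact hk.oc_lk hf h2 hg h7 h8 (dual_line e1 e2 (e3 ▸ one_ne_zero))
      ((Submodule.span_singleton_le_iff_mem _ _).2 hc)
      ((Submodule.span_singleton_le_iff_mem _ _).2 ha) b1 (b2.trans h.symm)
  by_cases h9 : finrank F V = 8
  · exact hk.oc_three hf hq h2 hg h9 hd (by omega) h ⟨e1, e2, e3⟩ ha hc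
  have e4 := (f.orth_symm a c).trans e3
  have hX' := nondeg_hyp hX ha e1 e3
  have hY' := nondeg_hyp hY hc e2 e4
  have d1 := finrank_le_inf hf (Isom.fix t) a
  have d2 := finrank_le_inf hf (Isom.fix t ⊓ f.orth (F ∙ a)) c
  have d3 := finrank_le_inf hf (Isom.fix s) c
  have d4 := finrank_le_inf hf (Isom.fix s ⊓ f.orth (F ∙ c)) a
  rcases exists_pair h2 hX' hY' (by omega) (by omega) with ⟨a', ha', c', hc', e5, e6, e7⟩ | e
  · have b1 := f.B_eq_zero_symm (mem_orth_singleton.1 ha'.1.2)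
    have b2 := f.B_eq_zero_symm (mem_orth_singleton.1 hc'.1.2)
    have b3 := f.B_eq_zero_symm (mem_orth_singleton.1 hc'.2)
    have b4 := mem_orth_singleton.1 ha'.2
    obtain ⟨k, b5, b6⟩ := exists_lk_two hf h2 e1 e5 e2 e6 b1 b2 e3 e7 b3 b4
    exact hk.oc_lk hf h2 hg h7 h8 (dual_pair e1 e5 e2 e6 b1 b2 e3 e7 b3 b4)
      (Submodule.span_le.2 (Set.pair_subset hc hc'.1.1))
      (Submodule.span_le.2 (Set.pair_subset ha ha'.1.1)) b5 (by
        rw [b6, h, chi_neg_one h2, hq]; simp)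
  obtain ⟨y, hy⟩ := ((f.restrict_nondeg_iff _).2 hY).exists_eq_one (x := ⟨c, hc⟩) fun e => by
    simp [show c = 0 from congrArg Subtype.val e] at e3
  replace hy : f.B y c = 1 := (f.orth_symm _ _).trans hy
  have d5 := finrank_le_inf hf (Isom.fix t ⊓ f.orth (F ∙ a) ⊓ f.orth (F ∙ c)) y
  have d6 := finrank_rad_le hX' (inf_le_left (b := f.orth (F ∙ (y : V))))
  obtain ⟨W, a1, a2, a3⟩ := exists_nondeg_rank (f := f) h2 (k := 2)
    (Y := Isom.fix t ⊓ f.orth (F ∙ a) ⊓ f.orth (F ∙ c) ⊓ f.orth (F ∙ (y : V))) (by omega)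
  refine key W (fun x hx => (a1 hx).1.1.1) (fun x hx z hz => ?_) a2 a3
  have := e (a1 hx).1 (z - f.B z c • y - (f.B z a - f.B z c * f.B y a) • c)
    ⟨⟨sub_mem (sub_mem hz (Submodule.smul_mem _ _ y.2)) (Submodule.smul_mem _ _ hc),
      mem_orth_singleton.2 (by simp [hy, orth_B_self, e2])⟩, mem_orth_singleton.2 (by simp [e4])⟩
  simpa [mem_orth_singleton.1 (a1 hx).2, mem_orth_singleton.1 (a1 hx).1.2] using this

end Cfsg.Agent.Ore
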