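import Cfsg.Agent.Lib.Ore.Two2
import Cfsg.Agent.Lib.Ore.T3K

/-!
Products of four reflections in a six-dimensional orthogonal group over the field with three
elements.
-/

set_option autoImplicit false

universe u

namespace Cfsg.Agent.Ore

open Module Polynomial Cfsg.Agent.Forms Cfsg.Agent.Forms.Form Cfsg.Agent.CG

variable {F : Type*} [Field F] {V : Type u} [AddCommGroup V] [Module F V]
  {f : Form (Param.orth F) V}

/-- a commutator with a fixed-point-free factor in the derived subgroup -/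
def CF (g : f.Isom) : Prop := ∃ x b : f.Isom, g = x * b * x⁻¹ * b⁻¹ ∧ b ∈ commutator f.Isom ∧
  ∀ v, b.1 v = v → v = 0

theorem fpf_conj {b : f.Isom} (hb : ∀ v, b.1 v = v → v = 0) (x : f.Isom) (v : V)
    (hv : (x * b * x⁻¹).1 v = v) : v = 0 := by
  rw [← Isom.apply_inv x v, hb (x⁻¹.1 v) (x.1.injective (hv.trans (Isom.apply_inv x v).symm)),
    map_zero]

theorem CF.of_conj {g y : f.Isom} (h : CF (y * g * y⁻¹)) : CF g := by
  obtain ⟨x, b, e, h1, h2⟩ := h
  refine ⟨y⁻¹ * x * y, y⁻¹ * b * y⁻¹⁻¹, ?_, (inferInstance : (commutator _).Normal).conj_mem _ h1 _,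
    fpf_conj h2 _⟩
  calc g = y⁻¹ * (y * g * y⁻¹) * y := by group
    _ = _ := by rw [e]; group

open Classical in
/-- the reflection, or the identity for a singular vector -/
noncomputable def rfl0 (f : Form (Param.orth F) V) (v : V) : f.Isom :=
  if h : f.Q v = 0 then 1 else f.refl v h

theorem rfl0_eq {v : V} (h : f.Q v ≠ 0) : rfl0 f v = f.refl v h := dif_neg h

theorem rfl0_apply (v x : V) : (rfl0 f v).1 x = x - ((f.Q v)⁻¹ * f.B x v) • v := by
  by_cases h : f.Q v = 0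
  · simp [rfl0, h]
  · rw [rfl0_eq h, refl_apply]

theorem rfl0_conj (y : f.Isom) (v : V) : y * rfl0 f v * y⁻¹ = rfl0 f (y.1 v) := by
  by_cases h : f.Q v = 0
  · simp [rfl0, h, Isom.map_Q]
  · rw [rfl0_eq h, refl_conj, rfl0_eq]

namespace T3

/-- a vector with six coordinates -/
def vec (F : Type*) [Field F] [Module F V] (e : Fin 6 → V) (n : ℕ) : V :=
  ∑ i : Fin 6, ((n / 3 ^ (i : ℕ) % 3 : ℕ) : F) • e i

/-- a product of reflections -/
noncomputable def wd (f : Form (Param.orth F) V) (e : Fin 6 → V) (w : List ℕ) : f.Isom :=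
  (w.map fun v => rfl0 f (vec F e v)).prod

theorem cast_mod (h3 : (3 : F) = 0) (n : ℕ) : ((n % 3 : ℕ) : F) = n := by
  conv_rhs => rw [← Nat.mod_add_div n 3]
  simp [h3]

theorem vec_ad (h3 : (3 : F) = 0) (e : Fin 6 → V) (k n m : ℕ) :
    vec F e (ad k n m) = vec F e n + (k : F) • vec F e m := by
  have h : ∀ i : Fin 6, ad k n m / 3 ^ (i : ℕ) % 3 = dg k n m (3 ^ (i : ℕ)) := fun i => by
    have h : ∀ d, dg k n m d < 3 := fun d => Nat.mod_lt _ (by decide)
    have := And.intro (And.intro (h 1) (h 3)) (And.intro (And.intro (h 9) (h 27))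
      (And.intro (h 81) (h 243)))
    fin_cases i <;> simp [ad] <;> omega
  simp only [vec, h, Finset.smul_sum, ← Finset.sum_add_distrib, smul_smul, ← add_smul]
  refine Finset.sum_congr rfl fun i _ => congrArg (· • _) ?_
  simp only [cast_mod h3]
  exact (cast_mod h3 _).trans ((Nat.cast_add _ _).trans (congrArg _ (Nat.cast_mul _ _)))

/-- an orthogonal basis -/
structure OB (f : Form (Param.orth F) V) (e : Fin 6 → V) : Prop where
  B : ∀ i j, f.B (e i) (e j) = if i = j then if i = 5 then 1 else 2 else 0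
  span : ∀ x, ∃ n < 729, x = vec F e n

variable {e : Fin 6 → V}

theorem OB.B_vec (h3 : (3 : F) = 0) (h : OB f e) (n m : ℕ) :
    f.B (vec F e n) (vec F e m) = 2 * bn n m := by
  rw [bn, show ∀ a b, Nat.mod a b = a % b from fun _ _ => rfl, cast_mod h3]
  simp [vec, Fin.sum_univ_six, h.B, cast_mod h3]
  linear_combination -((n / 243 : ℕ) : F) * ((m / 243 : ℕ) : F) * h3

theorem two_ne (h3 : (3 : F) = 0) : (2 : F) ≠ 0 := fun e =>
  one_ne_zero (show (1 : F) = 0 by linear_combination h3 - e)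

theorem OB.Q_vec (h3 : (3 : F) = 0) (h : OB f e) (n : ℕ) : f.Q (vec F e n) = bn n n :=
  mul_left_cancel₀ (two_ne h3) (by rw [← orth_B_self, h.B_vec h3])

theorem bn_eq (h3 : (3 : F) = 0) {n m k : ℕ} (hk : k < 3) (h : (bn n m : F) = k) : bn n m = k := by
  have h1 : bn n m < 3 := Nat.mod_lt _ (by decide)
  have h2 := two_ne h3
  have h4 : (2 : F) ≠ 1 := fun e => one_ne_zero (show (1 : F) = 0 by linear_combination e)
  generalize bn n m = j at h h1
  interval_cases j <;> interval_cases k <;> simp [h2, h2.symm, h4, h4.symm] at h ⊢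

theorem OB.wd_apply (h3 : (3 : F) = 0) (h : OB f e) (w : List ℕ) (n : ℕ) :
    (wd f e w).1 (vec F e n) = vec F e (ap w n) := by
  induction w with
  | nil => rfl
  | cons v w ih =>
    rw [wd, List.map_cons, List.prod_cons, Isom.mul_apply, ← wd, ih, rfl0_apply,
      show ap (v :: w) n = rf v (ap w n) from rfl, rf, force_eq, force_eq, vec_ad h3, h.B_vec h3,
      h.Q_vec h3, sub_eq_add_neg, ← neg_smul]
    congr 2
    have h1 : bn v v < 3 := Nat.mod_lt _ (by decide)
    have h2 := two_ne h3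
    generalize bn v v = j at h1
    interval_cases j <;> simp
    · linear_combination -(bn (ap w n) v : F) * h3
    · field_simp
      linear_combination -(bn (ap w n) v : F) * h3

theorem OB.ext (h : OB f e) {W : Type*} [AddCommGroup W] [Module F W] (φ : V →ₗ[F] W)
    (he : ∀ k ∈ [1, 3, 9, 27, 81, 243], φ (vec F e k) = 0) (v : V) : φ v = 0 := by
  obtain ⟨n, -, rfl⟩ := h.span v
  simp [vec, Fin.sum_univ_six] at he
  simp [vec, Fin.sum_univ_six, he]

theorem OB.isom_ext (h : OB f e) {a b : f.Isom}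
    (he : ∀ k ∈ [1, 3, 9, 27, 81, 243], a.1 (vec F e k) = b.1 (vec F e k)) : a = b :=
  Isom.ext fun v => sub_eq_zero.1 (h.ext ((a.1 : V →ₗ[F] V) - (b.1 : V →ₗ[F] V))
    (fun k hk => sub_eq_zero.2 (he k hk)) v)

variable [FiniteDimensional F V] [Fintype F]

theorem OB.cf (hf : f.Nondeg) (h3 : (3 : F) = 0) (h : OB f e) {v w : V} (hv : f.Q v = 1)
    (hw : f.Q w = 1) (h0 : f.B v w = 0) :
    CF (rfl0 f (e 0) * rfl0 f (e 1) * (rfl0 f v * rfl0 f w)) := by
  obtain ⟨v, h1, rfl⟩ := h.span v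
  obtain ⟨y, h4, h5⟩ := nor_spec tnor h1 (bn_eq h3 (by decide) (by rw [← h.Q_vec h3, hv]; simp))
  obtain ⟨n, h6, h7⟩ := h.span ((wd f e y).1 w)
  obtain ⟨D, h8⟩ := tab _ h4
  obtain ⟨x, a, b, c, d, a', b', m, h8⟩ := all_spec h8 h6
    (bn_eq h3 (by decide) (by rw [← h.Q_vec h3, ← h7, Isom.map_Q, hw]; simp))
    (bn_eq h3 (by decide) (mul_left_cancel₀ (two_ne h3) (by
      rw [← h.B_vec h3, ← h7, ← h.wd_apply h3, Isom.map_B, h0]; simp)))
  have h9 : rfl0 f (e 0) * rfl0 f (e 1) = wd f e [1, 3] := by simp [wd, vec, Fin.sum_univ_six]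
  have h10 : wd f e y * wd f e [1, 3] = wd f e [1, 3] * wd f e y := h.isom_ext fun k hk => by
    simp only [Isom.mul_apply, h.wd_apply h3, h5 k hk]
  simp only [chk, band_eq, force_eq, allL_iff, Nat.beq_eq] at h8
  have h11 : ∀ a b, bn a a = bn b b → wd f e [a, b] ∈ commutator f.Isom := fun a b hab => by
    have e1 : f.Q (vec F e a) = f.Q (vec F e b) := by rw [h.Q_vec h3, h.Q_vec h3, hab]
    by_cases e2 : f.Q (vec F e b) = 0
    · simp [wd, rfl0, e1, e2]
    · simpa [wd, rfl0_eq e2, rfl0_eq (e1 ▸ e2)] using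
        hf.refl_mul_refl_mem_commutator (e1 ▸ e2) e2 ⟨_, by rw [e1]⟩
  refine CF.of_conj (y := wd f e y) ⟨wd f e x, wd f e [a, b] * (wd f e [c, d] * wd f e [a', b']),
    ?_, mul_mem (h11 _ _ (h8.1 [a, b] (by simp))) (mul_mem (h11 _ _ (h8.1 [c, d] (by simp)))
      (h11 _ _ (h8.1 [a', b'] (by simp)))), fun z hz => hf.right z (h.ext (f.B.flip z) fun k hk => ?_)⟩
  · rw [← conj_mul, h9, h10, mul_inv_cancel_right, ← conj_mul, rfl0_conj, rfl0_conj, h7,
      h.wd_apply h3, eq_mul_inv_iff_mul_eq, eq_mul_inv_iff_mul_eq,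
      show wd f e [1, 3] * (rfl0 f (vec F e (ap y v)) * rfl0 f (vec F e n)) =
        wd f e [1, 3, ap y v, n] by simp [wd, mul_assoc]]
    exact h.isom_ext fun k hk => by simp only [Isom.mul_apply, h.wd_apply h3, (h8.2 k hk).1]
  · rw [← (h8.2 k hk).2, LinearMap.flip_apply, vec_ad h3, B_add_left, ← h.wd_apply h3,
      ← h.wd_apply h3, ← h.wd_apply h3, ← Isom.mul_apply, ← Isom.mul_apply, mul_assoc, ← hz,
      Isom.map_B, hz, B_smul_left]
    linear_combination f.B _ z * h3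

theorem exists_ob (hf : f.Nondeg) (hq : Fintype.card F = 3) (hn : finrank F V = 6)
    (hd : f.disc = -1) {u u' : V} (hu : f.Q u = 1) (hu' : f.Q u' = 1) (h0 : f.B u u' = 0) :
    ∃ e, OB f e ∧ e 0 = u ∧ e 1 = u' := by
  have h3 := three_eq_zero hq
  have h2 := two_ne h3
  have h4 : chi F 2 = -1 := by
    rw [show (2 : F) = -1 by linear_combination h3, chi_neg_one h2, hq]; simp
  obtain ⟨b, h5, h6⟩ := hf.exists_orthBasis_Q h2 (ι := Fin 6) (by simp [hn])
    (fun i => if i = 5 then 2 else 1) (fun i => by split_ifs <;> simp [h2])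
    (by simp [Fin.prod_univ_six, h4, hd])
  obtain ⟨z, h7, h8⟩ := hf.witt_two (x := b 0) (x' := b 1) (y := u) (y' := u')
    (LinearIndependent.pair_iff.2 fun α β e => by
      simpa using And.intro (congrArg (b.repr · 0) e) (congrArg (b.repr · 1) e))
    (LinearIndependent.pair_iff.2 fun α β e => by
      simpa [orth_B_self, hu, hu', h0, f.orth_symm u u', h2] using
        And.intro (congrArg (f.B · u) e) (congrArg (f.B · u') e))
    (by simp [orth_B_self, h6, hu]) (by simp [orth_B_self, h6, hu']) (by rw [h0, h5.ne _ _ (by decide)])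
    (by simp [h6, hu]) (by simp [h6, hu'])
  refine ⟨fun i => z.1 (b i), ⟨fun i j => ?_, fun x => ?_⟩, h7, h8⟩
  · rw [Isom.map_B]
    by_cases e : i = j
    · subst e
      rw [orth_B_self, h6, if_pos rfl]
      split_ifs
      · linear_combination h3
      · simp
    · rw [if_neg e, h5.ne _ _ e]
  · have h9 : ∀ c : F, ∃ d < 3, c = (d : ℕ) := fun c => by
      by_cases e : c = 0
      · exact ⟨0, by simp [e]⟩
      rcases eq_or_eq_neg hq e one_ne_zero with e | e
      · exact ⟨1, by simp [e]⟩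
      · exact ⟨2, by decide, by rw [e]; push_cast; linear_combination -h3⟩
    obtain ⟨x, rfl⟩ := z.1.surjective x
    choose d h10 h11 using fun i => h9 (b.repr x i)
    have := And.intro (And.intro (h10 0) (h10 1)) (And.intro (And.intro (h10 2) (h10 3))
      (And.intro (h10 4) (h10 5)))
    refine ⟨d 0 + 3 * d 1 + 9 * d 2 + 27 * d 3 + 81 * d 4 + 243 * d 5, by omega, ?_⟩
    rw [← b.sum_repr x, map_sum]
    refine Finset.sum_congr rfl fun i _ => ?_
    rw [map_smul, h11]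
    congr 2
    fin_cases i <;> simp <;> omega

end T3

variable [FiniteDimensional F V] [Fintype F]

theorem exists_rr (hf : f.Nondeg) (hq : Fintype.card F = 3) {ρ : f.Isom} (hρ : ρ * ρ = 1)
    (hd : finrank F (Isom.res ρ) = 2) (hs : hf.spin (T3.two_ne (three_eq_zero hq)) ρ = 1) :
    ∃ u u', f.Q u = 1 ∧ f.Q u' = 1 ∧ f.B u u' = 0 ∧ ρ = rfl0 f u * rfl0 f u' := by
  have h2 := T3.two_ne (three_eq_zero hq)
  obtain ⟨b, h4, h5⟩ := ((f.restrict_nondeg_iff _).2 (nondeg_res hf h2 hρ)).orth_exists_orthFam_Q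
    h2 2 hd.ge (fun _ => 1) fun _ => one_ne_zero
  have h6 : f.Q (b 0) = 1 := h5 0 (by omega)
  have h7 : f.Q (b 1) ≠ 0 := h4.Q_ne 1
  have h8 : f.B (b 0) (b 1) = 0 := h4.ne 0 1 (by decide)
  have h9 : ρ = rfl0 f (b 0) * rfl0 f (b 1) := Isom.ext fun x => by
    obtain ⟨y, z, hy, hz, rfl⟩ := exists_eig h2 hρ x
    have h9 := (h4.basis (by simp [hd])).sum_repr ⟨z, (mem_res_iff h2 hρ).2 hz⟩
    rw [Fin.sum_univ_two, OrthFam.coe_basis] at h9
    have h10 := fun i => B_eig h2 hy ((mem_res_iff h2 hρ).1 (b i).2)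
    rw [map_add, hy, hz, ← show _ = z from congrArg Subtype.val h9]
    simp [rfl0_apply, h10, h8, f.orth_symm (b 0) (b 1), orth_B_self, h6]
    match_scalars <;> field_simp <;> ring
  refine ⟨_, _, h6, (eq_or_eq_neg hq h7 one_ne_zero).resolve_right fun e => ?_, h8, h9⟩
  rw [h9, rfl0_eq h7, rfl0_eq (h6 ▸ one_ne_zero), map_mul, hf.spin_refl, hf.spin_refl, h6, e,
    chi_neg_one h2, hq] at hs
  simp at hs

theorem cf_three (hf : f.Nondeg) (hq : Fintype.card F = 3) (hn : finrank F V = 6)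
    (hd : f.disc = -1) {σ τ : f.Isom} (hσ : σ * σ = 1) (hτ : τ * τ = 1)
    (h1 : finrank F (Isom.res σ) = 4) (h1' : finrank F (Isom.res τ) = 4)
    (hs : hf.spin (T3.two_ne (three_eq_zero hq)) σ = -1)
    (hs' : hf.spin (T3.two_ne (three_eq_zero hq)) τ = -1) : CF (σ * τ) := by
  have h2 := T3.two_ne (three_eq_zero hq)
  have key : ∀ σ : f.Isom, σ * σ = 1 → finrank F (Isom.res σ) = 4 → hf.spin h2 σ = -1 →
      ∃ u u', f.Q u = 1 ∧ f.Q u' = 1 ∧ f.B u u' = 0 ∧ f.negOne * σ = rfl0 f u * rfl0 f u' :=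
    fun σ hσ h1 hs => exists_rr hf hq (neg_sq hσ) (by
      have := Isom.finrank_res_add_fix σ
      rw [res_neg h2 hσ]
      omega) (by
      rw [map_mul, hs, hf.spin_negOne, hd, hn, show 6 = 3 + 3 from rfl, pow_add, ← mul_pow,
        chi_mul_self h2]
      simp)
  obtain ⟨u, u', a1, a2, a3, a4⟩ := key σ hσ h1 hs
  obtain ⟨v, v', b1, b2, b3, b4⟩ := key τ hτ h1' hs'
  obtain ⟨e, he, rfl, rfl⟩ := T3.exists_ob hf hq hn hd a1 a2 a3
  have := he.cf hf (three_eq_zero hq) b1 b2 b3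
  rwa [← a4, ← b4, show f.negOne * σ * (f.negOne * τ) = σ * τ from
    Isom.ext fun x => by simp [negOne_apply]] at this

end Cfsg.Agent.Ore
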