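import Cfsg.Agent.Lib.Ore.Levi
import Cfsg.Agent.Lib.Forms.Invol

/-!
Commutators in orthogonal groups of characteristic two.
-/

set_option autoImplicit false

universe u

namespace Cfsg.Agent.Ore

open Module Polynomial Cfsg.Agent.Forms Cfsg.Agent.Forms.Form

variable {F : Type*} [Field F] {V : Type u} [AddCommGroup V] [Module F V]
  {f : Form (Param.orth F) V}

theorem B_self2 (h2 : (2 : F) = 0) (x : V) : f.B x x = 0 := by rw [orth_B_self, h2, zero_mul]

/-- the polar form as a symplectic form -/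
def spF (f : Form (Param.orth F) V) (h2 : (2 : F) = 0) : Form (Param.sp F) V :=
  Form.ofAlt f.B (B_self2 h2)

theorem neg2 (h2 : (2 : F) = 0) (x : V) : -x = x := by
  rw [neg_eq_iff_add_eq_zero, ← two_smul F, h2, zero_smul]

theorem Q_sub2 (h2 : (2 : F) = 0) (s : f.Isom) (x : V) : f.Q (s.1 x - x) = f.B x (s.1 x) := by
  rw [orth_Q_sub, Isom.map_Q, orth_symm]
  linear_combination (f.Q x - f.B x (s.1 x)) * h2

/-- complementary Lagrangian subspaces -/
structure LG (f : Form (Param.orth F) V) (A C : Submodule F V) : Prop where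
  hA : A ≤ f.orth A
  hC : C ≤ f.orth C
  top : A ⊔ C = ⊤

theorem LG.symm {A C : Submodule F V} (h : LG f A C) : LG f C A :=
  ⟨h.hC, h.hA, (sup_comm _ _).trans h.top⟩

theorem LG.decomp {A C : Submodule F V} (h : LG f A C) (x : V) : ∃ a ∈ A, ∃ c ∈ C, a + c = x :=
  Submodule.mem_sup.1 (h.top ▸ Submodule.mem_top)

theorem exists_ne2 {S : Submodule F V} {l l' : V} (h : ∃ x ∈ S, f.B l x ≠ 0)
    (h' : ∃ x ∈ S, f.B l' x ≠ 0) : ∃ x ∈ S, f.B l x = 1 ∧ f.B l' x ≠ 0 := by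
  obtain ⟨x, hx, h1, h2⟩ : ∃ x ∈ S, f.B l x ≠ 0 ∧ f.B l' x ≠ 0 := by
    obtain ⟨x, hx, h1⟩ := h
    obtain ⟨y, hy, h2⟩ := h'
    by_cases h3 : f.B l' x = 0
    · by_cases h4 : f.B l y = 0
      · exact ⟨x + y, add_mem hx hy, by simpa [h4], by simpa [h3]⟩
      · exact ⟨y, hy, h4, h2⟩
    · exact ⟨x, hx, h1, h3⟩
  exact ⟨(f.B l x)⁻¹ • x, S.smul_mem _ hx, by simp [h1], by simp [h1, h2]⟩

variable [FiniteDimensional F V]

theorem LG.orth_eq (hf : f.Nondeg) {A C : Submodule F V} (h : LG f A C) :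
    f.orth C = C ∧ Disjoint A C ∧ finrank F V = 2 * finrank F A := by
  have h3 := Submodule.finrank_mono h.hA
  have h4 := Submodule.finrank_mono h.hC
  have h5 := hf.finrank_add_orth A
  have h6 := hf.finrank_add_orth C
  have h7 := Submodule.finrank_sup_add_finrank_inf_eq A C
  rw [h.top, finrank_top] at h7
  exact ⟨(Submodule.eq_of_le_of_finrank_eq h.hC (by omega)).symm,
    disjoint_iff.2 (Submodule.finrank_eq_zero.1 (by omega)), by omega⟩

theorem LG.exists_dual (hf : f.Nondeg) {A C U : Submodule F V} (h : LG f A C) (hU : U ≤ A) {a : V}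
    (ha : a ∈ A) (ha' : a ∉ U) : ∃ c ∈ C, (∀ u ∈ U, f.B u c = 0) ∧ f.B a c = 1 := by
  obtain ⟨v, h1, h2⟩ := hf.exists_orth_eq_one ha'
  obtain ⟨b, hb, c, hc, rfl⟩ := h.decomp v
  exact ⟨c, hc, fun u hu => by simpa [h.hA (hU hu) b hb] using h1 u hu,
    by simpa [h.hA ha b hb] using h2⟩

theorem LG.exists_one (hf : f.Nondeg) {A C : Submodule F V} (h : LG f A C) {a : V}
    (ha : a ∈ A) (ha' : a ≠ 0) : ∃ c ∈ C, f.B a c = 1 :=
  (h.exists_dual hf bot_le ha ha').imp fun _ h => ⟨h.1, h.2.2⟩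

theorem LG.sub_mem (hf : f.Nondeg) {A C : Submodule F V} (h : LG f A C) {s : f.Isom}
    (hs : s ∈ f.ptw C) (x : V) : s.1 x - x ∈ C :=
  (h.orth_eq hf).1 ▸ fun c hc => by rw [B_sub_left, ← Isom.map_B s x, hs c hc, sub_self]

theorem LG.sq (hf : f.Nondeg) (h2 : (2 : F) = 0) {A C : Submodule F V} (h : LG f A C) {s : f.Isom}
    (hs : s ∈ f.ptw C) : s * s = 1 := Isom.ext fun x => by
  have := hs _ (h.sub_mem hf hs x)
  rw [map_sub, sub_eq_iff_eq_add, sub_add_eq_add_sub, ← two_smul F, h2, zero_smul, zero_sub,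
    neg2 h2] at this
  exact this

theorem LG.uu (hf : f.Nondeg) {A C : Submodule F V} (h : LG f A C) {s σ : f.Isom}
    (hs : s ∈ f.ptw C) (hσ : σ ∈ f.ptw C) {U : Submodule F V}
    (e : ∀ a ∈ U, ∀ a' ∈ U, f.B a' (s.1 a) = f.B a' (σ.1 a)) : s * σ⁻¹ ∈ UU f (C ⊓ f.orth U) := by
  refine mul_inv_mem_UU (fun c hc => hs c hc.1) (fun c hc => hσ c hc.1) fun y hy => ⟨?_, ?_⟩
  · simpa using _root_.sub_mem (h.sub_mem hf hs y) (h.sub_mem hf hσ y)
  · rw [hf.orth_inf, hf.orth_orth, (h.orth_eq hf).1] at hy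
    obtain ⟨c, hc, a, ha, rfl⟩ := Submodule.mem_sup.1 hy
    refine mem_orth'.2 fun a' ha' => ?_
    rw [map_add, map_add, hs c hc, hσ c hc, add_sub_add_left_eq_sub, B_sub_right, e a ha a' ha',
      sub_self]

omit [FiniteDimensional F V] in
theorem LG.sup_eq {A C U W : Submodule F V} (h : LG f A C) (hU : U ≤ A) (hW : W ≤ C) :
    (A ⊓ f.orth W) ⊔ (C ⊓ f.orth U) = f.orth (U ⊔ W) := by
  rw [orth_sup]
  refine le_antisymm (sup_le (le_inf (inf_le_left.trans (h.hA.trans (f.orth_le hU))) inf_le_right)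
    (le_inf inf_le_right (inf_le_left.trans (h.hC.trans (f.orth_le hW))))) fun x hx => ?_
  obtain ⟨a, ha, c, hc, rfl⟩ := h.decomp x
  exact Submodule.add_mem_sup ⟨ha, fun w hw => by simpa [h.hC hc w (hW hw)] using hx.2 w hw⟩
    ⟨hc, fun u hu => by simpa [h.hA ha u (hU hu)] using hx.1 u hu⟩

omit [FiniteDimensional F V] in
theorem LG.nondeg {A C U W : Submodule F V} (h : LG f A C) (hU : U ≤ A) (hW : W ≤ C)
    (h1 : ∀ u ∈ U, (∀ w ∈ W, f.B u w = 0) → u = 0) (h2 : ∀ w ∈ W, (∀ u ∈ U, f.B u w = 0) → w = 0) :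
    Disjoint (U ⊔ W) (f.orth (U ⊔ W)) := Submodule.disjoint_def.2 fun x hx hx' => by
  obtain ⟨u, hu, w, hw, rfl⟩ := Submodule.mem_sup.1 hx
  rw [h1 u hu fun y hy => by simpa [h.hC (hW hw) y (hW hy)] using hx' y (Submodule.mem_sup_right hy),
    h2 w hw fun y hy => f.B_eq_zero_symm (by
      simpa [h.hA (hU hu) y (hU hy)] using hx' y (Submodule.mem_sup_left hy)), add_zero]

omit [FiniteDimensional F V] in
theorem LG.nondeg2 {A C : Submodule F V} (h : LG f A C) {a a' c c' : V} (ha : a ∈ A) (ha' : a' ∈ A)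
    (hc : c ∈ C) (hc' : c' ∈ C) (hd : f.B a c * f.B a' c' - f.B a c' * f.B a' c ≠ 0) :
    Disjoint (Submodule.span F {a, a'} ⊔ Submodule.span F {c, c'})
      (f.orth (Submodule.span F {a, a'} ⊔ Submodule.span F {c, c'})) := by
  refine h.nondeg (Submodule.span_le.2 (Set.pair_subset ha ha'))
    (Submodule.span_le.2 (Set.pair_subset hc hc')) (fun u hu e => ?_) fun u hu e => ?_
  · obtain ⟨x, y, rfl⟩ := Submodule.mem_span_pair.1 hu
    have h1 := e c (Submodule.subset_span (by simp))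
    have h2 := e c' (Submodule.subset_span (by simp))
    simp only [B_add_left, B_smul_left] at h1 h2
    rw [mul_right_cancel₀ hd (show x * _ = 0 * _ by linear_combination f.B a' c' * h1 - f.B a' c * h2),
      mul_right_cancel₀ hd (show y * _ = 0 * _ by linear_combination f.B a c * h2 - f.B a c' * h1)]
    simp
  · obtain ⟨x, y, rfl⟩ := Submodule.mem_span_pair.1 hu
    have h1 := e a (Submodule.subset_span (by simp))
    have h2 := e a' (Submodule.subset_span (by simp))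
    simp only [B_add_right, orth_B_smul_right] at h1 h2
    rw [mul_right_cancel₀ hd (show x * _ = 0 * _ by linear_combination f.B a' c' * h1 - f.B a c' * h2),
      mul_right_cancel₀ hd (show y * _ = 0 * _ by linear_combination f.B a c * h2 - f.B a' c * h1)]
    simp

/-- `a` represents the square root of the quadratic form on `C` -/
def Rt (f : Form (Param.orth F) V) (C : Submodule F V) (a : V) : Prop :=
  ∀ c ∈ C, f.Q c = f.B a c * f.B a c

theorem LG.B_self (hf : f.Nondeg) (h2 : (2 : F) = 0) {A C : Submodule F V} (h : LG f A C) {a : V}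
    (hr : Rt f C a) {s : f.Isom} (hs : s ∈ f.ptw C) (x : V) :
    f.B x (s.1 x) = (f.B x (s.1 a) - f.B x a) * (f.B x (s.1 a) - f.B x a) := by
  rw [← Q_sub2 h2, hr _ (h.sub_mem hf hs x), B_sub_right, ← B_invol (h.sq hf h2 hs),
    orth_symm _ x, orth_symm _ x]

theorem LG.match2 (hf : f.Nondeg) (h2 : (2 : F) = 0) {A C : Submodule F V} (h : LG f A C) {a b : V}
    (hr : Rt f C a) {s σ : f.Isom} (hs : s ∈ f.ptw C) (hσ : σ ∈ f.ptw C)
    (e1 : f.B a (s.1 a) = f.B a (σ.1 a)) (e2 : f.B b (s.1 a) = f.B b (σ.1 a)) :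
    ∀ x ∈ Submodule.span F {a, b}, ∀ y ∈ Submodule.span F {a, b},
      f.B y (s.1 x) = f.B y (σ.1 x) := fun x hx y hy => by
  obtain ⟨x1, x2, rfl⟩ := Submodule.mem_span_pair.1 hx
  obtain ⟨y1, y2, rfl⟩ := Submodule.mem_span_pair.1 hy
  have e3 : f.B a (s.1 b) = f.B a (σ.1 b) := by
    rw [← B_invol (h.sq hf h2 hs), ← B_invol (h.sq hf h2 hσ), orth_symm, e2, orth_symm]
  have e4 : f.B b (s.1 b) = f.B b (σ.1 b) := by
    rw [h.B_self hf h2 hr hs, h.B_self hf h2 hr hσ, e2]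
  simp only [map_add s.1, map_add σ.1, map_smul s.1, map_smul σ.1, B_add_left, B_add_right,
    B_smul_left, orth_B_smul_right, e1, e2, e3, e4]

variable [Fintype F]

theorem exists_lg (hf : f.Nondeg) (h2 : (2 : F) = 0) (g : f.Isom) :
    ∃ A C, LG f A C ∧ ∃ s ∈ f.ptw C, ∃ t ∈ f.ptw A, g = s * t := by
  have hf' : (spF f h2).Nondeg := hf
  obtain ⟨A, C, h3, h4, h5, h6⟩ := (gp_or_hasB _ (f := spF f h2) ⟨g.1, sp_isIsom (Isom.map_B g)⟩ hf'
    rfl).resolve_right fun ⟨_, _, _, _, _, _, _, _, _, _, h, _⟩ => h h2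
  obtain ⟨v, hv, n, hn, e⟩ := hf'.exists_ptw_mul h3 h4 h5 h6
  have h7 : ∀ a ∈ A, v.1 a = g.1 a := fun a ha =>
    (congrArg v.1 (hn a ha)).symm.trans (congrArg (fun z : (spF f h2).Isom => z.1 a) e).symm
  have hL : LG f A C := ⟨h3, h4, h5⟩
  let s : f.Isom := ⟨v.1, orth_isIsom (φ := (v.1 : V →ₗ[F] V)) fun x => by
    obtain ⟨a, ha, c, hc, rfl⟩ := hL.decomp x
    have := Isom.map_B v a c
    rw [hv c hc] at this
    rw [map_add, LinearEquiv.coe_coe, orth_Q_add, orth_Q_add, show f.B (v.1 a) (v.1 c) = f.B a c from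
      Isom.map_B v a c, h7 a ha, hv c hc, Isom.map_Q]⟩
  exact ⟨A, C, hL, s, hv, s⁻¹ * g, fun a ha => by
    rw [Isom.mul_apply, ← h7 a ha]; exact Isom.inv_apply s a, by simp⟩

theorem LG.exists_rt (hf : f.Nondeg) (h2 : (2 : F) = 0) {A C : Submodule F V} (h : LG f A C) :
    ∃ a ∈ A, Rt f C a := by
  choose l hl using fun c : C => isSquare_of_two_eq_zero h2 (f.Q c)
  have key : ∀ x y : F, x * x = y * y → x = y := fun x y e =>
    sub_eq_zero.1 (mul_self_eq_zero.1 (by linear_combination e + (y * y - x * y) * h2))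
  obtain ⟨φ, hφ⟩ := LinearMap.exists_extend
    ({ toFun := l
       map_add' := fun x y => key _ _ (by
        rw [← hl, Submodule.coe_add, orth_Q_add, h.hC x.2 _ y.2, hl, hl]
        linear_combination -(l x * l y) * h2)
       map_smul' := fun a x => key _ _ (by
        rw [← hl, Submodule.coe_smul, orth_Q_smul, hl]; simp; ring) } : C →ₗ[F] F)
  obtain ⟨v, hv⟩ := hf.exists_repr φ
  obtain ⟨a, ha, c, hc, rfl⟩ := h.decomp v
  refine ⟨a, ha, fun x hx => ?_⟩
  have := (hv x).trans (LinearMap.congr_fun hφ ⟨x, hx⟩)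
  rw [B_add_right, h.hC hx c hc, add_zero, orth_symm] at this
  rw [this]
  exact hl ⟨x, hx⟩

theorem mem_iff2 (hf : f.Nondeg) (h2 : (2 : F) = 0) (hn : 5 ≤ finrank F V) (g : f.Isom) :
    g ∈ commutator f.Isom ↔ Even (finrank F (Isom.res g)) :=
  hf.mem_commutator_iff_even_res (.inr hn) (isSquare_of_two_eq_zero h2) g

theorem mul_refl_mem (hf : f.Nondeg) (h2 : (2 : F) = 0) (hn : 5 ≤ finrank F V) (g : f.Isom) {y : V}
    (hy : f.Q y ≠ 0) : g * f.refl y hy ∈ commutator f.Isom ↔ g ∉ commutator f.Isom := by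
  rw [mem_iff2 hf h2 hn, mem_iff2 hf h2 hn, hf.even_res_mul_refl]

theorem mem_iff_of_mul (hf : f.Nondeg) (h2 : (2 : F) = 0) (hn : 5 ≤ finrank F V) {s t : f.Isom}
    (h : s * t ∈ commutator f.Isom) : s ∈ commutator f.Isom ↔ t ∈ commutator f.Isom :=
  ⟨fun hs => (mul_mem_cancel_left hs).1 h, fun ht => (mul_mem_cancel_right ht).1 h⟩

omit [Fintype F] [FiniteDimensional F V] in
theorem LG.refl_mem {A C : Submodule F V} (h : LG f A C) {w : V} (hw : w ∈ C) (h0 : f.Q w ≠ 0) :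
    f.refl w h0 ∈ f.ptw C := fun c hc => f.refl_apply_of_orth w h0 (h.hC hc w hw)

theorem LG.mem_iff (hf : f.Nondeg) (h2 : (2 : F) = 0) (hn : 5 ≤ finrank F V) {A C : Submodule F V}
    (h : LG f A C) {a : V} (ha : a ∈ A) (hr : Rt f C a) {s : f.Isom} (hs : s ∈ f.ptw C) :
    s ∈ commutator f.Isom ↔ f.B a (s.1 a) = 0 := by
  have k1 : ∀ s ∈ f.ptw C, s.1 a = a → s ∈ commutator f.Isom := fun s hs e =>
    (mem_iff2 hf h2 hn s).2 (Nondeg.even_of_isAlt (f := spF f h2) hf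
      (a := ⟨s.1, sp_isIsom (Isom.map_B s)⟩) fun x => (h.B_self hf h2 hr hs x).trans (by
        rw [e, sub_self, mul_zero]))
  have k2 : ∀ s ∈ f.ptw C, f.B a (s.1 a) ≠ 0 → s ∉ commutator f.Isom := fun s hs e => by
    have h3 := h.B_self hf h2 hr hs a
    rw [B_self2 h2, sub_zero, eq_comm, mul_eq_right₀ e] at h3
    have h4 : f.Q (s.1 a - a) = 1 := (Q_sub2 h2 s a).trans h3
    have h5 := h.refl_mem (h.sub_mem hf hs a) (h4 ▸ one_ne_zero)
    refine (mul_refl_mem hf h2 hn s (h4 ▸ one_ne_zero)).1 (k1 _ (mul_mem hs h5) ?_)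
    rw [Isom.mul_apply, refl_apply, h4, B_sub_right, h3, B_self2 h2, map_sub, map_smul,
      hs _ (h.sub_mem hf hs a)]
    simp
  refine ⟨fun h3 => by_contra fun e => k2 s hs e h3, fun e => ?_⟩
  by_cases h0 : a = 0
  · exact k1 s hs (by rw [h0, map_zero])
  obtain ⟨w, hw, h3⟩ := h.exists_one hf ha h0
  have h4 : f.Q w = 1 := by rw [hr w hw, h3, mul_one]
  by_contra h5
  refine k2 _ (mul_mem hs (h.refl_mem hw (h4 ▸ one_ne_zero))) ?_
    ((mul_refl_mem hf h2 hn s _).2 h5)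
  rw [Isom.mul_apply, refl_apply, h4, h3, map_sub, map_smul, hs w hw, B_sub_right, e,
    orth_B_smul_right, h3]
  simp

theorem LG.oc (hf : f.Nondeg) (h2 : (2 : F) = 0) (hn : 5 ≤ finrank F V) {A C U W : Submodule F V}
    (h : LG f A C) (hU : U ≤ A) (hW : W ≤ C) (hP : Disjoint (U ⊔ W) (f.orth (U ⊔ W)))
    (hA : ∀ a ∈ A ⊓ f.orth W, f.Q a = 0) (hC : ∀ c ∈ C ⊓ f.orth U, f.Q c = 0) {d : ℕ}
    (hd : finrank F W ≤ d) (hq : 2 * d + 6 ≤ finrank F V ∨
      (2 * d + 2 ≤ finrank F V ∧ 4 ≤ Fintype.card F)) {s t σ τ x b : f.Isom}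
    (hs : s ∈ f.ptw C) (hσ : σ ∈ f.ptw C) (ht : t ∈ f.ptw A) (hτ : τ ∈ f.ptw A)
    (e1 : ∀ a ∈ U, ∀ a' ∈ U, f.B a' (s.1 a) = f.B a' (σ.1 a))
    (e2 : ∀ c ∈ W, ∀ c' ∈ W, f.B c' (t.1 c) = f.B c' (τ.1 c))
    (hx : x ∈ f.ptw (f.orth (U ⊔ W))) (hb : b ∈ f.ptw (f.orth (U ⊔ W))) (hb' : b * b = 1)
    (e : σ * τ = x * b * x⁻¹ * b) (hb2 : b ∈ commutator f.Isom)
    (hy : x ∈ commutator f.Isom ∨ ∃ y ∈ U ⊔ W, f.Q y ≠ 0 ∧ (b.1 y = y ∨ b.1 y = -y)) :
    OC (s * t) := by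
  have h3 := h.sup_eq hU hW
  have hD : Dual f (A ⊓ f.orth W) (C ⊓ f.orth U) := ⟨hA, hC, h3 ▸ hf.disjoint_orth_orth hP⟩
  have h4 := Submodule.finrank_sup_add_finrank_inf_eq A (f.orth W)
  have h5 := hf.finrank_add_orth W
  have h6 := (A ⊔ f.orth W).finrank_le
  have h7 := (h.orth_eq hf).2.2
  obtain ⟨k, hk⟩ := hD.exists_lk' hf (by omega) (by omega) (by omega)
  have := hk.cw hf hD (h3 ▸ hx) (h3 ▸ hb) hb' (h.uu hf hs hσ e1) (inv_mem (h.symm.uu hf ht hτ e2))
  rw [← e, mul_inv_rev, inv_inv, inv_eq_of_mul_eq_one_right (h.symm.sq hf h2 ht), ← mul_assoc,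
    ← mul_assoc, inv_mul_cancel_right, mul_assoc s, mul_assoc s, h.symm.sq hf h2 hτ, one_mul] at this
  have h8 := mul_mem ((mem_iff2 hf h2 hn k).2 (hk.fix hf hD ▸ even_two_mul _)) hb2
  by_cases h9 : x ∈ commutator f.Isom
  · exact this.oc (Commute.one_left _) (by rwa [mul_one]) h8
  · obtain ⟨y, h10, h11, h12⟩ := hy.resolve_left h9
    have h13 := hk.hP y (by rwa [h3, hf.orth_orth])
    refine this.oc (commute_refl h11 ?_).symm ((mul_refl_mem hf h2 hn x h11).2 h9) h8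
    rw [Isom.mul_apply]
    exact h12.imp (fun e => by rw [e, h13]) fun e => by rw [e, map_neg, h13]

theorem LG.oc_plane (hf : f.Nondeg) (h2 : (2 : F) = 0) (hn : 8 ≤ finrank F V) {A C : Submodule F V}
    (h : LG f A C) {a c : V} (ha : a ∈ A) (hc : c ∈ C) (h0 : f.B a c ≠ 0)
    (hA : ∀ x ∈ A, f.B x c = 0 → f.Q x = 0) (hC : ∀ x ∈ C, f.B x a = 0 → f.Q x = 0) {s t : f.Isom}
    (hs : s ∈ f.ptw C) (ht : t ∈ f.ptw A) (e1 : f.B a (s.1 a) = 0) (e2 : f.B c (t.1 c) = 0) :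
    OC (s * t) := by
  have key : ∀ (s : f.Isom) (a : V), f.B a (s.1 a) = 0 → ∀ x ∈ F ∙ a, ∀ y ∈ F ∙ a,
      f.B y (s.1 x) = f.B y ((1 : f.Isom).1 x) := fun s a e x hx y hy => by
    obtain ⟨x, rfl⟩ := Submodule.mem_span_singleton.1 hx
    obtain ⟨y, rfl⟩ := Submodule.mem_span_singleton.1 hy
    simp [e, B_self2 h2]
  refine h.oc hf h2 (by omega) ((Submodule.span_singleton_le_iff_mem _ _).2 ha)
    ((Submodule.span_singleton_le_iff_mem _ _).2 hc) (h.nondeg
      ((Submodule.span_singleton_le_iff_mem _ _).2 ha)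
      ((Submodule.span_singleton_le_iff_mem _ _).2 hc) (fun u hu e => ?_) fun u hu e => ?_)
    (fun x hx => hA x hx.1 (mem_orth_singleton.1 hx.2))
    (fun x hx => hC x hx.1 (mem_orth_singleton.1 hx.2)) (d := 1)
    ((finrank_span_le_card _).trans (by simp)) (.inl hn) hs (one_mem _) ht (one_mem _) (key s a e1)
    (key t c e2) (one_mem _) (one_mem _) (one_mul 1) (by simp) (one_mem _) (.inl (one_mem _))
  · obtain ⟨x, rfl⟩ := Submodule.mem_span_singleton.1 hu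
    simpa [h0, show x = 0 by simpa [h0] using e c (Submodule.mem_span_singleton_self c)]
  · obtain ⟨x, rfl⟩ := Submodule.mem_span_singleton.1 hu
    simpa [h0, show x = 0 by simpa [h0] using e a (Submodule.mem_span_singleton_self a)]

theorem LG.oc_ts (hf : f.Nondeg) (h2 : (2 : F) = 0) (hn : 8 ≤ finrank F V) {A C : Submodule F V}
    (h : LG f A C) (hA : ∀ x ∈ A, f.Q x = 0) {s t : f.Isom} (hs : s ∈ f.ptw C) (ht : t ∈ f.ptw A)
    (hg : s * t ∈ commutator f.Isom) : OC (s * t) := by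
  obtain ⟨a, ha, hr⟩ := h.exists_rt hf h2
  have h3 := (h.mem_iff hf h2 (by omega) ha hr hs).1 ((mem_iff_of_mul hf h2 (by omega) hg).2
    ((h.symm.mem_iff hf h2 (by omega) C.zero_mem (fun x hx => by simp [hA x hx]) ht).2 (by simp)))
  obtain ⟨b, hb, h0, h4, h5⟩ : ∃ b ∈ A, b ≠ 0 ∧ f.B b (s.1 b) = 0 ∧
      ∀ x ∈ C, f.B x b = 0 → f.Q x = 0 := by
    by_cases h0 : a = 0
    · obtain ⟨b, hb, h4⟩ := Submodule.exists_mem_ne_zero_of_ne_bot (p := A) fun e => by
        have := (h.orth_eq hf).2.2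
        rw [e, finrank_bot] at this
        omega
      exact ⟨b, hb, h4, by simpa [h0] using h.B_self hf h2 hr hs b,
        fun x hx _ => by simpa [h0] using hr x hx⟩
    · exact ⟨a, ha, h0, h3, fun x hx e => by rw [hr x hx, orth_symm, e, mul_zero]⟩
  obtain ⟨c, hc, h6⟩ := h.exists_one hf hb h0
  exact h.oc_plane hf h2 hn hb hc (h6 ▸ one_ne_zero) (fun x hx _ => hA x hx) h5 hs ht h4
    ((Q_sub2 h2 t c).symm.trans (hA _ (h.symm.sub_mem hf ht c)))

theorem LG.oc_fix (hf : f.Nondeg) (h2 : (2 : F) = 0) (hn : 8 ≤ finrank F V) {A C : Submodule F V}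
    (h : LG f A C) {c : V} (hc : c ∈ C) (hr : Rt f A c) (h0 : f.Q c = 0) {s t : f.Isom}
    (hs : s ∈ f.ptw C) (ht : t ∈ f.ptw A) (e : t.1 c = c) (hg : s * t ∈ commutator f.Isom) :
    OC (s * t) := by
  have h3 : ∀ x ∈ A.map (LinearMap.id + (f.B c).smulRight c), f.Q x = 0 := by
    rintro _ ⟨a, ha, rfl⟩
    change f.Q (a + f.B c a • c) = 0
    rw [orth_Q_add, orth_Q_smul, orth_B_smul_right, h0, hr a ha, orth_symm _ c a]
    linear_combination (f.B c a * f.B c a) * h2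
  refine LG.oc_ts hf h2 hn ⟨(totSing_of_Q h3).le_orth, h.hC, eq_top_iff.2 fun x _ => ?_⟩ h3 hs ?_ hg
  · obtain ⟨a, ha, y, hy, rfl⟩ := h.decomp x
    exact Submodule.mem_sup.2 ⟨_, ⟨a, ha, rfl⟩, y - f.B c a • c, _root_.sub_mem hy (C.smul_mem _ hc),
      show a + f.B c a • c + _ = _ by abel⟩
  · rintro _ ⟨a, ha, rfl⟩
    change t.1 (a + f.B c a • c) = a + f.B c a • c
    rw [map_add, map_smul, ht a ha, e]

theorem LG.oc_refl (hf : f.Nondeg) (h2 : (2 : F) = 0)
    (hq : 10 ≤ finrank F V ∨ (6 ≤ finrank F V ∧ 4 ≤ Fintype.card F)) {A C : Submodule F V}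
    (h : LG f A C) {a a' c c' w w' : V} (ha : a ∈ A) (ha' : a' ∈ A) (hc : c ∈ C) (hc' : c' ∈ C)
    (hr : Rt f C a) (hr' : Rt f A c) (hd : f.B a c * f.B a' c' - f.B a c' * f.B a' c ≠ 0)
    (hw : w ∈ Submodule.span F {c, c'}) (hw' : w' ∈ Submodule.span F {a, a'}) {s t : f.Isom}
    (hs : s ∈ f.ptw C) (ht : t ∈ f.ptw A) (e1 : f.B a (s.1 a) = 1) (e2 : f.B c (t.1 c) = 1)
    (e3 : f.B a w = 1) (e4 : f.B c w' = 1) (e5 : f.B a' (s.1 a) = f.B a' w)
    (e6 : f.B c' (t.1 c) = f.B c' w') (h0 : f.B w w' ≠ 0) : OC (s * t) := by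
  have hU : Submodule.span F {a, a'} ≤ A := Submodule.span_le.2 (Set.pair_subset ha ha')
  have hW : Submodule.span F {c, c'} ≤ C := Submodule.span_le.2 (Set.pair_subset hc hc')
  have hP := h.nondeg2 ha ha' hc hc' hd
  have q1 : f.Q w = 1 := by rw [hr w (hW hw), e3, mul_one]
  have q2 : f.Q w' = 1 := by rw [hr' w' (hU hw'), e4, mul_one]
  have q1' : f.Q w ≠ 0 := q1 ▸ one_ne_zero
  have q2' : f.Q w' ≠ 0 := q2 ▸ one_ne_zero
  have q3 : f.Q (w + w') = f.B w w' := by rw [orth_Q_add, q1, q2]; linear_combination h2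
  set P := Submodule.span F {a, a'} ⊔ Submodule.span F {c, c'}
  have m1 : w ∈ P := Submodule.mem_sup_right hw
  have m2 : w' ∈ P := Submodule.mem_sup_left hw'
  obtain ⟨v, hv, h3⟩ : ∃ v ∈ P ⊓ f.orth (Submodule.span F {w, w'}), f.Q v ≠ 0 := by
    by_contra H
    push Not at H
    have h3 : ∀ y ∈ P, y - (f.B y w' / f.B w w') • w - (f.B y w / f.B w w') • w' ∈
        P ⊓ f.orth (Submodule.span F {w, w'}) := fun y hy =>
      ⟨P.sub_mem (P.sub_mem hy (P.smul_mem _ m1)) (P.smul_mem _ m2), mem_orth_pair.2 (by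
        simp [B_self2 h2, f.orth_symm w w', h0])⟩
    have h4 : ∀ y ∈ Submodule.span F {a, a'}, y = (f.B y w / f.B w w') • w' := fun y hy => by
      have h4 := h3 y (Submodule.mem_sup_left hy)
      rw [h.hA (hU hy) w' (hU hw'), zero_div, zero_smul, sub_zero] at h4
      refine sub_eq_zero.1 (Submodule.disjoint_def.1 hP _ h4.1 fun z hz => ?_)
      have h5 := (totSing_of_Q H).2 _ h4 _ (h3 z hz)
      rwa [B_sub_right, B_sub_right, orth_B_smul_right, orth_B_smul_right,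
        (mem_orth_pair.1 h4.2).1, (mem_orth_pair.1 h4.2).2, mul_zero, mul_zero, sub_zero,
        sub_zero] at h5
    refine hd ?_
    rw [h4 a (Submodule.subset_span (by simp)), h4 a' (Submodule.subset_span (by simp))]
    simp only [B_smul_left]
    ring
  obtain ⟨h4, h5⟩ := mem_orth_pair.1 hv.2
  have k1 : ∀ y (hy : f.Q y ≠ 0), y ∈ P → f.refl y hy ∈ f.ptw (f.orth P) := fun y hy m z hz =>
    f.refl_apply_of_orth y hy (hz y m)
  have k2 : Commute (f.refl w' q2') (f.refl v h3) :=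
    commute_refl h3 (.inl (f.refl_apply_of_orth w' q2' h5))
  have k3 : ∀ (s : f.Isom) a a' w (hw : f.Q w ≠ 0), f.Q w = 1 → f.B a w = 1 → f.B a' a = 0 →
      f.B a' (s.1 a) = f.B a' w → f.B a' (s.1 a) = f.B a' ((f.refl w hw).1 a) :=
    fun s a a' w hw b1 b2 b3 b4 => by
      rw [refl_apply, b1, b2, B_sub_right, b3, b4, orth_B_smul_right]
      linear_combination f.B a' w * h2
  refine h.oc hf h2 (by omega) hU hW hP (fun x hx => ?_) (fun x hx => ?_)
    (finrank_span_pair_le c c') hq hs (h.refl_mem (hW hw) q1') ht (h.symm.refl_mem (hU hw') q2')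
    (h.match2 hf h2 hr hs (h.refl_mem (hW hw) q1')
      (k3 s a a w q1' q1 e3 (B_self2 h2 a) (e1.trans e3.symm))
      (k3 s a a' w q1' q1 e3 (h.hA ha' a ha) e5))
    (h.symm.match2 hf h2 hr' ht (h.symm.refl_mem (hU hw') q2')
      (k3 t c c w' q2' q2 e4 (B_self2 h2 c) (e2.trans e4.symm))
      (k3 t c c' w' q2' q2 e4 (h.hC hc' c hc) e6))
    (k1 _ (q3 ▸ h0) (add_mem m1 m2)) (mul_mem (k1 _ q2' m2) (k1 _ h3 hv.1))
    (by rw [← pow_two, k2.mul_pow, pow_two, pow_two, refl_mul_self, refl_mul_self, one_mul]) ?_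
    (hf.refl_mul_refl_mem_commutator _ _ (isSquare_of_two_eq_zero h2 _))
    (.inr ⟨w', m2, q2', .inr (by
      rw [Isom.mul_apply, f.refl_apply_of_orth v h3 (f.B_eq_zero_symm h5), refl_apply_self])⟩)
  · rw [hr' x hx.1, orth_symm, (mem_orth_pair.1 hx.2).1, mul_zero]
  · rw [hr x hx.1, orth_symm, (mem_orth_pair.1 hx.2).1, mul_zero]
  · rw [← conj_mul, refl_conj, refl_conj, k2.eq, mul_assoc, ← mul_assoc _ (f.refl v h3),
      f.refl_congr _ (f.refl_apply_of_orth _ _ (v := v) (by rw [B_add_right, h4, h5, add_zero])),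
      refl_mul_self, one_mul]
    refine congrArg (· * _) (f.refl_congr _ ?_)
    rw [refl_apply, q3, B_add_right, B_self2 h2, add_zero, orth_symm _ w w', inv_mul_cancel₀ h0, one_smul,
      sub_add_cancel_right, neg2 h2]

theorem LG.oc_siegel (hf : f.Nondeg) (h2 : (2 : F) = 0)
    (hq : 10 ≤ finrank F V ∨ (6 ≤ finrank F V ∧ 4 ≤ Fintype.card F)) {A C : Submodule F V}
    (h : LG f A C) {a a' c c' : V} (ha : a ∈ A) (ha' : a' ∈ A) (hc : c ∈ C) (hc' : c' ∈ C)
    (hr : Rt f C a) (hr' : Rt f A c) (h0 : f.B a c = 0) (h1 : f.B c a' = 1) (h1' : f.B a c' = 1)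
    {s t : f.Isom} (hs : s ∈ f.ptw C) (ht : t ∈ f.ptw A) (e1 : f.B a (s.1 a) = 0)
    (e2 : f.B c (t.1 c) = 0) (e3 : f.B a' (s.1 a) ≠ 0) (e4 : f.B c' (t.1 c) ≠ 0) : OC (s * t) := by
  have hU : Submodule.span F {a, a'} ≤ A := Submodule.span_le.2 (Set.pair_subset ha ha')
  have hW : Submodule.span F {c, c'} ≤ C := Submodule.span_le.2 (Set.pair_subset hc hc')
  have h0' := f.B_eq_zero_symm h0
  have hP := h.nondeg2 ha ha' hc hc' (by rw [h0, h1', orth_symm _ c, h1]; simp)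
  have q1 : f.Q c = 0 := by rw [hr c hc, h0, mul_zero]
  have q2 : f.Q a = 0 := by rw [hr' a ha, h0', mul_zero]
  have q3 : f.Q c' = 1 := by rw [hr c' hc', h1', mul_one]
  have q4 : f.Q a' = 1 := by rw [hr' a' ha', h1, mul_one]
  set P := Submodule.span F {a, a'} ⊔ Submodule.span F {c, c'}
  have m1 : a ∈ P := Submodule.mem_sup_left (Submodule.subset_span (by simp))
  have m2 : a' ∈ P := Submodule.mem_sup_left (Submodule.subset_span (by simp))
  have m3 : c ∈ P := Submodule.mem_sup_right (Submodule.subset_span (by simp))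
  have m4 : c' ∈ P := Submodule.mem_sup_right (Submodule.subset_span (by simp))
  have k1 : ∀ {A C : Submodule F V}, LG f A C → ∀ c ∈ C, ∀ c' ∈ C, ∀ h1 h2,
      f.siegel c c' h1 h2 ∈ f.ptw C := fun h c hc c' hc' h1 h2 y hy =>
    f.eichler_apply_of_orth _ _ _ _ _ _ (h.hC hy c hc) (h.hC hy c' hc')
  have k2 : ∀ a c c' (β : F) h1 h2, f.B a c = 0 → f.B a c' = 1 →
      (f.siegel c (β • c') h1 h2).1 a = a - β • c := fun a c c' β h1 h2 b1 b2 => by
    simp [siegel_apply, b1, b2]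
  have hB1 := h.hC (C.smul_mem (f.B a' (s.1 a)) hc') c hc
  have hB2 := h.hA (A.smul_mem (f.B c' (t.1 c)) ha') a ha
  have hσ := k1 h c hc _ (C.smul_mem _ hc') q1 hB1
  have hτ := k1 h.symm a ha _ (A.smul_mem _ ha') q2 hB2
  obtain ⟨x, h3, h4⟩ := ((f.restrict_nondeg_iff P).2 hP).witt_two (x := ⟨a, m1⟩) (x' := ⟨a', m2⟩)
    (y := (f.B a' (s.1 a) / f.B c' (t.1 c)) • ⟨c, m3⟩) (y' := ⟨c', m4⟩)
    (LinearIndependent.pair_iff.2 fun α β e => by
      have b1 := congrArg (fun z : P => f.B c z) e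
      have b2 := congrArg (fun z : P => f.B z c') e
      simp [h0', h1] at b1
      simpa [b1, h1'] using b2)
    (LinearIndependent.pair_iff.2 fun α β e => by
      have b1 := congrArg (fun z : P => f.B a z) e
      have b2 := congrArg (fun z : P => f.B z a') e
      simp [h0, h1'] at b1
      simpa [b1, h1, e3, e4] using b2)
    (by rw [B_self2 h2, B_self2 h2]) (by rw [B_self2 h2, B_self2 h2])
    (by simp [h.hA ha a' ha', h.hC hc c' hc']) (by simp [orth_Q_smul, q1, q2]) (q4.trans q3.symm)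
  have h5 : (glue hf hP (x, 1)).1 a = (f.B a' (s.1 a) / f.B c' (t.1 c)) • c :=
    (glue_left hf hP _ ⟨a, m1⟩).trans (congrArg Subtype.val h3)
  have h6 : (glue hf hP (x, 1)).1 a' = c' :=
    (glue_left hf hP _ ⟨a', m2⟩).trans (congrArg Subtype.val h4)
  refine h.oc hf h2 (by omega) hU hW hP (fun x hx => ?_) (fun x hx => ?_)
    (finrank_span_pair_le c c') hq hs hσ ht hτ
    (h.match2 hf h2 hr hs hσ (by simp [k2 a c c' _ _ _ h0 h1', e1, h0, B_self2 h2]) ?_)
    (h.symm.match2 hf h2 hr' ht hτ (by simp [k2 c a a' _ _ _ h0' h1, e2, h0', B_self2 h2]) ?_)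
    (x := glue hf hP (x, 1)) (fun y hy => glue_right hf hP _ ⟨y, hy⟩)
    (fun y hy => f.eichler_apply_of_orth _ _ _ _ _ _ (hy a m1) (hy _ (P.smul_mem _ m2)))
    (h.symm.sq hf h2 hτ) ?_ ((h.symm.mem_iff hf h2 (by omega) hc hr' hτ).2
      (by simp [k2 c a a' _ _ _ h0' h1, h0', B_self2 h2]))
    (.inr ⟨a', m2, q4 ▸ one_ne_zero, .inl (hτ a' ha')⟩)
  · rw [hr' x hx.1, orth_symm, (mem_orth_pair.1 hx.2).1, mul_zero]
  · rw [hr x hx.1, orth_symm, (mem_orth_pair.1 hx.2).1, mul_zero]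
  · rw [k2 a c c' _ _ _ h0 h1', B_sub_right, orth_B_smul_right, h.hA ha' a ha, orth_symm _ c, h1]
    linear_combination f.B a' (s.1 a) * h2
  · rw [k2 c a a' _ _ _ h0' h1, B_sub_right, orth_B_smul_right, h.hC hc' c hc, orth_symm _ a, h1']
    linear_combination f.B c' (t.1 c) * h2
  · refine congrArg (· * _) (Isom.ext fun y => ?_)
    change _ = (_ * f.siegel a _ q2 hB2 * _ : f.Isom).1 y
    rw [siegel_conj, siegel_apply, siegel_apply]
    simp only [map_smul, h5, h6, orth_Q_smul, orth_B_smul_right, smul_smul]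
    congr 1
    · congr 1
      · congr 2; field_simp
      · congr 1; field_simp
    · congr 1; field_simp

theorem oc_two (hf : f.Nondeg) (h2 : (2 : F) = 0) (hn : 8 ≤ finrank F V)
    (hq : 10 ≤ finrank F V ∨ 4 ≤ Fintype.card F) {g : f.Isom} (hg : g ∈ commutator f.Isom) :
    OC g := by
  obtain ⟨A, C, h, s, hs, t, ht, rfl⟩ := exists_lg hf h2 g
  have hq' : 10 ≤ finrank F V ∨ (6 ≤ finrank F V ∧ 4 ≤ Fintype.card F) :=
    hq.imp_right fun h => ⟨by omega, h⟩
  obtain ⟨a, ha, hr⟩ := h.exists_rt hf h2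
  obtain ⟨c, hc, hr'⟩ := h.symm.exists_rt hf h2
  have h3 := mem_iff_of_mul hf h2 (by omega) hg
  rw [h.mem_iff hf h2 (by omega) ha hr hs, h.symm.mem_iff hf h2 (by omega) hc hr' ht] at h3
  have h4 := h.sub_mem hf hs a
  have h5 := h.symm.sub_mem hf ht c
  have key : ∀ x y : V, ∃ z ∈ A, z ≠ 0 ∧ f.B z x = 0 ∧ f.B z y = 0 := fun x y => by
    have b1 := finrank_le_inf hf A x
    have b2 := finrank_le_inf hf (A ⊓ f.orth (F ∙ x)) y
    have b3 := (h.orth_eq hf).2.2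
    obtain ⟨z, hz, b4⟩ := Submodule.exists_mem_ne_zero_of_ne_bot
      (p := A ⊓ f.orth (F ∙ x) ⊓ f.orth (F ∙ y)) fun e => by
        rw [e, finrank_bot] at b2
        omega
    exact ⟨z, hz.1.1, b4, mem_orth_singleton.1 hz.1.2, mem_orth_singleton.1 hz.2⟩
  by_cases e1 : f.B a (s.1 a) = 0
  · have e2 := h3.1 e1
    by_cases h0 : f.B a c = 0
    · by_cases h6 : t.1 c = c
      · exact h.oc_fix hf h2 hn hc hr' (by rw [hr c hc, h0, mul_zero]) hs ht h6 hg
      by_cases h7 : s.1 a = a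
      · refine OC.inv ?_
        have := inv_mem hg
        rw [mul_inv_rev, inv_eq_of_mul_eq_one_right (h.sq hf h2 hs),
          inv_eq_of_mul_eq_one_right (h.symm.sq hf h2 ht)] at this ⊢
        exact h.symm.oc_fix hf h2 hn ha hr (by rw [hr' a ha, orth_symm, h0, mul_zero]) ht hs h7 this
      have k : ∀ {A C : Submodule F V}, LG f A C → ∀ c ∈ C, c ≠ 0 → ∃ x ∈ A, f.B c x ≠ 0 :=
        fun h c hc h0 => (h.symm.exists_one hf hc h0).imp fun _ h => ⟨h.1, by rw [h.2]; exact one_ne_zero⟩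
      obtain ⟨a', ha', b1, b2⟩ := exists_ne2 (k h c hc (by rintro rfl; simp at h6))
        (k h _ h4 (sub_ne_zero.2 h7))
      obtain ⟨c', hc', b3, b4⟩ := exists_ne2 (k h.symm a ha (by rintro rfl; simp at h7))
        (k h.symm _ h5 (sub_ne_zero.2 h6))
      refine h.oc_siegel hf h2 hq' ha ha' hc hc' hr hr' h0 b1 b3 hs ht e1 e2 ?_ ?_
      · rwa [B_sub_left, h.hA ha a' ha', sub_zero, orth_symm] at b2
      · rwa [B_sub_left, h.hC hc c' hc', sub_zero, orth_symm] at b4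
    · exact h.oc_plane hf h2 hn ha hc h0 (fun x hx e => by rw [hr' x hx, orth_symm, e, mul_zero])
        (fun x hx e => by rw [hr x hx, orth_symm, e, mul_zero]) hs ht e1 e2
  have e2 := mt h3.2 e1
  replace e1 : f.B a (s.1 a) = 1 := by
    have := h.B_self hf h2 hr hs a
    rwa [B_self2 h2, sub_zero, eq_comm, mul_eq_right₀ e1] at this
  replace e2 : f.B c (t.1 c) = 1 := by
    have := h.symm.B_self hf h2 hr' ht c
    rwa [B_self2 h2, sub_zero, eq_comm, mul_eq_right₀ e2] at this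
  have e3 : f.B a (s.1 a - a) = 1 := by rw [B_sub_right, e1, B_self2 h2, sub_zero]
  have e4 : f.B c (t.1 c - c) = 1 := by rw [B_sub_right, e2, B_self2 h2, sub_zero]
  have e5 : ∀ x ∈ A, f.B x (s.1 a) = f.B x (s.1 a - a) := fun x hx => by
    rw [B_sub_right, h.hA hx a ha, sub_zero]
  have e6 : ∀ x ∈ C, f.B x (t.1 c) = f.B x (t.1 c - c) := fun x hx => by
    rw [B_sub_right, h.hC hx c hc, sub_zero]
  generalize s.1 a - a = w at h4 e3 e5
  generalize t.1 c - c = w' at h5 e4 e6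
  obtain ⟨a', ha', b0, b1, b2⟩ := key c w
  by_cases h0 : f.B a c = 0
  · by_cases h6 : f.B w w' = 0
    · obtain ⟨c', hc', b3, b4⟩ := h.exists_dual hf (Submodule.span_le.2 (Set.pair_subset ha h5)) ha'
        fun e => b0 (by
          obtain ⟨x, y, rfl⟩ := Submodule.mem_span_pair.1 e
          simp [h0, f.orth_symm c w', e4] at b1
          simp [b1, e3] at b2
          simp [b1, b2])
      have b5 := b3 a (Submodule.subset_span (by simp))
      have b6 := b3 w' (Submodule.subset_span (by simp))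
      refine h.oc_refl hf h2 hq' ha (add_mem h5 ha') hc (add_mem h4 hc') hr hr' (w := w + c' - c)
        (w' := w' + a' - a) ?_ (sub_mem (Submodule.subset_span (by simp))
          (Submodule.subset_span (by simp))) (sub_mem (Submodule.subset_span (by simp))
          (Submodule.subset_span (by simp))) hs ht e1 e2 ?_ ?_ ?_ ?_ ?_ <;>
      simp [h0, e3, b5, b1, f.orth_symm c w', e4, f.orth_symm a' c, f.orth_symm a c, e5 _ h5,
        e5 _ ha', e6 _ h4, e6 _ hc', b6, b4, b2, h6, f.orth_symm w w', f.orth_symm a' w,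
        f.orth_symm a w, f.orth_symm w' c', f.orth_symm a' c', f.orth_symm a c']
    · exact h.oc_refl hf h2 hq' ha h5 hc h4 hr hr' (by simp [h0, e3, f.orth_symm c w', e4])
        (Submodule.subset_span (by simp)) (Submodule.subset_span (by simp)) hs ht e1 e2 e3 e4
        (e5 _ h5) (e6 _ h4) h6
  · obtain ⟨c', hc', b3, b4⟩ := h.exists_dual hf ((Submodule.span_singleton_le_iff_mem _ _).2 ha) ha'
      fun e => b0 (by
        obtain ⟨x, rfl⟩ := Submodule.mem_span_singleton.1 e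
        simp [h0] at b1
        simp [b1])
    have b5 := b3 a (Submodule.mem_span_singleton_self a)
    refine h.oc_refl hf h2 hq' ha ha' hc hc' hr hr' (w := (f.B a c)⁻¹ • c)
      (w' := (f.B a c)⁻¹ • a + f.B c' w' • a') ?_ (Submodule.smul_mem _ _
        (Submodule.subset_span (by simp))) (Submodule.mem_span_pair.2 ⟨_, _, rfl⟩) hs ht e1 e2
        ?_ ?_ ?_ ?_ ?_ <;>
    simp [h0, b5, b1, b4, b2, e5 _ ha', e6 _ hc', f.orth_symm a c, f.orth_symm a' c,
      f.orth_symm a c', f.orth_symm a' c']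

end Cfsg.Agent.Ore
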