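import Cfsg.Agent.Lib.Ore.Two1
import Cfsg.Agent.Lib.Ore.T6K

/-!
Commutators in the eight-dimensional orthogonal groups over the field with two elements.
-/

set_option autoImplicit false

universe u

namespace Cfsg.Agent.Ore

open Module Polynomial Cfsg.Agent.Forms Cfsg.Agent.Forms.Form Cfsg.Agent.CG

variable {F : Type*} [Field F] {V : Type u} [AddCommGroup V] [Module F V]
  {f : Form (Param.orth F) V}

namespace T6

/-- a bit as a field element -/
def bt (F : Type*) [Field F] (n i : ℕ) : F := ((n.testBit i).toNat : ℕ)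

theorem bt_xor (h2 : (2 : F) = 0) (n m i : ℕ) : bt F (n ^^^ m) i = bt F n i + bt F m i := by
  unfold bt
  rw [Nat.testBit_xor]
  cases n.testBit i <;> cases m.testBit i <;> simp [one_add_one_eq_two, h2]

theorem bt_and (n m i : ℕ) : bt F (n &&& m) i = bt F n i * bt F m i := by
  unfold bt
  rw [Nat.testBit_and]
  cases n.testBit i <;> cases m.testBit i <;> simp

theorem bt_sq (n i : ℕ) : bt F n i * bt F n i = bt F n i := by rw [← bt_and, Nat.and_self]

theorem par_eq (k : ℕ) : par k = (k.testBit 0 ^^ k.testBit 1 ^^ k.testBit 2).toNat := by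
  have : ∀ j < 2 ^ 3, (150 >>> j) &&& 1 = (j.testBit 0 ^^ j.testBit 1 ^^ j.testBit 2).toNat := by
    decide
  refine (this (k &&& 7) (Nat.and_lt_two_pow k (by decide))).trans ?_
  simp only [Nat.testBit_and, show Nat.testBit 7 0 = true ∧ Nat.testBit 7 1 = true ∧
    Nat.testBit 7 2 = true by decide, Bool.and_true]

theorem par_cast (h2 : (2 : F) = 0) (k : ℕ) : (par k : F) = bt F k 0 + bt F k 1 + bt F k 2 := by
  unfold bt
  rw [par_eq]
  cases k.testBit 0 <;> cases k.testBit 1 <;> cases k.testBit 2 <;> simp [one_add_one_eq_two, h2]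

theorem par_xor (h2 : (2 : F) = 0) (k m : ℕ) : (par (k ^^^ m) : F) = par k + par m := by
  simp only [par_cast h2, bt_xor h2]
  ring

theorem par_cases (k : ℕ) : par k = 0 ∨ par k = 1 := by
  rw [par_eq]
  cases (k.testBit 0 ^^ k.testBit 1 ^^ k.testBit 2) <;> simp

theorem par_zero {k : ℕ} : (par k : F) = 0 ↔ par k = 0 := by
  rcases par_cases k with h | h <;> simp [h]

/-- a vector with three coordinates -/
def v3 (F : Type*) [Field F] [Module F V] (e : Fin 3 → V) (n : ℕ) : V := ∑ i : Fin 3, bt F n i • e i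

/-- a vector with six coordinates -/
def vec (F : Type*) [Field F] [Module F V] (a c : Fin 3 → V) (n : ℕ) : V :=
  v3 F a n + v3 F c (n >>> 3)

theorem v3_xor (h2 : (2 : F) = 0) (e : Fin 3 → V) (n m : ℕ) :
    v3 F e (n ^^^ m) = v3 F e n + v3 F e m := by
  simp only [v3, bt_xor h2, add_smul, Finset.sum_add_distrib]

theorem v3_zero (e : Fin 3 → V) : v3 F e 0 = 0 := by simp [v3, bt]

theorem v3_mul (e : Fin 3 → V) (b : Bool) (n : ℕ) :
    v3 F e (b.toNat * n) = ((b.toNat : ℕ) : F) • v3 F e n := by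
  cases b <;> simp [v3_zero]

theorem vec_xor (h2 : (2 : F) = 0) (a c : Fin 3 → V) (n m : ℕ) :
    vec F a c (n ^^^ m) = vec F a c n + vec F a c m := by
  simp only [vec, Nat.shiftRight_xor_distrib, v3_xor h2]
  abel

theorem vec_lo (a c : Fin 3 → V) {n : ℕ} (h : n < 8) : vec F a c n = v3 F a n := by
  rw [vec, Nat.shiftRight_eq_zero n 3 h, v3_zero, add_zero]

theorem vec_hi (a c : Fin 3 → V) (n : ℕ) : vec F a c (n <<< 3) = v3 F c n := by
  rw [vec, Nat.shiftLeft_shiftRight, add_eq_right]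
  exact Finset.sum_eq_zero fun i _ => by simp [bt, Nat.testBit_shiftLeft, i.2.not_ge]

theorem lin_eq (S n : ℕ) : lin S n = (n.testBit 0).toNat * (S % 8) ^^^
    (n.testBit 1).toNat * (S / 8 % 8) ^^^ (n.testBit 2).toNat * (S / 64 % 8) := by
  simp only [Nat.toNat_testBit, ← Nat.shiftRight_eq_div_pow, ← Nat.and_one_is_mod]
  rfl

theorem lin_lt (S n : ℕ) : lin S n < 8 := by
  have : ∀ (b : Bool) k, b.toNat * (k % 8) < 2 ^ 3 := fun b k => by cases b <;> simp; omega
  exact lin_eq S n ▸ Nat.xor_lt_two_pow (Nat.xor_lt_two_pow (this _ _) (this _ _)) (this _ _)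

theorem exists_code [Fintype F] (hq : Fintype.card F = 2) (φ : Fin 3 → F) :
    ∃ l < 8, ∀ i : Fin 3, φ i = bt F l i := by
  have h1 : ∀ x : F, ∃ b : Bool, x = (b.toNat : ℕ) := fun x => by
    have := FiniteField.pow_card x
    rw [hq, sq] at this
    by_cases h : x = 0
    · exact ⟨false, by simp [h]⟩
    · exact ⟨true, by simpa using (mul_eq_right₀ h).1 this⟩
  choose b hb using fun i => h1 (φ i)
  obtain ⟨l, h2, h3⟩ :=
    (by decide : ∀ b : Fin 3 → Bool, ∃ l < 8, ∀ i : Fin 3, b i = Nat.testBit l i) b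
  exact ⟨l, h2, fun i => by rw [hb, h3, bt]⟩

/-- dual bases of complementary Lagrangian subspaces -/
structure DB (f : Form (Param.orth F) V) (A C : Submodule F V) (a c : Fin 3 → V) : Prop where
  lg : LG f A C
  ha : ∀ i, a i ∈ A
  hc : ∀ i, c i ∈ C
  dual : ∀ i j, f.B (a i) (c j) = if i = j then 1 else 0
  sa : ∀ x ∈ A, ∃ n < 8, x = v3 F a n
  sc : ∀ x ∈ C, ∃ n < 8, x = v3 F c n

variable {A C : Submodule F V} {a c : Fin 3 → V}

theorem DB.symm (h : DB f A C a c) : DB f C A c a :=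
  ⟨h.lg.symm, h.hc, h.ha, fun i j => by rw [orth_symm, h.dual]; simp only [eq_comm], h.sc, h.sa⟩

theorem DB.mem (h : DB f A C a c) (n : ℕ) : v3 F a n ∈ A :=
  A.sum_mem fun i _ => A.smul_mem _ (h.ha i)

theorem DB.B_v3 (h2 : (2 : F) = 0) (h : DB f A C a c) (n m : ℕ) :
    f.B (v3 F a n) (v3 F c m) = par (n &&& m) := by
  simp [v3, Fin.sum_univ_three, h.dual, par_cast h2, bt_and, mul_comm]

theorem DB.Q_v3 (h2 : (2 : F) = 0) (h : DB f A C a c) {l : ℕ} (hl : ∀ i, f.Q (a i) = bt F l i)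
    (n : ℕ) : f.Q (v3 F a n) = par (n &&& l) := by
  simp [v3, Fin.sum_univ_three, par_cast h2, bt_and, orth_Q_add, orth_Q_smul, hl, bt_sq,
    h.lg.hA (h.ha _) _ (h.ha _)]

theorem DB.B_vec (h2 : (2 : F) = 0) (h : DB f A C a c) (n m : ℕ) :
    f.B (vec F a c n) (vec F a c m) = bn n m := by
  rw [vec, vec, B_add_left, B_add_right, B_add_right, h.lg.hA (h.mem _) _ (h.mem _),
    h.lg.hC (h.symm.mem _) _ (h.symm.mem _), h.B_v3 h2, orth_symm, h.B_v3 h2, zero_add, add_zero]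
  exact (par_xor h2 _ _).symm

theorem DB.Q_vec (h2 : (2 : F) = 0) (h : DB f A C a c) {l u : ℕ} (hl : ∀ i, f.Q (a i) = bt F l i)
    (hu : ∀ i, f.Q (c i) = bt F u i) (n : ℕ) : f.Q (vec F a c n) = qn l u n := by
  rw [vec, orth_Q_add, h.Q_v3 h2 hl, h.symm.Q_v3 h2 hu, h.B_v3 h2, ← par_xor h2, ← par_xor h2]
  rfl

theorem DB.word (h2 : (2 : F) = 0) (h : DB f A C a c) {l u : ℕ} (hl : ∀ i, f.Q (a i) = bt F l i)
    (hu : ∀ i, f.Q (c i) = bt F u i) {w : List ℕ}
    (hw : allL (fun v => bor (Nat.beq v 0) (Nat.beq (qn l u v) 1)) w = true) :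
    ∃ x : f.Isom, ∀ n, x.1 (vec F a c n) = vec F a c (ap w n) := by
  rw [allL_iff] at hw
  induction w with
  | nil => exact ⟨1, fun _ => rfl⟩
  | cons v w ih =>
    obtain ⟨x, hx⟩ := ih fun v hv => hw v (List.mem_cons_of_mem _ hv)
    have h3 : ∀ n, vec F a c (ap (v :: w) n) = vec F a c (ap w n) +
        f.B (vec F a c (ap w n)) (vec F a c v) • vec F a c v := fun n => by
      rw [show ap (v :: w) n = rf v (ap w n) from rfl, rf, force_eq, h.B_vec h2]
      refine (vec_xor h2 _ _ _ _).trans (congrArg _ ?_)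
      rcases (show bn (ap w n) v = 0 ∨ bn (ap w n) v = 1 from par_cases _) with e | e <;>
        simp [e, vec, v3_zero]
    rcases (bor_eq _ _).1 (hw v List.mem_cons_self) with e | e
    · refine ⟨x, fun n => ?_⟩
      rw [h3, hx, Nat.eq_of_beq_eq_true e]
      simp [vec, v3_zero]
    · have h4 : f.Q (vec F a c v) = 1 := by rw [h.Q_vec h2 hl hu, Nat.eq_of_beq_eq_true e]; simp
      refine ⟨f.refl _ (h4 ▸ one_ne_zero) * x, fun n => ?_⟩
      rw [h3, Isom.mul_apply, hx, refl_apply, h4, sub_eq_add_neg, neg2 h2]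
      simp

theorem DB.ext (h : DB f A C a c) {W : Type*} [AddCommGroup W] [Module F W] (φ : V →ₗ[F] W)
    (e : ∀ e ∈ [1, 2, 4, 8, 16, 32], φ (vec F a c e) = 0) (v : V) : φ v = 0 := by
  obtain ⟨y, hy, z, hz, rfl⟩ := h.lg.decomp v
  obtain ⟨n, -, rfl⟩ := h.sa y hy
  obtain ⟨n', -, rfl⟩ := h.sc z hz
  simp [vec, v3, Fin.sum_univ_three, bt, Nat.testBit] at e
  simp [v3, Fin.sum_univ_three, e]

variable [FiniteDimensional F V] [Fintype F]

theorem exists_db (hf : f.Nondeg) (hq : Fintype.card F = 2) (hn : finrank F V = 6) (h : LG f A C) :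
    ∃ a c, DB f A C a c := by
  let b := Module.finBasisOfFinrankEq F A (n := 3) (by have := (h.orth_eq hf).2.2; omega)
  have h1 : ∀ i, ∃ c ∈ C, ∀ x : A, f.B x c = b.repr x i := fun i => by
    obtain ⟨φ, hφ⟩ := LinearMap.exists_extend (b.coord i)
    obtain ⟨v, hv⟩ := hf.exists_repr φ
    obtain ⟨a, ha, c, hc, rfl⟩ := h.decomp v
    refine ⟨c, hc, fun x => ?_⟩
    have := (hv x).trans (LinearMap.congr_fun hφ x)
    rwa [B_add_right, h.hA x.2 a ha, zero_add] at this
  choose c hc h1 using h1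
  have h3 : ∀ i j, f.B (b i) (c j) = if i = j then 1 else 0 := fun i j => by
    rw [h1, b.repr_self, Finsupp.single_apply]
  refine ⟨fun i => b i, c, h, fun i => (b i).2, hc, h3, fun x hx => ?_, fun x hx => ?_⟩
  · obtain ⟨n, h4, h5⟩ := exists_code hq (b.repr ⟨x, hx⟩)
    refine ⟨n, h4, ?_⟩
    simpa [h5, v3] using congrArg Subtype.val (b.sum_repr ⟨x, hx⟩).symm
  · obtain ⟨n, h4, h5⟩ := exists_code hq fun i => f.B (b i) x
    have h6 : x - v3 F c n ∈ C := sub_mem hx (C.sum_mem fun i _ => C.smul_mem _ (hc i))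
    refine ⟨n, h4, sub_eq_zero.1 (hf.right _ fun y => ?_)⟩
    obtain ⟨y, hy, z, hz, rfl⟩ := h.decomp y
    rw [B_add_left, h.hC hz _ h6, add_zero]
    lift y to A using hy
    obtain ⟨r, rfl⟩ : ∃ r : Fin 3 → F, y = ∑ i, r i • b i := ⟨_, (b.sum_repr y).symm⟩
    simp [v3, h3, h5]

theorem DB.side (hf : f.Nondeg) (h2 : (2 : F) = 0) (hn : 5 ≤ finrank F V) (h : DB f A C a c)
    {u : ℕ} (hu : ∀ i, f.Q (c i) = bt F u i) {s : f.Isom} (hs : s ∈ f.ptw C) :
    ∃ S < 512, valid u S = true ∧ (∀ n, s.1 (v3 F a n) = v3 F a n + v3 F c (lin S n)) ∧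
      (s ∈ commutator f.Isom ↔ par (u &&& lin S u) = 0) := by
  choose k h3 h4 using fun i => h.sc _ (h.lg.sub_mem hf hs (a i))
  have h5 : ∀ n, s.1 (v3 F a n) = v3 F a n + v3 F c (lin (k 0 + 8 * k 1 + 64 * k 2) n) := fun n => by
    have := h3 0
    have := h3 1
    have := h3 2
    rw [lin_eq, v3_xor h2, v3_xor h2, v3_mul, v3_mul, v3_mul,
      show (k 0 + 8 * k 1 + 64 * k 2) % 8 = k 0 by omega,
      show (k 0 + 8 * k 1 + 64 * k 2) / 8 % 8 = k 1 by omega,
      show (k 0 + 8 * k 1 + 64 * k 2) / 64 % 8 = k 2 by omega, ← h4, ← h4, ← h4]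
    simp only [v3, Fin.sum_univ_three, map_add, map_smul, bt, smul_sub]
    simp
    abel
  refine ⟨_, by have := h3 0; have := h3 1; have := h3 2; omega,
    (allLt_iff _ _).2 fun n _ => Nat.beq_eq.mpr ((par_zero (F := F)).1 ?_), h5, ?_⟩
  · have := Isom.map_Q s (v3 F a n)
    rw [h5, orth_Q_add, add_assoc, add_eq_left, h.symm.Q_v3 h2 hu, h.B_v3 h2, ← par_xor h2,
      Nat.and_comm n, ← Nat.and_xor_distrib_left] at this
    exact this
  · rw [h.lg.mem_iff hf h2 hn (h.mem u) (fun x hx => ?_) hs, h5, B_add_right,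
      h.lg.hA (h.mem _) _ (h.mem _), zero_add, h.B_v3 h2, par_zero]
    obtain ⟨n, -, rfl⟩ := h.sc x hx
    rw [h.symm.Q_v3 h2 hu, h.B_v3 h2, Nat.and_comm]
    rcases par_cases (u &&& n) with e | e <;> simp [e]

theorem exists_comm (hf : f.Nondeg) (hq : Fintype.card F = 2) (hn : finrank F V = 6) {g : f.Isom}
    (hg : g ∈ commutator f.Isom) :
    ∃ x b : f.Isom, g = x * b * x⁻¹ * b⁻¹ ∧ ∀ v, b.1 v = v → v = 0 := by
  have h2 : (2 : F) = 0 := by simpa [hq] using FiniteField.cast_card_eq_zero F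
  obtain ⟨A, C, h, s, hs, t, ht, rfl⟩ := exists_lg hf h2 g
  obtain ⟨a, c, h⟩ := exists_db hf hq hn h
  obtain ⟨l, h3, hl⟩ := exists_code hq fun i => f.Q (a i)
  obtain ⟨u, h4, hu⟩ := exists_code hq fun i => f.Q (c i)
  obtain ⟨S, h5, h6, h7, h8⟩ := h.side hf h2 (by omega) hu hs
  obtain ⟨T, h9, h10, h11, h12⟩ := h.symm.side hf h2 (by omega) hl ht
  obtain ⟨D, h13⟩ := tab l h3 u h4
  obtain ⟨x, b, m, h13⟩ := all_spec h13 h5 h9 h6 h10 (by
    have := h8.symm.trans ((mem_iff_of_mul hf h2 (by omega) hg).trans h12)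
    have := par_cases (u &&& lin S u)
    have := par_cases (l &&& lin T l)
    omega)
  simp only [chk, band_eq, force_eq] at h13
  obtain ⟨x', hx⟩ := h.word h2 hl hu h13.1
  obtain ⟨b', hb⟩ := h.word h2 hl hu h13.2.1
  have h14 := (allL_iff _ _).1 h13.2.2
  simp only [band_eq, Nat.beq_eq] at h14
  refine ⟨x', b', ?_, fun v hv => hf.right v (h.ext (f.B.flip v) fun e he => ?_)⟩
  · rw [eq_mul_inv_iff_mul_eq, eq_mul_inv_iff_mul_eq]
    refine Isom.ext fun v => sub_eq_zero.1 (h.ext (((s * t * b' * x').1 : V →ₗ[F] V) -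
      ((x' * b').1 : V →ₗ[F] V)) (fun e he => sub_eq_zero.2 ?_) v)
    have h15 : ∀ n, s.1 (vec F a c n) = vec F a c (n ^^^ lin S n <<< 3) := fun n => by
      rw [vec_xor h2, vec_hi, vec, map_add, h7, hs _ (h.symm.mem _), add_right_comm]
    have h16 : ∀ n, t.1 (vec F a c n) = vec F a c (n ^^^ lin T (n >>> 3)) := fun n => by
      rw [vec_xor h2, vec_lo _ _ (lin_lt _ _), vec, map_add, h11, ht _ (h.mem _), add_assoc]
    simp only [LinearEquiv.coe_coe, Isom.mul_apply, hx, hb, h15, h16]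
    exact congrArg _ (h14 e he).1
  · rw [← (h14 e he).2, LinearMap.flip_apply]
    refine (congrArg (f.B · v) (vec_xor h2 _ _ _ _)).trans ?_
    rw [B_add_left, ← hb, ← hv, Isom.map_B, hv, ← two_mul, h2, zero_mul]

end T6

variable [FiniteDimensional F V]

theorem free_line (hf : f.Nondeg) {a c : V} (hD : Dual f (F ∙ a) (F ∙ c)) {b : f.Isom}
    (hb : b ∈ f.ptw ((F ∙ a) ⊔ F ∙ c)) (h : ∀ v ∈ f.orth ((F ∙ a) ⊔ F ∙ c), b.1 v = v → v = 0) :
    Free (F ∙ c) b := by
  have h1 := Isom.orth_invariant b (fun m hm => (hb m hm).symm ▸ hm)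
  refine ⟨fun x hx => (hb x (Submodule.mem_sup_right hx)).symm ▸ hx, fun w hw hc =>
    eq_one_of_line hf (hD.hC c (Submodule.mem_span_singleton_self c)) fun x hx => ?_⟩
  obtain ⟨y, hy, p, hp, rfl⟩ := hD.decomp_orth hf hx
  obtain ⟨q, hq⟩ := LinearMap.injective_iff_surjective.1 ((injective_iff_map_eq_zero
    ((Isom.N b).restrict fun x hx => sub_mem (h1 x hx) hx)).2 fun x hx =>
      Subtype.ext (h x x.2 (sub_eq_zero.1 (congrArg Subtype.val hx)))) ⟨p, hp⟩
  obtain rfl : b.1 q - q = p := congrArg Subtype.val hq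
  have h2 := hb _ (Submodule.mem_sup_right (hw.2 q (f.orth_le le_sup_right q.2)))
  rw [map_add, hw.1 y hy, map_sub, ← Isom.mul_apply, hc.eq, Isom.mul_apply,
    ← sub_add_cancel (w.1 q) q, map_add, h2]
  abel

theorem oc_eight [Fintype F] (hf : f.Nondeg) (hq : Fintype.card F = 2)
    (hn : finrank F V = 8) {g : f.Isom} (hg : g ∈ commutator f.Isom) : OC g := by
  have h2 : (2 : F) = 0 := by simpa [hq] using FiniteField.cast_card_eq_zero F
  obtain ⟨A, C, h, s, hs, t, ht, rfl⟩ := exists_lg hf h2 g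
  obtain ⟨a₀, h0, hr⟩ := h.exists_rt hf h2
  obtain ⟨c₀, -, hr'⟩ := h.symm.exists_rt hf h2
  obtain ⟨a, ha, h3⟩ : ∃ a ∈ A ⊓ f.orth (F ∙ c₀), a ∉ F ∙ a₀ := by
    by_contra H
    push Not at H
    have := finrank_le_inf hf A c₀
    have := (h.orth_eq hf).2.2
    have := (Submodule.finrank_mono H).trans ((finrank_span_le_card _).trans (by simp) : _ ≤ 1)
    omega
  obtain ⟨c, hc, h4, h5⟩ := h.exists_dual hf ((Submodule.span_singleton_le_iff_mem _ _).2 h0) ha.1 h3
  have hD := dual_line (by rw [hr' a ha.1, orth_symm, mem_orth_singleton.1 ha.2, mul_zero])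
    (by rw [hr c hc, h4 _ (Submodule.mem_span_singleton_self _), mul_zero]) (h5 ▸ one_ne_zero)
  have h6 := fun x hx => hs x ((Submodule.span_singleton_le_iff_mem _ _).2 hc hx)
  have h7 := fun x hx => ht x ((Submodule.span_singleton_le_iff_mem _ _).2 ha.1 hx)
  obtain ⟨σ, h8, h9⟩ := hD.exists_levi hf h6
  obtain ⟨τ, h10, h11⟩ := hD.symm.exists_levi hf h7
  have hu := mul_inv_mem_UU h6 (fun x hx => h8 x (Submodule.mem_sup_right hx)) h9
  have h12 : τ⁻¹ ∈ f.ptw _ := inv_mem h10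
  have hu' := conj_mem_UU (fun x hx => (h12 x (Submodule.mem_sup_right hx)).symm ▸ hx)
    (mul_inv_mem_UU h7 (fun x hx => h10 x (Submodule.mem_sup_right hx)) h11)
  rw [sup_comm] at h10
  have hP := hf.restrict_orth hD.nd
  have h13 : finrank F (f.orth ((F ∙ a) ⊔ F ∙ c)) = 6 := by
    have := hf.finrank_add_orth ((F ∙ a) ⊔ F ∙ c)
    rw [hD.finrank_sup, finrank_span_singleton (by rintro rfl; simp at h5)] at this
    omega
  obtain ⟨φ, -, k1, k4, k5, k6⟩ := exists_ext hf hD.nd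
  have k2 : ∀ b, (∀ v, b.1 v = v → v = 0) → Free (F ∙ c) (φ b) ∧ Free (F ∙ a) (φ b) := fun b hb => by
    have : ∀ v ∈ f.orth ((F ∙ a) ⊔ F ∙ c), (φ b).1 v = v → v = 0 := fun v hv e =>
      congrArg Subtype.val (hb ⟨v, hv⟩ (Subtype.ext ((k4 _ ⟨v, hv⟩).symm.trans e)))
    exact ⟨free_line hf hD (k1 b) this, free_line hf hD.symm (by rw [sup_comm]; exact k1 b)
      (by rwa [sup_comm])⟩
  have k3 : ∀ b, φ b ∈ commutator f.Isom ↔ b ∈ commutator _ := fun b => by
    rw [mem_iff2 hf h2 (by omega), mem_iff2 hP h2 (by omega), k6]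
  obtain ⟨g, h15⟩ := k5 (σ * τ) fun x hx => by rw [Isom.mul_apply, h10 x hx, h8 x hx]
  have e : s * t = s * σ⁻¹ * φ g * (τ⁻¹ * (t * τ⁻¹) * τ⁻¹⁻¹) := by
    rw [h15]; group
  obtain ⟨-, b, -, hb⟩ := T6.exists_comm hP hq h13 (one_mem _)
  obtain ⟨x, b, rfl, hb⟩ := T6.exists_comm hP hq h13 ((k3 g).1 (by
    rwa [e, mul_mem_cancel_right ((k2 b hb).2.mem_commutator hu'),
      mul_mem_cancel_left ((k2 b hb).1.mem_commutator hu)] at hg))
  have h16 := red (x := φ x) hu hu' (k2 b hb).2 (by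
    rw [← map_inv, ← map_mul, ← map_mul]
    exact (k2 (x * b * x⁻¹) fun v hv => by
      rw [← Isom.apply_inv x v, hb (x⁻¹.1 v) (x.1.injective (hv.trans (Isom.apply_inv x v).symm)),
        map_zero]).1)
  rw [← map_inv, ← map_inv, ← map_mul, ← map_mul, ← map_mul, ← e] at h16
  have h17 : φ b ∈ commutator f.Isom := by
    have := Isom.finrank_res_add_fix b
    rw [show Isom.fix b = ⊥ from (Submodule.eq_bot_iff _).2 fun v hv =>
      hb v (Isom.mem_fix.1 hv), finrank_bot, h13] at this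
    rw [k3, mem_iff2 hP h2 (by omega), show finrank F (Isom.res b) = 6 from this]
    decide
  by_cases h18 : φ x ∈ commutator f.Isom
  · exact h16.oc (Commute.one_left _) (by rwa [mul_one]) h17
  · have h19 : f.Q (a + c) ≠ 0 := by
      rw [orth_Q_add, hD.hA a (Submodule.mem_span_singleton_self a),
        hD.hC c (Submodule.mem_span_singleton_self c), h5]
      simp
    exact h16.oc (commute_refl h19 (.inl (k1 b _ (Submodule.add_mem_sup
      (Submodule.mem_span_singleton_self a) (Submodule.mem_span_singleton_self c))))).symm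
      ((mul_refl_mem hf h2 (by omega) _ h19).2 h18) h17

theorem oc_char_two [Fintype F] (hf : f.Nondeg) (h2 : (2 : F) = 0) (hn : 8 ≤ finrank F V)
    (hn' : Even (finrank F V)) {g : f.Isom} (hg : g ∈ commutator f.Isom) : OC g := by
  by_cases h : 10 ≤ finrank F V ∨ 4 ≤ Fintype.card F
  · exact oc_two hf h2 hn h hg
  · have h3 := Fintype.one_lt_card (α := F)
    have h4 : Fintype.card F ≠ 3 := fun e => by
      have := FiniteField.cast_card_eq_zero F
      rw [e] at this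
      exact one_ne_zero (α := F) (by push_cast at this; linear_combination this - h2)
    obtain ⟨k, hk⟩ := hn'
    exact oc_eight hf (by omega) (by omega) hg

end Cfsg.Agent.Ore
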