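import Cfsg.Agent.Lib.Ore.Inv

/-!
Matched vectors for a pair of involutions.
-/

set_option autoImplicit false

universe u

namespace Cfsg.Agent.Ore

open Module Polynomial Cfsg.Agent.Forms Cfsg.Agent.Forms.Form

variable {F : Type*} [Field F] [Fintype F] {V : Type u} [AddCommGroup V] [Module F V]
  [FiniteDimensional F V] {f : Form (Param.orth F) V}

theorem exists_quad (h2 : (2 : F) ≠ 0) {A B C : F} (h : A * C - B * B ≠ 0) (D E k : F) :
    ∃ x y : F, A * x * x + 2 * B * x * y + C * y * y + 2 * D * x + 2 * E * y = k := by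
  by_cases hA : A = 0
  · have hB : B ≠ 0 := by rintro rfl; simp [hA] at h
    refine ⟨(k - C * ((1 - D) / B) * ((1 - D) / B) - 2 * E * ((1 - D) / B)) / 2, (1 - D) / B, ?_⟩
    rw [hA]; field_simp; ring
  · obtain ⟨x, y, e⟩ := exists_binary_eq h2 h one_ne_zero
      ((A * C - B * B) * (A * k + D * D) + (A * E - B * D) ^ 2)
    obtain ⟨z, hz⟩ : ∃ z, (A * C - B * B) * z = y - (A * E - B * D) := ⟨_, mul_div_cancel₀ _ h⟩
    obtain ⟨w, hw⟩ : ∃ w, A * w = x - B * z - D := ⟨_, mul_div_cancel₀ _ hA⟩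
    refine ⟨w, z, mul_left_cancel₀ (mul_ne_zero h hA) ?_⟩
    obtain rfl : x = A * w + B * z + D := by linear_combination -hw
    obtain rfl : y = (A * C - B * B) * z + (A * E - B * D) := by linear_combination -hz
    linear_combination e

theorem span_sphere (h2 : (2 : F) ≠ 0) {X : Submodule F V} (hX : Disjoint X (f.orth X))
    (hd : 3 ≤ finrank F X) (c : F) {l : V →ₗ[F] F} (h : ∀ x ∈ X, f.Q x = c → l x = 0) :
    ∀ x ∈ X, l x = 0 := by
  have hf := (f.restrict_nondeg_iff X).2 hX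
  obtain ⟨u, h0, hu⟩ := hf.orth_exists_singular hd
  obtain ⟨e, he⟩ := hf.exists_hypPair hu h0
  have h1 : ∀ w : X, (f.restrict X).B w u = 0 → (f.restrict X).B w e = 0 →
      l u + (c - f.Q w) * l e + l w = 0 := fun w h3 h4 => by
    have := h _ ((1 : F) • u + (c - f.Q w) • e + w).2 ((he.Q_decomp 1 (c - f.Q w) h3 h4).trans
      (by simp))
    simpa using this
  have h3 : ∀ w : X, (f.restrict X).B w u = 0 → (f.restrict X).B w e = 0 → l w = 0 :=
    fun w h3 h4 => by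
      have := h1 (-w) (by rw [B_neg_left, h3, neg_zero]) (by rw [B_neg_left, h4, neg_zero])
      rw [Submodule.coe_neg, Q_neg, map_neg] at this
      exact (mul_eq_zero.1 (show 2 * l w = 0 by linear_combination h1 w h3 h4 - this)).resolve_left h2
  have h4 := he.finrank_orth hf
  have : Nontrivial ((f.restrict X).orth (Submodule.span F {u, e})) :=
    (finrank_pos_iff (R := F)).1 (by omega)
  obtain ⟨⟨w, h5⟩, h6⟩ := (he.restrict_orth_nondeg hf).orth_exists_Q_ne
  rw [mem_orth_pair] at h5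
  have h7 := h1 0 (B_zero_left _ _) (B_zero_left _ _)
  have h8 := h1 w h5.1 h5.2
  rw [h3 w h5.1 h5.2] at h8
  rw [Submodule.coe_zero, Q_zero, map_zero] at h7
  have h9 : l e = 0 := (mul_eq_zero.1 (show f.Q w * l e = 0 by
    linear_combination h7 - h8)).resolve_left h6
  intro x hx
  obtain ⟨a, b, y, e1, e2, e3⟩ := he.exists_decomp ⟨x, hx⟩
  rw [show x = a • u + b • e + y from congrArg Subtype.val e3]
  simp [h9, h3 y e1 e2, show l u = 0 by rw [h9] at h7; linear_combination h7]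

omit [Fintype F] in
theorem nondeg_inf (h2 : (2 : F) ≠ 0) {X : Submodule F V}
    (hX : Disjoint X (f.orth X)) {a : V} (ha : a ∈ X) (h : f.Q a ≠ 0) :
    Disjoint (X ⊓ f.orth (F ∙ a)) (f.orth (X ⊓ f.orth (F ∙ a))) ∧
      finrank F ↥(X ⊓ f.orth (F ∙ a)) + 1 = finrank F X ∧
      ∀ x ∈ X, ∃ c : F, x - c • a ∈ X ⊓ f.orth (F ∙ a) := by
  have h0 : f.B a a ≠ 0 := by rw [orth_B_self]; exact mul_ne_zero h2 h
  have h1 : ∀ x ∈ X, ∃ c : F, x - c • a ∈ X ⊓ f.orth (F ∙ a) := fun x hx =>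
    ⟨f.B x a / f.B a a, sub_mem hx (X.smul_mem _ ha), mem_orth_singleton.2 (by
      rw [B_sub_left, B_smul_left, div_mul_cancel₀ _ h0, sub_self])⟩
  refine ⟨Submodule.disjoint_def.2 fun x hx hx' => Submodule.disjoint_def.1 hX x hx.1 fun y hy => ?_,
    f.finrank_inf_orth_singleton fun e => h0 (mem_orth_singleton.1 (e ha)), h1⟩
  obtain ⟨c, hc⟩ := h1 y hy
  have := hx' _ hc
  rwa [B_sub_right, orth_B_smul_right, mem_orth_singleton.1 hx.2, mul_zero, sub_zero] at this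

omit [Fintype F] in
theorem finrank_le_inf (hf : f.Nondeg) (X : Submodule F V) (a : V) :
    finrank F X ≤ finrank F ↥(X ⊓ f.orth (F ∙ a)) + 1 := by
  have h1 := Submodule.finrank_sup_add_finrank_inf_eq X (f.orth (F ∙ a))
  have h2 := hf.finrank_add_orth (F ∙ a)
  have h3 := (X ⊔ f.orth (F ∙ a)).finrank_le
  have h4 : finrank F (F ∙ a) ≤ 1 := (finrank_span_le_card _).trans (by simp)
  omega

theorem exists_sphere_ne (h2 : (2 : F) ≠ 0) {X : Submodule F V}
    (hX : Disjoint X (f.orth X)) (hd : 4 ≤ finrank F X) {c : F} (hc : c ≠ 0) {l l' : V →ₗ[F] F}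
    (h : ∃ x ∈ X, l x ≠ 0) (h' : ∃ x ∈ X, l' x ≠ 0) : ∃ a ∈ X, f.Q a = c ∧ l a ≠ 0 ∧ l' a ≠ 0 := by
  by_contra H
  push Not at H
  obtain ⟨x, hx, h0⟩ := h
  obtain ⟨x', hx', h0'⟩ := h'
  refine h0 (span_sphere h2 hX (by omega) c (fun a ha e => by_contra fun h3 => ?_) x hx)
  obtain ⟨h4, h5, h6⟩ := nondeg_inf h2 hX ha (e ▸ hc)
  have h7 := H a ha e h3
  have h8 := span_sphere h2 h4 (by omega) 0 (l := l') fun n hn e' => by
    have h9 := f.B_eq_zero_symm (mem_orth_singleton.1 hn.2)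
    by_cases h10 : l (a + n) = 0
    · simpa [h7] using H _ (sub_mem ha hn.1) (by rw [orth_Q_sub, e, e', h9]; simp) fun h11 =>
        mul_ne_zero h2 h3 (by rw [map_add] at h10; rw [map_sub] at h11; linear_combination h10 + h11)
    · simpa [h7] using H _ (add_mem ha hn.1) (by rw [orth_Q_add, e, e', h9]; simp) h10
  obtain ⟨d, hd⟩ := h6 x' hx'
  exact h0' (by simpa [h7] using h8 _ hd)

theorem exists_cone_ne (h2 : (2 : F) ≠ 0) (hq : 4 ≤ Fintype.card F) {X : Submodule F V}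
    (hX : Disjoint X (f.orth X)) (hd : 3 ≤ finrank F X) {l l' : V →ₗ[F] F}
    (h : ∃ x ∈ X, l x ≠ 0) (h' : ∃ x ∈ X, l' x ≠ 0) : ∃ a ∈ X, f.Q a = 0 ∧ l a ≠ 0 ∧ l' a ≠ 0 := by
  classical
  by_contra H
  push Not at H
  obtain ⟨x, hx, h0⟩ := h
  obtain ⟨x', hx', h0'⟩ := h'
  refine h0 (span_sphere h2 hX hd 0 (fun a ha e => by_contra fun h3 => ?_) x hx)
  refine h0' (span_sphere h2 hX hd 0 (fun b hb e' => by_contra fun h4 => ?_) x' hx')
  have h5 := H a ha e h3
  have h6 : l b = 0 := by_contra fun h => h4 (H b hb e' h)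
  by_cases h7 : f.B a b = 0
  · have := H _ (add_mem ha hb) (by rw [orth_Q_add, e, e', h7]; simp) (by simpa [h6] using h3)
    exact h4 (by simpa [h5] using this)
  have hf := (f.restrict_nondeg_iff X).2 hX
  have he : (f.restrict X).HypPair ⟨a, ha⟩ ((f.B a b)⁻¹ • ⟨b, hb⟩) :=
    ⟨e, by rw [orth_Q_smul]; exact mul_eq_zero_of_right _ e', by
      rw [orth_B_smul_right]; exact inv_mul_cancel₀ h7⟩
  have h8 := he.finrank_orth hf
  have : Nontrivial ((f.restrict X).orth (Submodule.span F {⟨a, ha⟩, (f.B a b)⁻¹ • ⟨b, hb⟩})) :=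
    (finrank_pos_iff (R := F)).1 (by omega)
  obtain ⟨⟨w, h9⟩, h10⟩ := (he.restrict_orth_nondeg hf).orth_exists_Q_ne
  rw [mem_orth_pair] at h9
  replace h10 : f.Q w ≠ 0 := h10
  obtain ⟨k, -, hk⟩ := Finset.exists_mem_notMem_of_card_lt_card (t := Finset.univ)
    (s := ({0, -l w / l a, f.Q w * (f.B a b)⁻¹ * l' b / l' w} : Finset F))
    (Finset.card_le_three.trans_lt (by rw [Finset.card_univ]; omega))
  simp only [Finset.mem_insert, Finset.mem_singleton, not_or] at hk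
  have h11 := H _ (k • ⟨a, ha⟩ + (-f.Q w / k) • (f.B a b)⁻¹ • ⟨b, hb⟩ + w : X).2
    ((he.Q_decomp k (-f.Q w / k) h9.1 h9.2).trans (by
      simp only [Param.orth_τ, Param.orth_σ, restrict_Q]; field_simp [hk.1]; ring))
    fun h => hk.2.1 (by
      simp [h6] at h
      field_simp
      linear_combination h)
  simp [h5] at h11
  have h12 : l' w ≠ 0 := fun h => by
    simp [h, h10, hk.1, h7, h4] at h11
  refine hk.2.2 ?_
  have := hk.1
  field_simp at h11 ⊢
  linear_combination h11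

/-- a matched vector of norm `c` -/
def Good (s t : f.Isom) (c : F) : Prop := ∃ v, f.Q v = c ∧ f.B v (s.1 v) = f.B v (t.1 v) ∧
  f.B v (s.1 v) ≠ 2 * c ∧ f.B v (s.1 v) ≠ -(2 * c)

omit [Fintype F] [FiniteDimensional F V] in
theorem Good.of_neg {s t : f.Isom} {c : F} (h : Good (f.negOne * s) (f.negOne * t) c) :
    Good s t c := by
  obtain ⟨v, h1, h2, h3, h4⟩ := h
  simp only [neg_apply, B_neg_right] at h2 h3 h4
  exact ⟨v, h1, neg_inj.1 h2, fun e => h4 (by rw [e]), fun e => h3 (by rw [e, neg_neg])⟩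

omit [Fintype F] [FiniteDimensional F V] in
theorem Good.of_eig (h2 : (2 : F) ≠ 0) {s t : f.Isom} {a b : V} (ha : s.1 a = a) (hb : s.1 b = -b)
    (ha' : f.Q a ≠ 0) (hb' : f.Q b ≠ 0) (h : f.B (a + b) (t.1 (a + b)) = 2 * (f.Q a - f.Q b)) :
    Good s t (f.Q a + f.Q b) := by
  have h1 := B_eig h2 ha hb
  have h3 : f.B (a + b) (s.1 (a + b)) = 2 * (f.Q a - f.Q b) := by
    simp only [map_add, ha, hb, LinearMap.add_apply, B_neg_right, h1, f.orth_symm a b, orth_B_self]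
    ring
  refine ⟨a + b, by rw [orth_Q_add, h1, add_zero], h3.trans h.symm, fun e => ?_, fun e => ?_⟩
  · exact mul_ne_zero h2 (mul_ne_zero h2 hb') (by linear_combination h3 - e)
  · exact mul_ne_zero h2 (mul_ne_zero h2 ha') (by linear_combination e - h3)

theorem Good.oc (hf : f.Nondeg) (h2 : (2 : F) ≠ 0) {g s t : f.Isom} (hk : KT g s t)
    (hg : g ∈ commutator f.Isom) (hn : 7 ≤ finrank F V) (ht : f.detHom t = -1) {c : F}
    (h0 : c ≠ 0) (hc : chi F c = hf.spin h2 t) (h : Good s t c) : OC g := by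
  obtain ⟨v, rfl, h3, h4, h5⟩ := h
  have h1 : ∀ s : f.Isom, f.B v (s.1 v) ≠ 2 * f.Q v → f.B v (s.1 v) ≠ -(2 * f.Q v) →
      s.1 v ≠ v ∧ s.1 v ≠ -v := fun s h4 h5 =>
    ⟨fun e => h4 (by rw [e, orth_B_self]), fun e => h5 (by rw [e, B_neg_right, orth_B_self])⟩
  have h6 := h1 s h4 h5
  have h7 := h1 t (h3 ▸ h4) (h3 ▸ h5)
  rw [hk.eq]
  refine oc_of_vec hf h2 hk.hs hk.ht hk.res (hk.spin_eq hf h2 hg) hn h0 h3
    (iff_of_false h6.1 h7.1) (iff_of_false h6.2 h7.2) ((hf.mem_commutator_iff h2 _).2 ⟨?_, ?_⟩)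
  · rw [map_mul, ht, detHom_refl]; simp
  · rw [map_mul, hf.spin_refl, hc, hf.spin_mul_self]

omit [Fintype F] in
theorem big_of_comm (h2 : (2 : F) ≠ 0) {s t : f.Isom} (hs : s * s = 1) (ht : t * t = 1)
    {X Y : Submodule F V} (hX : X ≤ Isom.fix s) (hY : Y ≤ Isom.res s)
    (hd : finrank F V ≤ finrank F X + finrank F Y + 2)
    (h1 : ∀ x ∈ X, t.1 x ∈ Isom.fix s) (h3 : ∀ y ∈ Y, t.1 y ∈ Isom.res s) : Big (s * t) := by
  have h4 := Submodule.finrank_sup_add_finrank_inf_eq X Y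
  rw [((disjoint_fix_res h2 hs).mono hX hY).eq_bot, finrank_bot] at h4
  have h5 := finrank_le_add (A := X ⊔ Y) (B := Isom.fix (f.negOne * (s * t))) (φ := Isom.N (s * t))
    (K := Isom.fix (s * t)) (fun v hv => by
      obtain ⟨x, hx, y, hy, rfl⟩ := Submodule.mem_sup.1 hv
      rw [Isom.mem_fix, neg_apply, Isom.N_apply]
      simp only [Isom.mul_apply, map_add, map_sub, map_neg, Isom.mem_fix.1 (h1 x hx), ss ht,
        (mem_res_iff h2 hs).1 (h3 y hy), Isom.mem_fix.1 (hX hx), (mem_res_iff h2 hs).1 (hY hy)]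
      abel) fun _ _ h => h
  have := Submodule.finrank_mono (inf_le_left (a := Isom.fix (s * t)) (b := X ⊔ Y))
  unfold Big
  omega

theorem big_of_sphere (hf : f.Nondeg) (h2 : (2 : F) ≠ 0) {s t : f.Isom} (hs : s * s = 1)
    (ht : t * t = 1) (hd : 3 ≤ finrank F (Isom.res s)) (c : F)
    (h : ∀ b ∈ Isom.res s, ∀ b' ∈ Isom.res s, f.Q b = c → f.Q b' = c →
      (∃ x ∈ Isom.fix s, f.B x (t.1 b) ≠ 0) → (∃ x ∈ Isom.fix s, f.B x (t.1 b') ≠ 0) →
      ∃ k, ∀ x ∈ Isom.fix s, f.B x (t.1 b') = k * f.B x (t.1 b)) : Big (s * t) := by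
  have hY := nondeg_res hf h2 hs
  have h1 := Isom.finrank_res_add_fix s
  have key : ∀ X ≤ Isom.fix s, ∀ Y ≤ Isom.res s, finrank F V ≤ finrank F X + finrank F Y + 2 →
      (∀ x ∈ X, ∀ y ∈ Isom.res s, f.B x (t.1 y) = 0) →
      (∀ x ∈ Isom.fix s, ∀ y ∈ Y, f.B x (t.1 y) = 0) → Big (s * t) := fun X hX Y hY hd h3 h4 =>
    big_of_comm h2 hs ht hX hY hd
      (fun x hx => hf.orth_res s ▸ fun y hy => (B_invol ht x y).trans (h3 x hx y hy))
      fun y hy => hf.orth_fix s ▸ mem_orth'.2 fun x hx => h4 x hx y hy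
  by_cases H : ∃ b ∈ Isom.res s, f.Q b = c ∧ ∃ x ∈ Isom.fix s, f.B x (t.1 b) ≠ 0
  · obtain ⟨b, hb, e, x, hx, h0⟩ := H
    have h3 : ∀ z ∈ Isom.fix s, ∀ y ∈ Isom.res s,
        f.B z (t.1 y) * f.B x (t.1 b) = f.B x (t.1 y) * f.B z (t.1 b) := fun z hz y hy => by
      have := span_sphere h2 hY hd c (l := f.B x (t.1 b) • (f.B z ∘ₗ (t.1 : V →ₗ[F] V)) -
        f.B z (t.1 b) • (f.B x ∘ₗ (t.1 : V →ₗ[F] V))) (fun b' hb' e' => by
          change f.B x (t.1 b) * f.B z (t.1 b') - f.B z (t.1 b) * f.B x (t.1 b') = 0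
          by_cases h' : ∃ x ∈ Isom.fix s, f.B x (t.1 b') ≠ 0
          · obtain ⟨k, hk⟩ := h b hb b' hb' e e' ⟨x, hx, h0⟩ h'
            rw [hk x hx, hk z hz]; ring
          · push Not at h'
            rw [h' x hx, h' z hz]; ring) y hy
      change f.B x (t.1 b) * f.B z (t.1 y) - f.B z (t.1 b) * f.B x (t.1 y) = 0 at this
      linear_combination this
    have h4 := finrank_le_inf hf (Isom.fix s) (t.1 b)
    have h5 := finrank_le_inf hf (Isom.res s) (t.1 x)
    refine key _ (inf_le_left (b := f.orth (F ∙ t.1 b))) _ (inf_le_left (b := f.orth (F ∙ t.1 x)))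
      (by omega) (fun z hz y hy => ?_) fun z hz y hy => ?_
    · have := h3 z hz.1 y hy
      rw [mem_orth_singleton.1 hz.2, mul_zero] at this
      exact (mul_eq_zero.1 this).resolve_right h0
    · have := h3 z hz y hy.1
      rw [← B_invol ht x y, orth_symm _ y, mem_orth_singleton.1 hy.2, zero_mul] at this
      exact (mul_eq_zero.1 this).resolve_right h0
  · push Not at H
    have h3 : ∀ x ∈ Isom.fix s, ∀ y ∈ Isom.res s, f.B x (t.1 y) = 0 := fun x hx =>
      span_sphere h2 hY hd c (l := f.B x ∘ₗ (t.1 : V →ₗ[F] V)) fun b hb e => H b hb e x hx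
    exact key _ le_rfl _ le_rfl (by omega) h3 h3

omit [Fintype F] [FiniteDimensional F V] in
theorem T_add {t : f.Isom} (ht : t * t = 1) (a b : V) : f.B (a + b) (t.1 (a + b)) =
    f.B a (t.1 a) + 2 * f.B a (t.1 b) + f.B b (t.1 b) := by
  rw [map_add t.1, B_add_left, B_add_right, B_add_right, ← B_invol ht b a, orth_symm _ a]
  ring

theorem three_eq_zero (h : Fintype.card F = 3) : (3 : F) = 0 := by
  simpa [h] using FiniteField.cast_card_eq_zero F

theorem eq_or_eq_neg (h : Fintype.card F = 3) {a b : F} (ha : a ≠ 0) (hb : b ≠ 0) :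
    a = b ∨ a = -b := by
  have h1 := FiniteField.pow_card_sub_one_eq_one a ha
  have h2 := FiniteField.pow_card_sub_one_eq_one b hb
  rw [h] at h1 h2
  exact sq_eq_sq_iff_eq_or_eq_neg.1 (h1.trans h2.symm)

theorem good_three (hf : f.Nondeg) (h3 : Fintype.card F = 3) {s t : f.Isom} (hs : s * s = 1)
    (ht : t * t = 1) (hX : 4 ≤ finrank F (Isom.fix s)) (hY : 3 ≤ finrank F (Isom.res s)) {c : F}
    (hc : c ≠ 0) : Good s t c ∨ Big (s * t) := by
  have e3 := three_eq_zero h3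
  have h2 : (2 : F) ≠ 0 := fun e => one_ne_zero (show (1 : F) = 0 by linear_combination e3 - e)
  refine or_iff_not_imp_left.2 fun H => big_of_sphere hf h2 hs ht hY (-c) ?_
  have key : ∀ a ∈ Isom.fix s, ∀ b ∈ Isom.res s, f.Q a = -c → f.Q b = -c →
      (f.B a (t.1 b) ≠ 0 ↔ f.B a (t.1 a) + f.B b (t.1 b) = 0) := fun a ha b hb e e' => by
    have h4 : ∀ b ∈ Isom.res s, f.Q b = -c → f.B (a + b) (t.1 (a + b)) ≠ 0 := fun b hb e' h =>
      H (by
        convert Good.of_eig h2 (Isom.mem_fix.1 ha) ((mem_res_iff h2 hs).1 hb) (e ▸ neg_ne_zero.2 hc)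
          (e' ▸ neg_ne_zero.2 hc) (t := t) (by rw [h, e, e', sub_self, mul_zero]) using 1
        rw [e, e']; linear_combination c * e3)
    have h5 := h4 b hb e'
    have h6 := h4 (-b) (neg_mem hb) ((f.Q_neg b).trans e')
    rw [T_add ht] at h5 h6
    simp only [map_neg, LinearMap.neg_apply, neg_neg] at h6
    refine ⟨fun h => by_contra fun h' => ?_, fun h h' => h5 (by rw [h']; linear_combination h)⟩
    rcases eq_or_eq_neg h3 h h' with h7 | h7
    · exact h5 (by linear_combination 2 * h7 + (f.B a (t.1 a) + f.B b (t.1 b)) * e3)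
    · exact h6 (by linear_combination -2 * h7 + (f.B a (t.1 a) + f.B b (t.1 b)) * e3)
  intro b hb b' hb' e e' h h'
  have hF := nondeg_fix hf h2 hs
  obtain ⟨a, ha, e1, h4, h5⟩ := exists_sphere_ne h2 hF hX (neg_ne_zero.2 hc)
    (l := f.B.flip (t.1 b)) (l' := f.B.flip (t.1 b')) h h'
  have h6 : f.B b (t.1 b) = f.B b' (t.1 b') := by
    linear_combination (key a ha b hb e1 e).1 h4 - (key a ha b' hb' e1 e').1 h5
  by_contra h7
  push Not at h7
  obtain ⟨x, hx, h8⟩ := h7 1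
  obtain ⟨y, hy, h9⟩ := h7 (-1)
  obtain ⟨z, hz, e2, h10, h11⟩ := exists_sphere_ne h2 hF hX (neg_ne_zero.2 hc)
    (l := f.B.flip (t.1 b') - f.B.flip (t.1 b)) (l' := f.B.flip (t.1 b') + f.B.flip (t.1 b))
    ⟨x, hx, fun h => h8 (by simpa [sub_eq_zero] using h)⟩
    ⟨y, hy, fun h => h9 (by simpa [add_eq_zero_iff_eq_neg] using h)⟩
  have h12 := key z hz b hb e2 e
  rw [h6, ← key z hz b' hb' e2 e', not_iff_not] at h12
  by_cases h13 : f.B z (t.1 b) = 0
  · exact h10 (by simp [h13, h12.1 h13])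
  · rcases eq_or_eq_neg h3 (mt h12.2 h13) h13 with h14 | h14
    · exact h10 (by simp [h14])
    · exact h11 (by simp [h14])

theorem good_five (hf : f.Nondeg) (h2 : (2 : F) ≠ 0) (hq : 4 ≤ Fintype.card F) {s t : f.Isom}
    (hs : s * s = 1) (ht : t * t = 1) (hX : 4 ≤ finrank F (Isom.fix s))
    (hY : 3 ≤ finrank F (Isom.res s)) (c : F) : Good s t c ∨ Big (s * t) := by
  classical
  have hF := nondeg_fix hf h2 hs
  have hR := nondeg_res hf h2 hs
  refine or_iff_not_imp_left.2 fun H => big_of_sphere hf h2 hs ht hY 0 ?_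
  have key : ∀ n ∈ Isom.fix s, ∀ m ∈ Isom.res s, f.Q n = 0 → f.Q m = 0 →
      f.B n (t.1 n) * f.B m (t.1 m) = f.B n (t.1 m) * f.B n (t.1 m) := fun n hn m hm e e' => by
    by_contra h
    have h3 := finrank_le_inf hf (Isom.fix s) n
    have h4 := finrank_le_inf hf (Isom.res s) m
    obtain ⟨b, hb, h5, h6⟩ : ∃ b ∈ Isom.res s ⊓ f.orth (F ∙ m), f.Q b ≠ 0 ∧ f.Q b ≠ c := by
      obtain ⟨b, hb, h5⟩ : ∃ b ∈ Isom.res s ⊓ f.orth (F ∙ m), f.Q b ≠ 0 := by
        by_contra h5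
        push Not at h5
        have := finrank_rad_le hR (inf_le_left (b := f.orth (F ∙ m)))
        rw [inf_eq_left.2 (totSing_of_Q h5).le_orth] at this
        omega
      by_cases h6 : f.Q b = c
      · obtain ⟨k, -, hk⟩ := Finset.exists_mem_notMem_of_card_lt_card (t := Finset.univ)
          (s := ({0, 1, -1} : Finset F))
          (Finset.card_le_three.trans_lt (by rw [Finset.card_univ]; omega))
        simp only [Finset.mem_insert, Finset.mem_singleton, not_or] at hk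
        refine ⟨k • b, Submodule.smul_mem _ _ hb, ?_, ?_⟩ <;> rw [orth_Q_smul]
        · exact mul_ne_zero (mul_ne_zero hk.1 hk.1) h5
        · rw [← h6, Ne, mul_eq_right₀ h5, mul_self_eq_one_iff]
          exact not_or.2 hk.2
      · exact ⟨b, hb, h5, h6⟩
    obtain ⟨a, ha, h7⟩ := univ hF (inf_le_left (b := f.orth (F ∙ n))) (by omega) (c - f.Q b)
    obtain ⟨x, y, h8⟩ := exists_quad h2 (sub_ne_zero.2 h) (f.B (a + b) (t.1 n))
      (f.B (a + b) (t.1 m)) (2 * (f.Q a - f.Q b) - f.B (a + b) (t.1 (a + b)))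
    have h9 : f.Q (a + x • n) = f.Q a := by
      rw [orth_Q_add, orth_Q_smul, orth_B_smul_right, e, mem_orth_singleton.1 ha.2]; simp
    have h10 : f.Q (b + y • m) = f.Q b := by
      rw [orth_Q_add, orth_Q_smul, orth_B_smul_right, e', mem_orth_singleton.1 hb.2]; simp
    refine H ?_
    convert Good.of_eig h2 (t := t) (Isom.mem_fix.1 (add_mem ha.1 (Submodule.smul_mem _ x hn)))
      ((mem_res_iff h2 hs).1 (add_mem hb.1 (Submodule.smul_mem _ y hm)))
      (by rw [h9, h7]; exact sub_ne_zero.2 h6.symm) (h10 ▸ h5) ?_ using 1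
    · rw [h9, h10, h7, sub_add_cancel]
    · rw [h9, h10, add_add_add_comm, T_add ht, T_add ht (x • n)]
      simp only [map_add t.1 (x • n), map_smul t.1, B_add_right, B_smul_left, orth_B_smul_right]
      linear_combination h8
  intro b hb b' hb' e e' h h'
  obtain ⟨a, ha, e1, h4, h5⟩ := exists_cone_ne h2 hq hF (by omega)
    (l := f.B.flip (t.1 b)) (l' := f.B.flip (t.1 b')) h h'
  replace h4 : f.B a (t.1 b) ≠ 0 := h4
  have h6 := key a ha b hb e1 e
  have h7 := key a ha b' hb' e1 e'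
  have h8 : f.B a (t.1 a) ≠ 0 := fun h => h4 (by simpa [h] using h6)
  by_contra h9
  push Not at h9
  obtain ⟨x, hx, h10⟩ := h9 (f.B a (t.1 b') / f.B a (t.1 b))
  obtain ⟨y, hy, h11⟩ := h9 (-(f.B a (t.1 b') / f.B a (t.1 b)))
  obtain ⟨z, hz, e2, h12, h13⟩ := exists_cone_ne h2 hq hF (by omega)
    (l := f.B a (t.1 b) • f.B.flip (t.1 b') - f.B a (t.1 b') • f.B.flip (t.1 b))
    (l' := f.B a (t.1 b) • f.B.flip (t.1 b') + f.B a (t.1 b') • f.B.flip (t.1 b))
    ⟨x, hx, fun h => h10 (by simp at h; field_simp; linear_combination h)⟩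
    ⟨y, hy, fun h => h11 (by simp at h; field_simp; linear_combination h)⟩
  refine mul_ne_zero h12 h13 ?_
  simp only [LinearMap.sub_apply, LinearMap.add_apply, LinearMap.smul_apply, LinearMap.flip_apply,
    smul_eq_mul]
  linear_combination (-f.B z (t.1 b') * f.B z (t.1 b')) * h6 + (f.B z (t.1 b) * f.B z (t.1 b)) * h7 -
    f.B a (t.1 a) * f.B b (t.1 b) * key z hz b' hb' e2 e' +
    f.B a (t.1 a) * f.B b' (t.1 b') * key z hz b hb e2 e

theorem card_cases (h2 : (2 : F) ≠ 0) : Fintype.card F = 3 ∨ 5 ≤ Fintype.card F := by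
  have := Fintype.one_lt_card (α := F)
  obtain ⟨k, hk⟩ := odd_card h2
  omega

theorem oc_of_det (hf : f.Nondeg) (h2 : (2 : F) ≠ 0) {g s t : f.Isom} (hk : KT g s t)
    (hg : g ∈ commutator f.Isom) (hn : 7 ≤ finrank F V) (ht : f.detHom t = -1) : OC g := by
  obtain ⟨c, h0, hc⟩ := exists_chi_eq h2 (hf.spin_mul_self h2 t)
  have key : ∀ s t : f.Isom, s * s = 1 → t * t = 1 → 4 ≤ finrank F (Isom.fix s) →
      3 ≤ finrank F (Isom.res s) → Good s t c ∨ Big (s * t) := fun s t hs ht h3 h4 =>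
    (card_cases h2).elim (fun h => good_three hf h hs ht h3 h4 h0)
      fun h => good_five hf h2 (by omega) hs ht h3 h4 c
  have h3 := Isom.finrank_res_add_fix s
  have h4 := hk.bal
  unfold Bal at h4
  have : Good s t c ∨ Big g := by
    by_cases e : 4 ≤ finrank F (Isom.fix s)
    · exact hk.eq ▸ key s t hk.hs hk.ht e (by omega)
    · exact (key _ _ (neg_sq hk.hs) (neg_sq hk.ht) (by rw [fix_neg h2 hk.hs]; omega)
        (by rw [res_neg h2 hk.hs]; omega)).imp Good.of_neg fun h => (hk.neg h2).eq ▸ h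
  exact this.elim (Good.oc hf h2 hk hg hn ht h0 hc) fun h => h.oc hf h2 hg hn

theorem oc_odd (hf : f.Nondeg) (h2 : (2 : F) ≠ 0) {g : f.Isom} (hg : g ∈ commutator f.Isom)
    (hn : 7 ≤ finrank F V) (hn' : finrank F V % 2 = 1 ∨ finrank F V % 4 = 2) : OC g := by
  obtain ⟨s, t, hk, ht⟩ := exists_kt_odd hf h2 ((hf.mem_commutator_iff h2 _).1 hg).1 hn'
  exact oc_of_det hf h2 hk hg hn ht

theorem oc_minus (hf : f.Nondeg) (h2 : (2 : F) ≠ 0) {g : f.Isom} (hg : g ∈ commutator f.Isom)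
    (hn : 3 ≤ finrank F V) (hn' : finrank F V % 4 = 0) (hd : f.disc = -1) : OC g := by
  obtain ⟨s, t, hk⟩ := exists_kt hf h2 ((hf.mem_commutator_iff h2 _).1 hg).1
  have key : ∀ s t, KT g s t → hf.spin h2 t = 1 → OC g := fun s t hk h =>
    hk.oc_of_mem hf h2 hg ((hf.mem_commutator_iff h2 _).2 ⟨by
      rw [hk.det hf h2 (k := finrank F V / 2) (by omega),
        (Nat.even_iff.2 (by omega)).neg_one_pow], h⟩) hn
  rcases hf.spin_dichotomy h2 t with h | h
  · exact key s t hk h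
  · refine key _ _ (hk.neg h2) ?_
    obtain ⟨k, hk⟩ : Even (finrank F V) := Nat.even_iff.2 (by omega)
    rw [map_mul, h, hf.spin_negOne, hd, hk, pow_add, ← mul_pow, chi_mul_self h2]
    simp

end Cfsg.Agent.Ore
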